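import Cfsg.Agent.L0.Cover
import Cfsg.Prelude.Def_IsolatedElements

/-!
# The amalgam of the McLaughlin group: abstract part
-/

set_option autoImplicit false

namespace Cfsg.Agent.L0.McL

open Cover

theorem cube_mul {Γ : Type*} [Group Γ] {c x x1 x2 x3 : Γ} (k1 : c * x = x1 * c)
    (k2 : c * x1 = x2 * c) (k3 : c * x2 = x3 * c) : c * c * c * x = x3 * (c * c * c) := by
  rw [mul_assoc, k1, mul_assoc, ← mul_assoc c x1, k2, ← mul_assoc, ← mul_assoc, k3]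
  group

theorem tetra {Γ : Type*} [Group Γ] {y s b d₂ d₃ d₄ g₂ g₃ g₄ z z' : Γ} (k1 : y * y * y = 1)
    (k2 : s * s = 1) (k3 : s * y * (s * y) = 1) (k4 : d₂ = b⁻¹ * s * b)
    (k5 : d₄ = (b * d₃ * b)⁻¹ * s) (k6 : y * y * d₂ = g₂ * (y * y))
    (k7 : y * y * d₄ = g₄ * (y * y)) (k8 : y * d₃ = g₃ * y) (k9 : y * z = z' * y)
    (k10 : z = y * b * (y * b) * (y * b)) :
    s * z * s⁻¹ * ((s * b⁻¹ * s) * y * (s * b⁻¹ * g₂)) =
      z' * (g₃ * z * g₃⁻¹) * ((g₃ * b⁻¹ * s) * y * (s * b⁻¹ * g₄ * s * b⁻¹)) := by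
  have l1 : y⁻¹ = y * y := by rw [inv_eq_iff_mul_eq_one, ← mul_assoc, k1]
  have l2 : s⁻¹ = s := inv_eq_of_mul_eq_one_right k2
  have l3 : s * y * s = y⁻¹ := by rw [eq_inv_iff_mul_eq_one, mul_assoc, k3]
  rw [← l1] at k6 k7
  have l4 : g₂ = y⁻¹ * d₂ * y := by rw [k6]; group
  have l5 : g₄ = y⁻¹ * d₄ * y := by rw [k7]; group
  have l6 : g₃ = y * d₃ * y⁻¹ := by rw [k8]; group
  have l7 : z' = y * z * y⁻¹ := by rw [k9]; group
  have l8 : z * b⁻¹ * y⁻¹ * b⁻¹ = y * b * y := by rw [k10]; group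
  calc _ = s * (z * (s⁻¹ * s) * b⁻¹ * (s * y * s) * b⁻¹) * g₂ := by group
    _ = s * (z * b⁻¹ * y⁻¹ * b⁻¹) * g₂ := by rw [l3]; group
    _ = (s * y * s) * b * y := by rw [l8, l4, k4]; group
    _ = y * (y * b * y) := by rw [l3, l1]; group
    _ = y * z * (b⁻¹ * s) * y * s * b⁻¹ := by rw [← l8, ← l3]; group
    _ = y * z * d₃ * y⁻¹ * (y * b * y) * y⁻¹ * d₄ * y * s * b⁻¹ := by rw [k5]; group
    _ = z' * g₃ * (z * b⁻¹ * (s * y * s) * b⁻¹) * g₄ * s * b⁻¹ := by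
      rw [← l8, l3, l5, l6, l7]; group
    _ = _ := by group

variable {P : Type*} [Group P] {H : Subgroup P}

/-- `z` centralizes `e` and its conjugate by `a`. -/
def Cm (a e z : H) : Prop := Commute z e ∧ Commute z (a * e * a⁻¹)

/-- Facts on the normalizer of an elementary abelian subgroup of order `16`. -/
structure Tet (u s a e b : H) (Y : P) : Prop where
  nb : ∀ z : H, Commute z u → Cm a e z → Commute (b * z * b⁻¹) u ∧ Cm a e (b * z * b⁻¹)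
  nY : ∀ z z' : H, Commute z u → Cm a e z → Y * z = z' * Y → Cm a e z'
  cu : Cm a e u
  ce : Cm a e e
  b3 : Y * b * (Y * b) * (Y * b) = 1
  sb : Commute (b⁻¹ * s * b) u
  ex : ∃ d : H, Commute d u ∧ Commute ((b * d * b)⁻¹ * s) u ∧ ∀ z : H, Commute z u → Cm a e z →
    Commute (z : P) (Y * b) → (s : P) * z * (s : P)⁻¹ =
      Y * z * Y⁻¹ * (Y * d * Y⁻¹ * z * (Y * d * Y⁻¹)⁻¹) → z = 1

/-- Facts on the model. -/
structure Mdl (T u s a e₁ e₂ b₁ b₂ : H) (Y : P) : Prop where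
  cT : ∀ h : H, Commute h T
  T2 : T * T = 1
  u2 : u * u = 1
  uT : u ≠ T
  YT : Y * T = u * Y
  Yu : Y * u = T * u * Y
  Y3 : Y * Y * Y = 1
  s2 : s * s = 1
  sY : s * Y * (s * Y) = 1
  inv : ∀ z : H, z * z = 1 → z ≠ 1 → z ≠ T → ∃ h : H, h * u * h⁻¹ = z
  gen : ∀ d : H, Commute d u → d ∈ Subgroup.closure {a, e₁, e₂}
  au : Commute a u
  e1u : Commute e₁ u
  e2u : Commute e₂ u
  r0 : a * a * a = 1
  r1 : e₁ * e₁ = 1
  r2 : e₁ * a * (e₁ * a) * (e₁ * a) = 1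
  r3 : e₂ * e₂ = 1
  r4 : e₂ * a * (e₂ * a) * (e₂ * a) = 1
  r5 : e₁ * e₂ = T * (e₂ * e₁)
  r6 : a * e₁ * (a * a) * e₂ = u * (e₂ * (a * e₁ * (a * a)))
  two : ∀ z : H, Commute z u → z * z = 1 → Cm a e₁ z ∨ Cm a e₂ z
  ab1 : ∀ z z' : H, Commute z u → Commute z' u → Cm a e₁ z → Cm a e₁ z' → Commute z z'
  ab2 : ∀ z z' : H, Commute z u → Commute z' u → Cm a e₂ z → Cm a e₂ z' → Commute z z'
  nor : ∀ d : H, Commute d u → Cm a e₁ (d * e₁ * d⁻¹)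
  aut : ∀ f₀ f₁ f₂ : H, Commute f₀ u → Commute f₁ u → Commute f₂ u → f₀ * f₀ * f₀ = 1 →
    f₁ * f₁ = 1 → f₁ * f₀ * (f₁ * f₀) * (f₁ * f₀) = 1 → Commute f₁ e₁ → f₂ * f₂ = 1 →
    f₂ * f₀ * (f₂ * f₀) * (f₂ * f₀) = 1 → f₁ * f₂ = u * (f₂ * f₁) →
    f₀ * f₁ * (f₀ * f₀) * f₂ = T * u * (f₂ * (f₀ * f₁ * (f₀ * f₀))) →
    ∃ d : H, Commute d u ∧ f₀ * (Y * d) = Y * d * a ∧ f₁ * (Y * d) = Y * d * e₁ ∧
      f₂ * (Y * d) = Y * d * e₂
  cen3 : ∀ z : H, Commute z u → Commute z e₁ → Commute z e₂ → Commute (z : P) Y → z = 1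
  cen2 : ∀ z : H, Commute z u → Commute z e₁ → Commute z e₂ → Commute (z : P) (s * Y) →
    z = 1 ∨ z = u
  tet1 : Tet u s a e₁ b₁ Y
  tet2 : Tet u s a e₂ b₂ Y
  tri : ∀ h : H, Commute (h * u * h⁻¹) u → ∃ d c : H, Commute d u ∧
    (c = 1 ∨ c = s ∨ c = b₁ ∨ c = b₂) ∧ h * u * h⁻¹ = d * c * u * (d * c)⁻¹

variable {G : Type*} [Group G] {T u s a e₁ e₂ b₁ b₂ : H} {Y : P} {ψ : H →* G}

theorem Mdl.Tu (M : Mdl T u s a e₁ e₂ b₁ b₂ Y) : H.subtype (T * u) = Y⁻¹ * T * Y := by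
  have h2 : (u : P) * u = 1 := congrArg Subtype.val M.u2
  have h3 : (u : P) * T = T * u := congrArg Subtype.val (M.cT u).eq
  calc _ = Y⁻¹ * (Y * T) * u := by simp
    _ = Y⁻¹ * (u * T) * u * Y := by rw [M.YT, mul_assoc, mul_assoc, M.Yu]; group
    _ = Y⁻¹ * T * (u * u) * Y := by rw [h3]; group
    _ = _ := by rw [h2, mul_one]

theorem Mdl.su (M : Mdl T u s a e₁ e₂ b₁ b₂ Y) : s * u * s⁻¹ = T * u := by
  apply H.subtype_injective
  have h3 : (s : P) * T = T * s := congrArg Subtype.val (M.cT s).eq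
  have h4 : (u : P) = Y * T * Y⁻¹ := by rw [M.YT]; group
  have h6 : (s : P) * Y = Y⁻¹ * (s : P)⁻¹ := by rw [← mul_inv_rev, eq_inv_iff_mul_eq_one, M.sY]
  calc _ = (s : P) * u * (s : P)⁻¹ := rfl
    _ = s * Y * T * (s * Y)⁻¹ := by rw [h4]; group
    _ = Y⁻¹ * ((s : P)⁻¹ * (T * s)) * Y := by rw [h6]; group
    _ = _ := by rw [← h3, M.Tu]; group

theorem Mdl.comm_Tu (M : Mdl T u s a e₁ e₂ b₁ b₂ Y) {z : H} (h : Commute z (T * u)) :
    Commute z u := by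
  simpa using (M.cT z).inv_right.mul_right h

/-- `g` normalizes the image of `D = C_H(u)` and acts on it as `γ`. -/
def Rl (ψ : H →* G) (u : H) (g : G) (γ : P) : Prop :=
  ∀ x : H, Commute x u → ∃ x' : H, Commute x' u ∧ γ * x = x' * γ ∧ g * ψ x = ψ x' * g

theorem Rl.mul {g g' : G} {γ γ' : P} (h : Rl ψ u g γ) (h' : Rl ψ u g' γ') :
    Rl ψ u (g * g') (γ * γ') := fun x hx => by
  obtain ⟨x', h1, h2, h3⟩ := h' x hx
  obtain ⟨x'', h4, h5, h6⟩ := h x' h1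
  exact ⟨x'', h4, by rw [mul_assoc, h2, ← mul_assoc, h5, mul_assoc],
    by rw [mul_assoc, h3, ← mul_assoc, h6, mul_assoc]⟩

theorem Rl.of_conj {h : H} (hh : ∀ x : H, Commute x u → Commute (h * x * h⁻¹) u) :
    Rl ψ u (ψ h) h := fun x hx =>
  ⟨h * x * h⁻¹, hh x hx, by push_cast; group, by simp only [map_mul, map_inv]; group⟩

theorem Rl.of_comm {h : H} (hh : Commute h u) : Rl ψ u (ψ h) h :=
  Rl.of_conj fun _ hx => (hh.mul_left hx).mul_left hh.inv_left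

theorem Mdl.Rl_s (M : Mdl T u s a e₁ e₂ b₁ b₂ Y) : Rl ψ u (ψ s) s := Rl.of_conj fun x hx =>
  M.comm_Tu (by rw [← M.su]; exact hx.map (MulAut.conj s))

theorem Rl.comm {g : G} (h : Rl ψ u g 1) {x : H} (hx : Commute x u) : Commute g (ψ x) := by
  obtain ⟨x', -, h2, h3⟩ := h x hx
  rw [one_mul, mul_one] at h2
  rwa [← Subtype.ext h2] at h3

theorem Rl.eq {g : G} {γ : P} (h : Rl ψ u g γ) {x x' : H} (hx : Commute x u)
    (e : γ * x = x' * γ) : g * ψ x = ψ x' * g := by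
  obtain ⟨x'', -, h2, h3⟩ := h x hx
  rwa [Subtype.ext (mul_right_cancel (h2.symm.trans e))] at h3

theorem Rl.comm_of (hψ : Function.Injective ψ) {g : G} {γ : P} (h : Rl ψ u g γ) {x : H}
    (hx : Commute x u) (hc : Commute g (ψ x)) : Commute (x : P) γ := by
  obtain ⟨x', -, h2, h3⟩ := h x hx
  rw [hc.eq] at h3
  rw [← hψ (mul_right_cancel h3)] at h2
  exact h2.symm

section

variable (M : Mdl T u s a e₁ e₂ b₁ b₂ Y) (hψ : Function.Injective ψ)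
  (hC : ∀ g : G, Commute g (ψ T) → ∃ h, ψ h = g)
include M hψ hC

theorem Mdl.exists_cen {g : G} (h : Rl ψ u g 1) :
    ∃ z : H, ψ z = g ∧ Commute z u ∧ Commute z e₁ ∧ Commute z e₂ := by
  obtain ⟨z, rfl⟩ := hC g (h.comm (M.cT u).symm)
  exact ⟨z, rfl, Commute.of_map hψ (h.comm (Commute.refl u)),
    Commute.of_map hψ (h.comm M.e1u),
    Commute.of_map hψ (h.comm M.e2u)⟩

theorem Mdl.cube {y : G} (h : Rl ψ u y Y) : y * y * y = 1 := by
  obtain ⟨z, e, h1, h2, h3⟩ := M.exists_cen hψ hC (M.Y3 ▸ (h.mul h).mul h)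
  rw [← e, M.cen3 z h1 h2 h3 (h.comm_of hψ h1 (by
    rw [e]; exact ((Commute.refl y).mul_right (Commute.refl y)).mul_right (Commute.refl y))),
    map_one]

theorem Mdl.exists_y0 (hi : ¬ IsIsolated (ψ T)) :
    ∃ y : G, y * ψ T * y⁻¹ = ψ u ∧ y * ψ u * y⁻¹ = ψ (T * u) := by
  have key : ∀ g : G, Commute (ψ T) (g * ψ T * g⁻¹) → g * ψ T * g⁻¹ ≠ ψ T →
      ∃ h : H, (ψ h)⁻¹ * g * ψ T * ((ψ h)⁻¹ * g)⁻¹ = ψ u := by
    intro g h1 h2
    obtain ⟨z, hz⟩ := hC _ h1.symm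
    obtain ⟨h, rfl⟩ := M.inv z (hψ (by
      rw [map_mul, hz, map_one, conj_mul, ← map_mul, M.T2, map_one]; simp))
      (fun e => M.uT (by
        rw [e, map_one, eq_comm, conj_eq_one_iff] at hz
        have h3 : T = 1 := hψ (by rw [hz, map_one])
        have h4 := M.YT
        rw [h3] at h4 ⊢
        exact Subtype.ext (by simpa using h4.symm))) (fun e => h2 (by rw [← hz, e]))
    refine ⟨h, ?_⟩
    calc _ = (ψ h)⁻¹ * (g * ψ T * g⁻¹) * ψ h := by group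
      _ = _ := by rw [← hz, map_mul, map_mul, map_inv]; group
  unfold IsIsolated at hi
  push Not at hi
  obtain ⟨g, h1, h2⟩ := hi
  obtain ⟨h, e⟩ := key g h1 h2
  generalize (ψ h)⁻¹ * g = g at e
  have h3 : Commute (ψ T) (ψ u) := (M.cT u).symm.map ψ
  obtain ⟨h, e'⟩ := key g⁻¹ (by
    have := h3.symm.map (MulAut.conj g⁻¹)
    simp only [MulAut.conj_apply] at this
    rwa [show g⁻¹ * ψ u * g⁻¹⁻¹ = ψ T by rw [← e]; group] at this) (fun e' => M.uT (hψ (by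
      rw [← e]; nth_rewrite 1 [← e']; group)))
  have h4 : ψ h * ψ T * (ψ h)⁻¹ = ψ T := by rw [((M.cT h).map ψ).eq]; group
  have h5 : ψ s * ψ T * (ψ s)⁻¹ = ψ T := by rw [((M.cT s).map ψ).eq]; group
  have h6 : g * ψ h * ψ T * (g * ψ h)⁻¹ = ψ u := by
    calc _ = g * (ψ h * ψ T * (ψ h)⁻¹) * g⁻¹ := by group
      _ = _ := by rw [h4, e]
  have h7 : g * ψ h * ψ u * (g * ψ h)⁻¹ = ψ T := by rw [← e']; group
  generalize g * ψ h = g at h6 h7
  refine ⟨g * ψ s, ?_, ?_⟩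
  · calc _ = g * (ψ s * ψ T * (ψ s)⁻¹) * g⁻¹ := by group
      _ = _ := by rw [h5, h6]
  · calc _ = g * ψ (s * u * s⁻¹) * g⁻¹ := by simp only [map_mul, map_inv]; group
      _ = (g * ψ T * g⁻¹) * (g * ψ u * g⁻¹) := by rw [M.su, map_mul]; group
      _ = _ := by rw [h6, h7, map_mul, h3.eq]

theorem Mdl.exists_y1 (hi : ¬ IsIsolated (ψ T)) : ∃ y : G, Rl ψ u y Y := by
  obtain ⟨y, h1, h2⟩ := M.exists_y0 hψ hC hi
  have h3 : y * ψ (T * u) * y⁻¹ = ψ T := by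
    calc _ = (y * ψ T * y⁻¹) * (y * ψ u * y⁻¹) := by rw [map_mul]; group
      _ = ψ (u * (u * T)) := by rw [h1, h2, (M.cT u).eq, map_mul ψ u]
      _ = _ := by rw [← mul_assoc, M.u2, one_mul]
  have h4 : ∀ x : H, Commute x u → ∃ x' : H, Commute x' u ∧ y * ψ x * y⁻¹ = ψ x' := by
    intro x hx
    obtain ⟨x', e⟩ := hC (y * ψ x * y⁻¹) (by
      rw [← h3]; exact (((M.cT x).mul_right hx).map ψ).map (MulAut.conj y))
    refine ⟨x', Commute.of_map hψ ?_, e.symm⟩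
    rw [e, ← h1]
    exact ((M.cT x).map ψ).map (MulAut.conj y)
  let α : G ≃* G := MulAut.conj y
  have hα : ∀ g, α g = y * g * y⁻¹ := fun _ => rfl
  simp only [← hα] at h1 h2 h3 h4
  obtain ⟨f₀, c₀, a₀⟩ := h4 a M.au
  obtain ⟨f₁, c₁, a₁⟩ := h4 e₁ M.e1u
  obtain ⟨f₂, c₂, a₂⟩ := h4 e₂ M.e2u
  have hsq : ∀ {x x' : H}, x * x = 1 → α (ψ x) = ψ x' → x' * x' = 1 := fun hx e =>
    hψ (by rw [map_mul, ← e, ← map_mul, ← map_mul, hx, map_one, map_one])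
  have hcm : ∀ {x x' z z' : H}, α (ψ x) = ψ x' → α (ψ z) = ψ z' → Commute x' z' → Commute x z :=
    fun e e' hc => Commute.of_map hψ
      (Commute.of_map α.injective (by rw [e, e']; exact hc.map ψ))
  have h5 : Commute f₁ e₁ := by
    by_contra hn
    obtain ⟨g₂, d₂, n₂⟩ := h4 f₁ c₁
    obtain ⟨g₃, d₃, n₃⟩ := h4 g₂ d₂
    have k1 := (M.two f₁ c₁ (hsq M.r1 a₁)).resolve_left fun h => hn h.1
    have k2 := (M.two g₂ d₂ (hsq (hsq M.r1 a₁) n₂)).resolve_right fun h =>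
      hn (hcm n₂ a₁ (M.ab2 _ _ d₂ c₁ h k1))
    obtain ⟨d, hd⟩ := hC (y * y * y) (by
      have : α (α (α (ψ T))) = ψ T := by rw [h1, h2, h3]
      simp only [hα] at this
      change _ * _ = _ * _
      conv_rhs => rw [← this]
      group)
    have hdu : Commute d u := Commute.of_map hψ (by
      have : α (α (α (ψ u))) = ψ u := by rw [h2, h3, h1]
      simp only [hα] at this
      change _ * _ = _ * _
      conv_rhs => rw [← this]
      rw [hd]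
      group)
    have k3 : g₃ = d * e₁ * d⁻¹ := hψ (by
      rw [← n₃, ← n₂, ← a₁, map_mul, map_mul, map_inv, hd]
      simp only [hα]
      group)
    exact hn (hcm n₂ a₁ (hcm n₃ n₂ (M.ab1 _ _ d₃ d₂ (k3 ▸ M.nor d hdu) k2)))
  have tr : ∀ {x x' : H}, α (ψ x) = ψ x' → x = 1 → x' = 1 := fun e h =>
    hψ (by rw [← e, h, map_one, map_one])
  have tr2 : ∀ {x x' z z' : H}, α (ψ x) = ψ x' → α (ψ z) = ψ z' → x = z → x' = z' := fun e e' h =>
    hψ (by rw [← e, ← e', h])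
  obtain ⟨d, hd, k0, k1, k2⟩ := M.aut f₀ f₁ f₂ c₀ c₁ c₂
    (tr (by simp only [map_mul, a₀]) M.r0) (hsq M.r1 a₁)
    (tr (by simp only [map_mul, a₀, a₁]) M.r2) h5 (hsq M.r3 a₂)
    (tr (by simp only [map_mul, a₀, a₂]) M.r4)
    (tr2 (by simp only [map_mul, a₁, a₂]) (by simp only [map_mul, h1, a₁, a₂]) M.r5)
    (tr2 (by simp only [map_mul, a₀, a₁, a₂]) (by simp only [map_mul, h2, a₀, a₁, a₂]) M.r6)
  have h6 : Rl ψ u y (Y * d) := by
    intro x hx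
    obtain ⟨x', h7, h8⟩ : ∃ x' : H, Y * d * x = x' * (Y * d) ∧ α (ψ x) = ψ x' := by
      have := M.gen x hx
      clear hx
      induction this using Subgroup.closure_induction with
      | mem x hx =>
        rcases hx with rfl | rfl | rfl
        exacts [⟨_, k0.symm, a₀⟩, ⟨_, k1.symm, a₁⟩, ⟨_, k2.symm, a₂⟩]
      | one => exact ⟨1, by simp, by simp⟩
      | mul x z _ _ hx hz =>
        obtain ⟨x', p1, p2⟩ := hx
        obtain ⟨z', q1, q2⟩ := hz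
        refine ⟨x' * z', ?_, by rw [map_mul, map_mul, p2, q2, map_mul]⟩
        push_cast
        rw [← mul_assoc, p1, mul_assoc, q1, ← mul_assoc]
      | inv x _ hx =>
        obtain ⟨x', p1, p2⟩ := hx
        refine ⟨x'⁻¹, ?_, by rw [map_inv, map_inv, p2, map_inv]⟩
        push_cast
        rw [mul_inv_eq_iff_eq_mul, mul_assoc, p1]
        group
    obtain ⟨x'', h9, h10⟩ := h4 x hx
    rw [hψ (h10.symm.trans h8)] at h9
    exact ⟨x', h9, h7, by rw [← h8, hα]; group⟩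
  exact ⟨y * ψ d⁻¹, by simpa using h6.mul (Rl.of_comm (ψ := ψ) hd.inv_left)⟩

theorem Mdl.exists_y2 (hi : ¬ IsIsolated (ψ T)) :
    ∃ y : G, Rl ψ u y Y ∧ ψ s * y * (ψ s * y) = 1 := by
  obtain ⟨y, h⟩ := M.exists_y1 hψ hC hi
  have h1 := M.Rl_s.mul h
  obtain ⟨z, e, c1, c2, c3⟩ := M.exists_cen hψ hC (M.sY ▸ h1.mul h1)
  rcases M.cen2 z c1 c2 c3 (h1.comm_of hψ c1 (by
    rw [e]; exact (Commute.refl _).mul_right (Commute.refl _))) with rfl | rfl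
  · exact ⟨y, h, by rw [← e, map_one]⟩
  · refine ⟨y * ψ T, fun x hx => ?_, ?_⟩
    · obtain ⟨x', p1, p2, p3⟩ := h x hx
      exact ⟨x', p1, p2, by rw [mul_assoc, ← ((M.cT x).map ψ).eq, ← mul_assoc, p3, mul_assoc]⟩
    · have h2 := h.eq (M.cT z).symm M.YT
      have h3 : ψ s * ψ z = ψ T * ψ z * ψ s := by
        rw [← map_mul, ← map_mul, ← map_mul, ← M.su]; simp
      have h4 : y * ψ z = ψ T * ψ z * y := by
        rw [← map_mul ψ T]; exact h.eq (Commute.refl z) M.Yu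
      have h5 : ψ T * ψ T = 1 := by rw [← map_mul, M.T2, map_one]
      have h6 : ψ z * ψ z = 1 := by rw [← map_mul, M.u2, map_one]
      have h7 := ((M.cT s).map ψ).eq
      have h8 := ((M.cT z).map ψ).eq
      calc _ = ψ s * y * (ψ T * ψ s) * (y * ψ T) := by group
        _ = ψ s * y * ψ T * (ψ s * ψ z) * y := by rw [h2]; group
        _ = ψ s * y * (ψ T * ψ T) * ψ z * ψ s * y := by rw [h3]; group
        _ = ψ s * (y * ψ z) * ψ s * y := by rw [h5]; group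
        _ = (ψ s * ψ T) * ψ z * y * ψ s * y := by rw [h4]; group
        _ = ψ T * (ψ s * ψ z) * y * ψ s * y := by rw [h7]; group
        _ = (ψ T * ψ T) * ψ z * (ψ s * y * (ψ s * y)) := by rw [h3]; group
        _ = 1 := by rw [h5, ← e, one_mul, h6]

theorem Mdl.cancel {y : G} (h : Rl ψ u y Y) {A B A' B' : H} (e : A * Y * B = A' * Y * B') :
    ψ A * y * ψ B = ψ A' * y * ψ B' := by
  have h1 : Y * (B' * B⁻¹ : H) = (A'⁻¹ * A : H) * Y := by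
    push_cast
    calc _ = (A' : P)⁻¹ * (A' * Y * B') * (B : P)⁻¹ := by group
      _ = _ := by rw [← e]; group
  have h2 : Commute (B' * B⁻¹) u := M.comm_Tu (Commute.of_map H.subtype_injective (by
    have h4 : H.subtype (B' * B⁻¹) = Y⁻¹ * (A'⁻¹ * A : H) * Y := by
      rw [mul_assoc, ← h1]; simp
    rw [M.Tu, h4]
    simpa using ((M.cT (A'⁻¹ * A)).map H.subtype).map (MulAut.conj Y⁻¹)))
  have h5 := h.eq h2 h1
  simp only [map_mul, map_inv] at h5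
  calc _ = ψ A' * ((ψ A')⁻¹ * ψ A * y) * ψ B := by group
    _ = _ := by rw [← h5]; group

theorem Mdl.tet {y : G} (h : Rl ψ u y Y) (hs : ψ s * y * (ψ s * y) = 1) {e b : H}
    (he : Commute e u) (N : Tet u s a e b Y) : y * ψ b * (y * ψ b) * (y * ψ b) = 1 := by
  have hy := M.cube hψ hC h
  have h1 : ∀ x : H, Commute x u → Cm a e x → ∃ x' : H, Commute x' u ∧ Cm a e x' ∧
      Y * b * x = x' * (Y * b) ∧ y * ψ b * ψ x = ψ x' * (y * ψ b) := by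
    intro x c1 c2
    obtain ⟨c3, c4⟩ := N.nb x c1 c2
    obtain ⟨x', p1, p2, p3⟩ := h _ c3
    refine ⟨x', p1, N.nY _ _ c3 c4 p2, ?_, ?_⟩
    · rw [← mul_assoc, ← p2]; push_cast; group
    · rw [← mul_assoc, ← p3]; simp only [map_mul, map_inv]; group
  have h2 : ∀ x : H, Commute x u → Cm a e x →
      Commute (y * ψ b * (y * ψ b) * (y * ψ b)) (ψ x) := by
    intro x c1 c2
    obtain ⟨x1, p1, p2, p3, p4⟩ := h1 x c1 c2
    obtain ⟨x2, q1, q2, q3, q4⟩ := h1 x1 p1 p2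
    obtain ⟨x3, -, -, r3, r4⟩ := h1 x2 q1 q2
    have k := cube_mul p3 q3 r3
    rw [N.b3, one_mul, mul_one] at k
    rw [← Subtype.ext k] at r4
    exact cube_mul p4 q4 r4
  have hae : Commute (a * e * a⁻¹) u := (M.au.mul_left he).mul_left M.au.inv_left
  obtain ⟨z, hz⟩ := hC _ (h2 T (M.cT u).symm ⟨(M.cT _).symm, (M.cT _).symm⟩)
  rw [← hz] at h2
  have z1 : Commute z u := Commute.of_map hψ (h2 u (Commute.refl u) N.cu)
  have z2 : Cm a e z := ⟨Commute.of_map hψ (h2 e he N.ce), Commute.of_map hψ (h2 _ hae (by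
    refine ⟨N.ce.2.symm, Commute.refl _⟩))⟩
  have z3 : Commute (z : P) (Y * b) := by
    obtain ⟨x1, -, -, p3, p4⟩ := h1 z z1 z2
    have : Commute (y * ψ b) (ψ z) := by
      rw [hz]; exact ((Commute.refl _).mul_right (Commute.refl _)).mul_right (Commute.refl _)
    rw [this.eq] at p4
    rw [← hψ (mul_right_cancel p4)] at p3
    exact p3.symm
  obtain ⟨d₃, c3, c4, hfin⟩ := N.ex
  have c2 := N.sb
  obtain ⟨d₂, hd₂⟩ : ∃ d₂, d₂ = b⁻¹ * s * b := ⟨_, rfl⟩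
  obtain ⟨d₄, hd₄⟩ : ∃ d₄, d₄ = (b * d₃ * b)⁻¹ * s := ⟨_, rfl⟩
  rw [← hd₂] at c2
  rw [← hd₄] at c4
  obtain ⟨g₂, -, p2, q2⟩ := (h.mul h) d₂ c2
  obtain ⟨g₄, -, p4, q4⟩ := (h.mul h) d₄ c4
  obtain ⟨g₃, -, p3, q3⟩ := h d₃ c3
  obtain ⟨z', -, p5, q5⟩ := h z z1
  have s2 : (s : P) * s = 1 := congrArg Subtype.val M.s2
  have k1 := tetra (b := (b : P)) (d₃ := d₃) (z := 1) (z' := 1) M.Y3 s2 M.sY
    (by rw [hd₂]; push_cast; rfl) (by rw [hd₄]; push_cast; rfl) p2 p4 p3 (by simp) N.b3.symm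
  have k2 := tetra (s := ψ s) (b := ψ b) (d₃ := ψ d₃) hy (by rw [← map_mul, M.s2, map_one]) hs
    (by rw [hd₂]; simp only [map_mul, map_inv]) (by rw [hd₄]; simp only [map_mul, map_inv])
    q2 q4 q3 q5 hz
  have k3 := M.cancel hψ hC h (A := s * b⁻¹ * s) (B := s * b⁻¹ * g₂) (A' := g₃ * b⁻¹ * s)
    (B' := s * b⁻¹ * g₄ * s * b⁻¹) (by simpa using k1)
  simp only [map_mul, map_inv] at k3
  rw [k3, mul_left_inj] at k2
  have k4 : s * z * s⁻¹ = z' * (g₃ * z * g₃⁻¹) := hψ (by simpa only [map_mul, map_inv] using k2)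
  rw [← hz, hfin z z1 z2 z3 (by
    rw [p3, p5, mul_inv_cancel_right, mul_inv_cancel_right]
    exact congrArg Subtype.val k4), map_one]

/-- The graph of `ψ`. -/
abbrev gr (ψ : H →* G) : H →* G × P := ψ.prod H.subtype

theorem Mdl.exists_tri (hi : ¬ IsIsolated (ψ T)) :
    ∃ y : G, Tri (MonoidHom.snd G P) (gr ψ).range (y, Y) T ∧
      ∀ d : H, Commute d u → ∃ d' : H, gr ψ d * (y, Y) = (y, Y) * gr ψ d' := by
  obtain ⟨y, h, hs⟩ := M.exists_y2 hψ hC hi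
  have hy := M.cube hψ hC h
  have l1 : y⁻¹ = y * y := by rw [inv_eq_iff_mul_eq_one, ← mul_assoc, hy]
  have l2 : Y⁻¹ = Y * Y := by rw [inv_eq_iff_mul_eq_one, ← mul_assoc, M.Y3]
  have hD : ∀ d : H, Commute d u → ∃ d' : H, gr ψ d * (y, Y) = (y, Y) * gr ψ d' := by
    intro d hd
    obtain ⟨d', -, p, q⟩ := (h.mul h) d hd
    rw [← l1] at q
    rw [← l2] at p
    refine ⟨d', Prod.ext ?_ ?_⟩
    · change ψ d * y = y * ψ d'
      calc _ = y * (y⁻¹ * ψ d) * y := by group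
        _ = _ := by rw [q]; group
    · change d * Y = Y * d'
      calc _ = Y * (Y⁻¹ * d) * Y := by group
        _ = _ := by rw [p]; group
  have hs' : gr ψ s * (y, Y) * (gr ψ s * (y, Y)) = 1 := Prod.ext hs M.sY
  have hinv : InB (gr ψ).range (y, Y) (y, Y)⁻¹ := Or.inr ⟨_, ⟨s, rfl⟩, _, ⟨s, rfl⟩, by
    rw [inv_eq_iff_mul_eq_one, ← mul_assoc, ← mul_assoc, mul_eq_one_comm, ← hs']; group⟩
  have hb : ∀ b : H, (y, Y) * gr ψ b * ((y, Y) * gr ψ b) * ((y, Y) * gr ψ b) = 1 →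
      InB (gr ψ).range (y, Y) ((y, Y) * gr ψ b * (y, Y)) := fun b hb => by
    have : (y, Y) * gr ψ b * (y, Y) = gr ψ b⁻¹ * (y, Y)⁻¹ * gr ψ b⁻¹ := by
      rw [← one_mul (_ * _ * gr ψ b⁻¹), ← hb, map_inv]; group
    rw [this]
    exact (hinv.mul_left ⟨_, rfl⟩).mul_right ⟨_, rfl⟩
  refine ⟨y, ⟨?_, ?_, fun hc => M.uT (Subtype.ext ?_), hinv, ?_⟩, hD⟩
  · rintro _ ⟨k, rfl⟩ hk
    rw [show k = 1 from Subtype.ext hk, map_one]
  · rintro _ ⟨k, rfl⟩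
    exact (M.cT k).map H.subtype
  · exact mul_right_cancel (M.YT.symm.trans hc.eq)
  · rintro _ ⟨k, rfl⟩ hc
    change Commute (Y * k * Y * T * (Y * k * Y)⁻¹) T at hc
    obtain ⟨d, c, hd, h1, h2⟩ := M.tri k (M.comm_Tu (Commute.of_map H.subtype_injective (by
      have h4 : H.subtype (k * u * k⁻¹) = Y⁻¹ * (Y * k * Y * T * (Y * k * Y)⁻¹) * Y := by
        rw [mul_assoc _ Y, M.YT]; simp [mul_assoc]
      rw [M.Tu, h4]
      simpa using hc.map (MulAut.conj Y⁻¹))))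
    obtain ⟨d', hd'⟩ := hD ((d * c)⁻¹ * k) (by
      change _ * _ = _ * _
      calc _ = (d * c)⁻¹ * (k * u * k⁻¹) * k := by group
        _ = _ := by rw [h2]; group)
    obtain ⟨d'', -, p, q⟩ := h d hd
    have h5 : (y, Y) * gr ψ d = gr ψ d'' * (y, Y) := Prod.ext q p
    have h6 : (y, Y) * gr ψ k * (y, Y) = gr ψ d'' * ((y, Y) * gr ψ c * (y, Y)) * gr ψ d' := by
      calc _ = (y, Y) * gr ψ d * gr ψ c * (gr ψ ((d * c)⁻¹ * k) * (y, Y)) := by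
            simp only [map_mul, map_inv]; group
        _ = _ := by rw [h5, hd']; group
    rw [h6]
    refine InB.mul_right (InB.mul_left ?_ ⟨_, rfl⟩) ⟨_, rfl⟩
    rcases h1 with rfl | rfl | rfl | rfl
    · rw [map_one, mul_one, show (y, Y) * (y, Y) = (y, Y)⁻¹ from Prod.ext l1.symm l2.symm]
      exact hinv
    · refine Or.inl ⟨c⁻¹, ?_⟩
      rw [map_inv, inv_eq_iff_mul_eq_one, ← hs']; group
    · exact hb _ (Prod.ext (M.tet hψ hC h hs M.e1u M.tet1) M.tet1.b3)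
    · exact hb _ (Prod.ext (M.tet hψ hC h hs M.e2u M.tet2) M.tet2.b3)

end

end Cfsg.Agent.L0.McL
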