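import Cfsg.Agent.H1.PCode2
import Cfsg.Prelude.Def_SporadicB

/-!
# Generators and relations for the non-split double cover of `A₈`
-/

set_option autoImplicit false

namespace Cfsg.Agent.L0.McL

open Cfsg.Agent.H4 Cfsg.Agent.H1.PC Subgroup

/-- The relations of `2·A₈`. -/
structure Pres2 {Γ : Type*} [Group Γ] (x : ℕ → Γ) (t : Γ) : Prop where
  comm : ∀ i < 6, Commute (x i) t
  tt : t * t = 1
  zero : x 0 ^ 3 = 1
  sq : ∀ i, 1 ≤ i → i < 6 → x i ^ 2 = t
  braid : ∀ i, i + 1 < 6 → (x i * x (i + 1)) ^ 3 = 1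
  far : ∀ i j, i + 1 < j → j < 6 → (x i * x j) ^ 2 = t

theorem card_A8 : Nat.card (alternatingGroup (Fin 8)) = 20160 := by
  rw [nat_card_alternatingGroup, Nat.card_fin]; rfl

theorem Pres2.prod {Γ Δ : Type*} [Group Γ] [Group Δ] {x : ℕ → Γ} {t : Γ} {x' : ℕ → Δ} {t' : Δ}
    (h : Pres2 x t) (h' : Pres2 x' t') : Pres2 (fun i => (x i, x' i)) (t, t') :=
  ⟨fun i hi => Prod.ext (h.comm i hi) (h'.comm i hi), Prod.ext h.tt h'.tt, Prod.ext h.zero h'.zero,
    fun i a b => Prod.ext (h.sq i a b) (h'.sq i a b), fun i a => Prod.ext (h.braid i a) (h'.braid i a),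
    fun i j a b => Prod.ext (h.far i j a b) (h'.far i j a b)⟩

theorem Pres2.card_le {Γ : Type*} [Group Γ] [Finite Γ] {x : ℕ → Γ} {t : Γ} (h : Pres2 x t) :
    Nat.card (closure (x '' Set.Iio 6)) ≤ 40320 := by
  let C := centralizer ({t} : Set Γ)
  let t' : C := ⟨t, mem_centralizer_singleton_iff.mpr rfl⟩
  let N := zpowers t'
  have hN : N.Normal := ⟨fun n hn g => by
    obtain ⟨k, rfl⟩ := hn
    have : Commute g t' := Subtype.ext (mem_centralizer_singleton_iff.mp g.2)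
    simp only [(this.zpow_right k).eq, mul_inv_cancel_right]
    exact ⟨k, rfl⟩⟩
  let x' : ℕ → C := fun i => if hi : i < 6 then
    ⟨x i, mem_centralizer_singleton_iff.mpr (h.comm i hi)⟩ else 1
  have hx : ∀ i < 6, (x' i : Γ) = x i := fun i hi => by simp only [x', dif_pos hi]
  have ht : QuotientGroup.mk' N t' = 1 := (QuotientGroup.eq_one_iff _).mpr (mem_zpowers _)
  have h1 : PresAlt (fun i => QuotientGroup.mk' N (x' i)) (5 + 1) := by
    refine ⟨?_, fun i a b => ?_, fun i a => ?_, fun i j a b => ?_⟩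
    · rw [← map_pow, show x' 0 ^ 3 = 1 from Subtype.ext (by
        rw [coe_pow, hx 0 (by omega), h.zero]; rfl), map_one]
    · rw [← map_pow, show x' i ^ 2 = t' from Subtype.ext (by rw [coe_pow, hx i b, h.sq i a b]), ht]
    · rw [← map_mul, ← map_pow, show (x' i * x' (i + 1)) ^ 3 = 1 from Subtype.ext (by
        rw [coe_pow, coe_mul, hx i (by omega), hx _ a, h.braid i a]; rfl), map_one]
    · rw [← map_mul, ← map_pow, show (x' i * x' j) ^ 2 = t' from Subtype.ext (by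
        rw [coe_pow, coe_mul, hx i (by omega), hx _ b, h.far i j a b]), ht]
  obtain ⟨φ, hφ⟩ := exists_hom_alt' h1
  have h2 : closure (x '' Set.Iio 6) ≤ (φ.range.comap (QuotientGroup.mk' N)).map C.subtype := by
    rw [closure_le]
    rintro _ ⟨i, hi, rfl⟩
    exact ⟨x' i, ⟨_, hφ i hi⟩, hx i hi⟩
  refine (card_le_of_le h2).trans ?_
  rw [card_map_of_injective C.subtype_injective]
  refine (QuotientGroup.card_preimage_mk N (φ.range : Set (C ⧸ N))).trans_le ?_
  have h3 : Nat.card N ≤ 2 := by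
    rw [Nat.card_zpowers]
    exact orderOf_le_of_pow_eq_one two_pos (Subtype.ext (by rw [coe_pow, pow_two]; exact h.tt))
  have h4 : Nat.card φ.range ≤ 20160 :=
    card_A8 ▸ Nat.card_le_card_of_surjective _ φ.rangeRestrict_surjective
  exact Nat.mul_le_mul h3 h4

/-- Conjugating words. -/
def wA : List (List ℕ) :=
  [[], [], [1, 2], [2, 1, 3, 2], [3, 2, 1, 4, 3, 2], [4, 3, 2, 1, 5, 4, 3, 2]]

/-- Conjugating words. -/
def wB : List (List (List ℕ)) :=
  [[[], [], [0, 0, 1, 2], [2, 0, 1, 3, 2], [3, 0, 2, 1, 4, 3, 2], [4, 0, 3, 2, 1, 5, 4, 3, 2]],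
   [[], [], [], [0, 1, 2, 0, 1, 3, 2], [0, 1, 3, 0, 2, 1, 4, 3, 2],
    [0, 1, 4, 0, 3, 2, 1, 5, 4, 3, 2]],
   [[], [], [], [], [1, 0, 2, 1, 0, 3, 2, 1, 4, 3, 2], [1, 0, 2, 1, 0, 4, 3, 2, 1, 5, 4, 3, 2]],
   [[], [], [], [], [], [2, 1, 0, 3, 2, 1, 4, 0, 3, 2, 1, 5, 4, 3, 2]]]

theorem conjA : ∀ i < 6, 1 ≤ i → ((wA.getD i []).map (ySw 5)).prod * ySw 5 1 =
    ySw 5 i * ((wA.getD i []).map (ySw 5)).prod := by decide +kernel

theorem conjB : ∀ j < 6, ∀ i < j, i + 1 < j → (((wB.getD i []).getD j []).map (ySw 5)).prod * ySw 5 1 =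
    ySw 5 i * ySw 5 j * (((wB.getD i []).getD j []).map (ySw 5)).prod := by decide +kernel

theorem exists_pres2 {C : Type*} [Group C] [Finite C] {t : C} (ht : orderOf t = 2)
    (htc : t ∈ center C) (hcov : IsNonsplitDoubleCover C (alternatingGroup (Fin 8))) :
    Nat.card C = 40320 ∧ ∃ x : ℕ → C, Pres2 x t ∧ closure (x '' Set.Iio 6) = ⊤ := by
  obtain ⟨h1, ⟨e⟩, h2⟩ := hcov
  have hcard : Nat.card C = 40320 := by
    rw [card_eq_card_quotient_mul_card_subgroup (center C), Nat.card_congr e.toEquiv, card_A8, h1]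
  refine ⟨hcard, ?_⟩
  have htt : t * t = 1 := by rw [← pow_two, ← ht, pow_orderOf_eq_one]
  have hZ : center C = zpowers t :=
    (eq_of_le_of_card_ge (zpowers_le.mpr htc) (by rw [h1, Nat.card_zpowers, ht])).symm
  let ρ : C →* alternatingGroup (Fin 8) := e.toMonoidHom.comp (QuotientGroup.mk' _)
  have hρ : ∀ g, ρ g = 1 ↔ g ∈ center C := fun g => by
    simp only [ρ, MonoidHom.comp_apply, MulEquiv.coe_toMonoidHom, EmbeddingLike.map_eq_one_iff,
      QuotientGroup.mk'_apply, QuotientGroup.eq_one_iff]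
  have hs : Function.Surjective ρ := e.surjective.comp (QuotientGroup.mk'_surjective _)
  have hZ2 : ∀ z ∈ center C, z = 1 ∨ z = t := fun z hz => by
    classical
    rw [hZ, mem_zpowers_iff_mem_range_orderOf, ht] at hz
    simpa [Finset.range_add_one, or_comm, eq_comm] using hz
  have hZ3 : ∀ z ∈ center C, z * z = 1 := fun z hz => by
    rcases hZ2 z hz with rfl | rfl
    exacts [mul_one 1, htt]
  have hadj : ∀ g z : C, ρ (g * z) ^ 3 = 1 → (g * (z * (g * z) ^ 3)) ^ 3 = 1 := fun g z h => by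
    have h3 := hZ3 _ ((hρ _).mp (by rw [map_pow, h]))
    rw [← mul_assoc, ← pow_succ', ← pow_mul, show (3 + 1) * 3 = (3 + 3) * 2 by norm_num, pow_mul,
      pow_add, h3, one_pow]
  choose z hz using fun i => hs (ySw 5 i)
  have hy := presAlt_ySw 5
  let x : ℕ → C := fun i => Nat.rec (z 0 * (1 * z 0) ^ 3) (fun i g => z (i + 1) * (g * z (i + 1)) ^ 3) i
  have hx : ∀ i < 6, ρ (x i) = ySw 5 i := by
    intro i
    induction i with
    | zero =>
      intro _
      show ρ (z 0 * (1 * z 0) ^ 3) = _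
      rw [map_mul, map_pow, one_mul, hz, hy.zero, mul_one]
    | succ i ih =>
      intro hi
      show ρ (z (i + 1) * (x i * z (i + 1)) ^ 3) = _
      rw [map_mul, map_pow, map_mul, ih (by omega), hz, hy.braid i hi, mul_one]
  have h3 : x 0 ^ 3 = 1 := by
    have := hadj 1 (z 0) (by rw [one_mul, hz, hy.zero])
    rwa [one_mul] at this
  have h4 : ∀ i, i + 1 < 6 → (x i * x (i + 1)) ^ 3 = 1 := fun i hi =>
    hadj (x i) (z (i + 1)) (by rw [map_mul, hx i (by omega), hz, hy.braid i hi])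
  have h5 : x 1 ^ 2 ∈ center C := (hρ _).mp (by
    rw [map_pow, hx 1 (by omega), hy.sq 1 le_rfl (by omega)])
  have h6 : ∀ (q : C) (g : alternatingGroup (Fin 8)), g * ySw 5 1 = ρ q * g → q ^ 2 = x 1 ^ 2 := by
    intro q g hg
    obtain ⟨g, rfl⟩ := hs g
    have h7 : (g * x 1 * g⁻¹)⁻¹ * q ∈ center C := (hρ _).mp (by
      simp only [map_mul, map_inv]
      rw [hx 1 (by omega), hg]; group)
    have h8 := hZ3 _ h7
    have h9 := mem_center_iff.mp h7 (g * x 1 * g⁻¹)
    obtain ⟨c, hc⟩ : ∃ c, c = (g * x 1 * g⁻¹)⁻¹ * q := ⟨_, rfl⟩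
    rw [← hc] at h8 h9
    calc q ^ 2 = (g * x 1 * g⁻¹) * (c * (g * x 1 * g⁻¹)) * c := by rw [hc, pow_two]; group
      _ = g * x 1 ^ 2 * g⁻¹ * (c * c) := by rw [← h9, pow_two]; group
      _ = _ := by rw [h8, mem_center_iff.mp h5 g]; group
  have h7 : ∀ i, 1 ≤ i → i < 6 → x i ^ 2 = x 1 ^ 2 := fun i a b =>
    h6 _ _ (by rw [hx i b]; exact conjA i b a)
  have h8 : ∀ i j, i + 1 < j → j < 6 → (x i * x j) ^ 2 = x 1 ^ 2 := fun i j a b =>
    h6 _ _ (by rw [map_mul, hx i (by omega), hx j b]; exact conjB j b i (by omega) a)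
  rcases hZ2 _ h5 with h9 | h9
  · rw [h9] at h7 h8
    obtain ⟨φ, hφ⟩ := exists_hom_alt' (m := 5) ⟨h3, h7, h4, h8⟩
    have h10 : ρ.comp φ = MonoidHom.id _ := MonoidHom.eq_of_eqOn_dense (closure_ySw 5) (by
      rintro _ ⟨i, hi, rfl⟩
      rw [MonoidHom.comp_apply, hφ i hi, hx i hi]; rfl)
    have h11 : ∀ g, ρ (φ g) = g := DFunLike.congr_fun h10
    refine absurd (isComplement'_of_card_mul_and_disjoint ?_ ?_) (h2 φ.range)
    · rw [h1, hcard, ← Nat.card_congr (MonoidHom.ofInjective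
        (Function.LeftInverse.injective h11)).toEquiv, card_A8]
    · rw [disjoint_def]
      rintro _ hg ⟨g, rfl⟩
      rw [← h11 g, (hρ _).mpr hg, map_one]
  · rw [h9] at h7 h8
    refine ⟨x, ⟨fun i _ => mem_center_iff.mp htc _, htt, h3, h7, h4, h8⟩, eq_top_iff.mpr fun g _ => ?_⟩
    have h10 : (closure (x '' Set.Iio 6)).map ρ = ⊤ := by
      rw [eq_top_iff, ← closure_ySw 5, closure_le]
      rintro _ ⟨i, hi, rfl⟩
      exact ⟨x i, subset_closure ⟨i, hi, rfl⟩, hx i hi⟩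
    obtain ⟨k, hk, e⟩ : ρ g ∈ (closure (x '' Set.Iio 6)).map ρ := h10 ▸ mem_top _
    have h11 : k⁻¹ * g ∈ closure (x '' Set.Iio 6) := by
      rcases hZ2 _ ((hρ (k⁻¹ * g)).mp (by rw [map_mul, map_inv, e, inv_mul_cancel])) with h | h
      · rw [h]; exact one_mem _
      · rw [h, ← h9]
        have : x 1 ∈ x '' Set.Iio 6 := ⟨1, by simp, rfl⟩
        exact Subgroup.pow_mem _ (Subgroup.subset_closure this) 2
    simpa using mul_mem hk h11

/-- The isomorphism between the centralizer and the model. -/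
theorem exists_psi {G P : Type*} [Group G] [Finite G] [Group P] [Finite P] {t : G}
    (ht : orderOf t = 2)
    (hcov : IsNonsplitDoubleCover (centralizer ({t} : Set G)) (alternatingGroup (Fin 8)))
    {X : ℕ → P} {H : Subgroup P} {T : H} (hX : Pres2 X T) (hH : H = closure (X '' Set.Iio 6))
    (hc : 40320 ≤ Nat.card H) :
    ∃ ψ : H →* G, Function.Injective ψ ∧ ψ T = t ∧ ∀ g : G, Commute g t → ∃ h, ψ h = g := by
  let t' : centralizer ({t} : Set G) := ⟨t, mem_centralizer_singleton_iff.mpr rfl⟩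
  obtain ⟨h1, x, hx, h2⟩ := exists_pres2 (t := t') (by rw [← orderOf_coe]; exact ht)
    (mem_center_iff.mpr fun g => Subtype.ext (mem_centralizer_singleton_iff.mp g.2)) hcov
  have h3 := (hx.prod hX).card_le
  set K := closure ((fun i => (x i, X i)) '' Set.Iio 6)
  have h4 : K.map (MonoidHom.fst _ _) = ⊤ := by
    rw [MonoidHom.map_closure, ← Set.image_comp]; exact h2
  have h5 : K.map (MonoidHom.snd _ _) = H := by
    rw [MonoidHom.map_closure, ← Set.image_comp]; exact hH.symm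
  let f : K →* centralizer ({t} : Set G) := (MonoidHom.fst _ _).comp K.subtype
  let g : K →* H := ((MonoidHom.snd _ _).comp K.subtype).codRestrict H
    fun k => h5 ▸ ⟨k, k.2, rfl⟩
  have hf : Function.Bijective f := Function.Surjective.bijective_of_nat_card_le (fun c => by
    obtain ⟨k, hk, e⟩ : c ∈ K.map (MonoidHom.fst _ _) := h4 ▸ mem_top _
    exact ⟨⟨k, hk⟩, e⟩) (h1 ▸ h3)
  have hg : Function.Bijective g := Function.Surjective.bijective_of_nat_card_le (fun c => by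
    obtain ⟨k, hk, e⟩ : (c : P) ∈ K.map (MonoidHom.snd _ _) := h5 ▸ c.2
    exact ⟨⟨k, hk⟩, Subtype.ext e⟩) (h3.trans hc)
  let e := MulEquiv.ofBijective g hg
  have hT : (t', (T : P)) ∈ K := by
    rw [← (hx.prod hX).sq 1 le_rfl (by omega)]
    exact Subgroup.pow_mem _ (subset_closure (Set.mem_image_of_mem _ (by simp))) 2
  refine ⟨((centralizer _).subtype.comp f).comp e.symm.toMonoidHom,
    (subtype_injective _).comp (hf.1.comp e.symm.injective), ?_, fun c hc => ?_⟩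
  · have : e.symm T = ⟨_, hT⟩ := by rw [MulEquiv.symm_apply_eq]; rfl
    show ((f (e.symm T) : centralizer _) : G) = t
    rw [this]; rfl
  · obtain ⟨k, hk⟩ := hf.2 ⟨c, mem_centralizer_singleton_iff.mpr hc⟩
    refine ⟨e k, ?_⟩
    show ((f (e.symm (e k)) : centralizer _) : G) = c
    rw [e.symm_apply_apply, hk]

end Cfsg.Agent.L0.McL
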