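import Cfsg.Agent.L0.McLData2
import Cfsg.Agent.L0.McLIso
import Cfsg.Agent.L0.TwoA8
import Cfsg.Agent.H9.SylowIn

/-!
# The centralizer of an involution in the model of the McLaughlin group
-/

set_option autoImplicit false

namespace Cfsg.Agent.L0.McL

open Cfsg.Agent.H4 Cfsg.Agent.L0.Cover Equiv

/-- The base. -/
def BB : List ℕ := [1572, 1392, 2604, 2268, 3024]

theorem baseM : IsBase 12 MM BB := by
  have := SSOK.isBase (by norm_num) ssM validM
  rwa [show (mC.map fun L => 12 * L.b) = BB by decide +kernel] at this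

/-- `f` represents the element `g` of the model. -/
class RA (f : ℕ → ℕ) (g : outParam (Perm (Fin 275))) : Prop where
  rep : RepF 12 f g
  mem : g ∈ MM

/-- Composition. -/
def cmp (f g : ℕ → ℕ) : ℕ → ℕ := fun x => f (g x)

@[inherit_doc] scoped infixl:70 " ⊙ " => cmp

/-- Identity. -/
def idf : ℕ → ℕ := fun x => x

/-- The function with code `c`. -/
def ap (c : ℕ) : ℕ → ℕ := fun x => Nat.land (Nat.shiftRight c x) 4095

instance {f f' : ℕ → ℕ} {g g' : Perm (Fin 275)} [h : RA f g] [h' : RA f' g'] :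
    RA (f ⊙ f') (g * g') := ⟨h.rep.comp h'.rep, mul_mem h.mem h'.mem⟩

instance : RA idf 1 := ⟨RepF.one, one_mem _⟩

/-- Equality test. -/
noncomputable def EE (f g : ℕ → ℕ) : Bool := eqB BB f g

theorem EE_iff {f f' : ℕ → ℕ} {g g' : Perm (Fin 275)} [h : RA f g] [h' : RA f' g'] :
    EE f f' = true ↔ g = g' := baseM.eqB_iff h.rep h'.rep h.mem h'.mem

/-- Commutation test. -/
noncomputable def CM (f g : ℕ → ℕ) : Bool := eqB BB (f ⊙ g) (g ⊙ f)

theorem CM_iff {f f' : ℕ → ℕ} {g g' : Perm (Fin 275)} [RA f g] [RA f' g'] :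
    CM f f' = true ↔ Commute g g' := EE_iff

/-- Implication. -/
noncomputable def imp (a b : Bool) : Bool := Bool.rec true b a

theorem imp_iff {a b : Bool} : imp a b = true ↔ (a = true → b = true) := by
  cases a <;> cases b <;> simp [imp]

/-- Negation. -/
noncomputable def neg (a : Bool) : Bool := Bool.rec true false a

theorem neg_iff {a : Bool} : neg a = true ↔ ¬ a = true := by
  cases a <;> simp [neg]

/-- The permutation with code `c`. -/
noncomputable abbrev pc' (c : ℕ) : Perm (Fin 275) := pm 12 4095 275 c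

theorem RA.of_inG {H : Subgroup (Perm (Fin 275))} (hH : H ≤ MM) {c : ℕ} (h : InG 12 4095 H c) :
    RA (ap c) (pc' c) := ⟨(InG.pm (by norm_num) h).1, hH (InG.pm (by norm_num) h).2⟩

theorem RA.inv {c c' : ℕ} {g : Perm (Fin 275)} [h : RA (ap c) g]
    (e : eqF 12 275 (fun x => ap c' (ap c x)) (fun x => x) = true) : RA (ap c') g⁻¹ :=
  ⟨rep_inv_of_eqF h.rep e, inv_mem h.mem⟩

/-- Code of letter `l`. -/
def lc (l : ℕ) : ℕ := cd 3300 MK LT l

/-- The generators of the centralizer. -/
noncomputable def XX (i : ℕ) : Perm (Fin 275) := pc' (lc (i + 1))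

/-- The centralizer. -/
noncomputable def H0 : Subgroup (Perm (Fin 275)) := Subgroup.closure (XX '' Set.Iio 6)

theorem XX_mem {i : ℕ} (hi : i < 6) : InG 12 4095 MM (lc (i + 1)) := by
  have : allB (fun i => force (lc (i + 1)) fun c => memChk 12 4095 275 mC c (XE.getD i 0)) 6 = true := by
    decide +kernel
  have := allB_iff.mp this i hi
  rw [force_eq] at this
  exact memChk_sound (by norm_num) ssM validM this

theorem H0_le : H0 ≤ MM := by
  rw [H0, Subgroup.closure_le]
  rintro _ ⟨i, hi, rfl⟩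
  exact (InG.pm (by norm_num) (XX_mem hi)).2

theorem lc_mem {l : ℕ} (hl : l < 16) : InG 12 4095 H0 (lc l) := by
  have : allB (fun l => band (allL (fun i => Nat.ble (Nat.succ i) 6) (WL.getD l []))
      (wordChk 12 4095 275 (lc l) [] ((WL.getD l []).map fun i => lc (i + 1)))) 16 = true := by
    decide +kernel
  have := allB_iff.mp this l hl
  simp only [band_eq_true, allL_iff, Nat.ble_eq] at this
  refine wordChk_sound this.2 (by simp) fun c hc => ?_
  obtain ⟨i, hi, rfl⟩ := List.mem_map.mp hc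
  have hi' := this.1 i hi
  exact ⟨XX i, Subgroup.subset_closure ⟨i, hi', rfl⟩, (InG.pm (by norm_num) (XX_mem hi')).1⟩

/-- The letters. -/
noncomputable def LH (l : ℕ) : H0 :=
  if h : l < 16 then ⟨pc' (lc l), (InG.pm (by norm_num) (lc_mem h)).2⟩ else 1

theorem LH_rep : ∀ l < 16, Rep 12 4095 (cd 3300 MK LT l) (LH l : Perm (Fin 275)) := fun l hl => by
  rw [LH, dif_pos hl]
  exact (InG.pm (by norm_num) (lc_mem hl)).1

theorem LH_repI : ∀ l < 16, Rep 12 4095 (cd 3300 MK LTI l) (LH l : Perm (Fin 275))⁻¹ := fun l hl => by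
  have : allB (fun l => force (cd 3300 MK LT l) fun c => force (cd 3300 MK LTI l) fun c' =>
      eqF 12 275 (fun x => ap c' (ap c x)) (fun x => x)) 16 = true := by decide +kernel
  have := allB_iff.mp this l hl
  rw [force_eq, force_eq] at this
  exact rep_inv_of_eqF (LH_rep l hl) this

/-- The value of a word. -/
noncomputable def hw (e : ℕ) : H0 := evW LH 8 e

theorem coe_hw (e : ℕ) : (hw e : Perm (Fin 275)) = evW (fun l => (LH l : Perm (Fin 275))) 8 e :=
  map_evW H0.subtype LH 8 e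

/-- Evaluate a word. -/
noncomputable def WK (e : ℕ) (k : (ℕ → ℕ) → Bool) : Bool := wK 4095 3300 MK LT 8 e idf k

/-- Evaluate the inverse of a word. -/
noncomputable def WI (e : ℕ) (k : (ℕ → ℕ) → Bool) : Bool := wI 4095 3300 MK LTI 8 e idf k

theorem WK_sound {e : ℕ} {k : (ℕ → ℕ) → Bool} (h : WK e k = true) :
    ∃ f, RA f (hw e : Perm (Fin 275)) ∧ k f = true := by
  obtain ⟨f, h1, h2⟩ := wK_sound LH_rep (r := 8) (e := e) RepF.one k
  rw [one_mul, ← coe_hw] at h1
  exact ⟨f, ⟨h1, H0_le (hw e).2⟩, h2 ▸ h⟩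

theorem WI_sound {e : ℕ} {k : (ℕ → ℕ) → Bool} (h : WI e k = true) :
    ∃ f, RA f (hw e : Perm (Fin 275))⁻¹ ∧ k f = true := by
  obtain ⟨f, h1, h2⟩ := wI_sound LH_repI (r := 8) (e := e) RepF.one k
  rw [mul_one, ← coe_hw] at h1
  exact ⟨f, ⟨h1, inv_mem (H0_le (hw e).2)⟩, h2 ▸ h⟩

theorem RA.of_word {c e : ℕ} (h : WK e (fun f => eqF 12 275 (ap c) f) = true) :
    RA (ap c) (hw e : Perm (Fin 275)) := by
  obtain ⟨f, h1, h2⟩ := WK_sound h
  exact ⟨h1.rep.congr (eqF_iff.mp h2), h1.mem⟩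

/-- The central involution. -/
noncomputable def eT : H0 := hw wT
/-- Another involution. -/
noncomputable def eu : H0 := hw wu
/-- An involution exchanging `u` and `T u`. -/
noncomputable def es : H0 := hw ws
/-- An element of order three. -/
noncomputable def ea : H0 := hw wa
/-- An involution. -/
noncomputable def ee1 : H0 := hw we1
/-- An involution. -/
noncomputable def ee2 : H0 := hw we2
/-- An element normalizing the first elementary abelian group. -/
noncomputable def eb1 : H0 := hw wb1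
/-- An element normalizing the second elementary abelian group. -/
noncomputable def eb2 : H0 := hw wb2
/-- An element of `D`. -/
noncomputable def ed1 : H0 := hw wd1
/-- An element of `D`. -/
noncomputable def ed2 : H0 := hw wd2
/-- The element of order three outside the centralizer. -/
noncomputable def eY : Perm (Fin 275) := pc' cY

instance : RA (ap cT) eT := RA.of_word (by decide +kernel)
instance : RA (ap cu) eu := RA.of_word (by decide +kernel)
instance : RA (ap cs) es := RA.of_word (by decide +kernel)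
instance : RA (ap ca) ea := RA.of_word (by decide +kernel)
instance : RA (ap ce1) ee1 := RA.of_word (by decide +kernel)
instance : RA (ap ce2) ee2 := RA.of_word (by decide +kernel)
instance : RA (ap cb1) eb1 := RA.of_word (by decide +kernel)
instance : RA (ap cb2) eb2 := RA.of_word (by decide +kernel)
instance : RA (ap cd1) ed1 := RA.of_word (by decide +kernel)
instance : RA (ap cd2) ed2 := RA.of_word (by decide +kernel)
instance : RA (ap cY) eY :=
  RA.of_inG le_rfl (InG_Grp (by simp [gensOf, mL0]) (validM _ (by simp [gensOf, mL0])))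
instance : RA (ap caI) (ea : Perm (Fin 275))⁻¹ := RA.inv (c := ca) (by decide +kernel)
instance : RA (ap cb1I) (eb1 : Perm (Fin 275))⁻¹ := RA.inv (c := cb1) (by decide +kernel)
instance : RA (ap cb2I) (eb2 : Perm (Fin 275))⁻¹ := RA.inv (c := cb2) (by decide +kernel)
instance : RA (ap cd1I) (ed1 : Perm (Fin 275))⁻¹ := RA.inv (c := cd1) (by decide +kernel)
instance : RA (ap cd2I) (ed2 : Perm (Fin 275))⁻¹ := RA.inv (c := cd2) (by decide +kernel)
instance : RA (ap cYI) eY⁻¹ := RA.inv (c := cY) (by decide +kernel)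

theorem RA_XX {i : ℕ} (hi : i < 6) : RA (ap (lc (i + 1))) (XX i) := RA.of_inG le_rfl (XX_mem hi)

theorem pres2_XX : Pres2 XX (eT : Perm (Fin 275)) := by
  have h1 : allB (fun i => force (lc (i + 1)) fun c => band (CM (ap c) (ap cT))
      (band (bor (Nat.beq i 0) (EE (ap c ⊙ ap c) (ap cT))) (allB (fun j =>
        force (lc (j + 1)) fun d => bor (band (Nat.beq (j + 1) i)
          (EE (ap d ⊙ ap c ⊙ (ap d ⊙ ap c) ⊙ (ap d ⊙ ap c)) idf))
          (band (neg (Nat.beq (j + 1) i)) (EE (ap d ⊙ ap c ⊙ (ap d ⊙ ap c)) (ap cT)))) i))) 6 = true := by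
    decide +kernel
  simp only [allB_iff, force_eq, band_eq_true, bor_eq_true, Nat.beq_eq, neg_iff] at h1
  refine ⟨fun i hi => ?_, ?_, ?_, fun i a b => ?_, fun i a => ?_, fun i j a b => ?_⟩
  · have := RA_XX hi
    exact CM_iff.mp (h1 i hi).1
  · exact EE_iff.mp (show EE (ap cT ⊙ ap cT) idf = true by decide +kernel)
  · have := RA_XX (i := 0) (by norm_num)
    rw [pow_three']
    exact EE_iff.mp (show EE (ap (lc (0 + 1)) ⊙ ap (lc (0 + 1)) ⊙ ap (lc (0 + 1))) idf = true by
      decide +kernel)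
  · have := RA_XX b
    rw [pow_two]
    exact EE_iff.mp ((h1 i b).2.1.resolve_left (by omega))
  · have := RA_XX a
    have := RA_XX (show i < 6 by omega)
    rw [pow_three']
    exact EE_iff.mp (((h1 _ a).2.2 i (by omega)).resolve_right fun h => h.1 rfl).2
  · have := RA_XX b
    have := RA_XX (show i < 6 by omega)
    rw [pow_two]
    exact EE_iff.mp (((h1 _ b).2.2 i (by omega)).resolve_left fun h => by omega).2

theorem comm_coe {x y : H0} : Commute x y ↔ Commute (x : Perm (Fin 275)) y :=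
  ⟨fun h => h.map H0.subtype, Commute.of_map H0.subtype_injective⟩

theorem comm_T (h : H0) : Commute h eT := by
  rw [comm_coe]
  have : H0 ≤ Subgroup.centralizer {(eT : Perm (Fin 275))} := by
    refine (Subgroup.closure_le _).mpr ?_
    rintro _ ⟨i, hi, rfl⟩
    exact Subgroup.mem_centralizer_singleton_iff.mpr (pres2_XX.comm i hi)
  exact Subgroup.mem_centralizer_singleton_iff.mp (this h.2)

theorem inG_of_RA {c : ℕ} {g : Perm (Fin 275)} [h : RA (ap c) g]
    {H : Subgroup (Perm (Fin 275))} (hg : g ∈ H) : InG 12 4095 H c := ⟨g, hg, h.rep⟩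

/-- Stabilizer chain of `D`. -/
noncomputable abbrev dC : List Level := [dL0, dL1]

theorem ssD : SSOK 12 4095 275 dC := SSOK_of_ssChk (by decide +kernel)

theorem repD : List.Forall₂ (Rep 12 4095) (gensOf dC) [(ea : Perm (Fin 275)), ee1, ee2] :=
  .cons (RA.rep (f := ap ca)) (.cons (RA.rep (f := ap ce1)) (.cons (RA.rep (f := ap ce2)) .nil))

theorem validD : ∀ c ∈ gensOf dC, InG 12 4095 (⊤ : Subgroup (Perm (Fin 275))) c :=
  InG_top_of_forall₂ repD

/-- The group `D`. -/
noncomputable def DD : Subgroup (Perm (Fin 275)) := Grp 12 4095 275 (gensOf dC)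

theorem card_DD : Nat.card DD = 192 := (ssD.card (by norm_num) validD).trans (by decide +kernel)

theorem DD_eq : DD = (Subgroup.closure {ea, ee1, ee2}).map H0.subtype := by
  rw [DD, Grp_eq_closure (by norm_num) repD, MonoidHom.map_closure]
  congr 1
  ext g
  simp [eq_comm]

theorem comm_au : Commute ea eu := comm_coe.mpr (CM_iff.mp
  (show CM (ap ca) (ap cu) = true by decide +kernel))

theorem comm_e1u : Commute ee1 eu := comm_coe.mpr (CM_iff.mp
  (show CM (ap ce1) (ap cu) = true by decide +kernel))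

theorem comm_e2u : Commute ee2 eu := comm_coe.mpr (CM_iff.mp
  (show CM (ap ce2) (ap cu) = true by decide +kernel))

theorem of_mem_DD {g : Perm (Fin 275)} (hg : g ∈ DD) : ∃ d : H0, (d : Perm (Fin 275)) = g ∧
    Commute d eu := by
  rw [DD_eq] at hg
  obtain ⟨d, hd, rfl⟩ := hg
  refine ⟨d, rfl, Subgroup.mem_centralizer_singleton_iff.mp
    ((Subgroup.closure_le (Subgroup.centralizer {eu})).mpr ?_ hd)⟩
  rintro _ (rfl | rfl | rfl) <;> refine Subgroup.mem_centralizer_singleton_iff.mpr ?_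
  exacts [comm_au, comm_e1u, comm_e2u]

/-- Coset representatives. -/
noncomputable def hp (p : ℕ) : H0 := hw (cd 32 4294967295 HT p)

/-- Images of the base points. -/
def key (f : ℕ → ℕ) : ℕ := BB.foldr (fun b acc => acc * 4096 + f b) 0

theorem key_eq {f f' : ℕ → ℕ} {g : Perm (Fin 275)} (h : RepF 12 f g) (h' : RepF 12 f' g) :
    key f = key f' := by
  have : ∀ b ∈ BB, f b = f' b := fun b hb => by
    obtain ⟨i, rfl⟩ := baseM.2.1 b hb
    rw [h, h']
  simp only [key, BB, List.foldr]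
  rw [this 1572 (by decide), this 1392 (by decide), this 2604 (by decide), this 2268 (by decide),
    this 3024 (by decide)]

theorem hp_inj {p q : ℕ} (h1 : p < 210) (h2 : q < 210)
    (h : hp p * eu * (hp p)⁻¹ = hp q * eu * (hp q)⁻¹) : p = q := by
  have k1 : allB (fun p => force (cd 32 4294967295 HT p) fun e => WK e fun f => WI e fun g =>
      Nat.beq (key (f ⊙ ap cu ⊙ g)) (cd 64 18446744073709551615 UK p)) 210 = true := by
    decide +kernel
  have k2 : allB (fun p => Nat.ble (Nat.succ (cd 64 18446744073709551615 UK p))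
      (cd 64 18446744073709551615 UK (p + 1))) 209 = true := by decide +kernel
  simp only [allB_iff, force_eq, Nat.ble_eq] at k1 k2
  have k3 : ∀ p < 210, ∃ f, RepF 12 f ((hp p * eu * (hp p)⁻¹ : H0) : Perm (Fin 275)) ∧
      key f = cd 64 18446744073709551615 UK p := fun p hp' => by
    obtain ⟨f, a1, a2⟩ := WK_sound (k1 p hp')
    obtain ⟨g, a3, a4⟩ := WI_sound a2
    exact ⟨_, RA.rep (f := f ⊙ ap cu ⊙ g), Nat.beq_eq.mp a4⟩
  obtain ⟨f, a1, a2⟩ := k3 p h1
  obtain ⟨g, a3, a4⟩ := k3 q h2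
  rw [h] at a1
  have hm : StrictMonoOn (cd 64 18446744073709551615 UK) (Set.Iio 210) :=
    strictMonoOn_of_lt_succ Set.ordConnected_Iio fun a _ _ hb => k2 a (by
      have : a + 1 < 210 := hb
      omega)
  exact hm.injOn h1 h2 (by rw [← a2, ← a4, key_eq a1 a3])

theorem card_H0_cov : Nat.card H0 = 40320 ∧
    ∀ h : H0, ∃ p < 210, ∃ d : H0, (d : Perm (Fin 275)) ∈ DD ∧ h = hp p * d := by
  choose D hD hD' using fun g : DD => of_mem_DD g.2
  let f : Fin 210 × DD → H0 := fun x => hp x.1 * D x.2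
  have h1 : Function.Injective f := by
    rintro ⟨p, d⟩ ⟨q, d'⟩ e
    change hp p * D d = hp q * D d' at e
    have h2 : p = q := Fin.ext (hp_inj p.2 q.2 (by
      calc _ = hp p * (D d * eu * (D d)⁻¹) * (hp p)⁻¹ := by rw [(hD' d).eq]; group
        _ = hp p * D d * eu * (hp p * D d)⁻¹ := by group
        _ = hp q * (D d' * eu * (D d')⁻¹) * (hp q)⁻¹ := by rw [e]; group
        _ = _ := by rw [(hD' d').eq]; group))
    subst h2
    rw [Subtype.ext ((hD d).symm.trans ((congrArg _ (mul_left_cancel e)).trans (hD d')))]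
  have h2 : Nat.card (Fin 210 × DD) = 40320 := by rw [Nat.card_prod, card_DD, Nat.card_fin]
  have h3 := h1.bijective_of_nat_card_le (h2 ▸ pres2_XX.card_le)
  refine ⟨(Nat.card_eq_of_bijective f h3).symm.trans h2, fun h => ?_⟩
  obtain ⟨⟨p, d⟩, e⟩ := h3.2 h
  exact ⟨p, p.2, D d, by rw [hD]; exact d.2, e.symm⟩

theorem mem_DD {z : H0} (hz : Commute z eu) : (z : Perm (Fin 275)) ∈ DD := by
  obtain ⟨p, h1, d, hd, rfl⟩ := card_H0_cov.2 z
  obtain ⟨d', h2, h3⟩ := of_mem_DD hd
  rw [Subtype.ext h2] at h3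
  have h4 : hp 155 = 1 := by
    rw [hp, show cd 32 4294967295 HT 155 = 0 by decide +kernel, hw, evW_zero]
  have h5 : p = 155 := hp_inj h1 (by norm_num) (by
    calc _ = hp p * (d * eu * d⁻¹) * (hp p)⁻¹ := by rw [h3.eq]; group
      _ = hp p * d * eu * (hp p * d)⁻¹ := by group
      _ = _ := by rw [hz.eq, h4]; group)
  rwa [h5, h4, one_mul]

theorem forall_D {chk : (ℕ → ℕ) → Bool} (h : enum 4095 chk dC idf = true) {z : H0}
    (hz : Commute z eu) : ∃ f, RA f (z : Perm (Fin 275)) ∧ chk f = true := by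
  obtain ⟨f, h1, h2⟩ := forall_of_enum_all (by norm_num) ssD validD h (mem_DD hz)
  exact ⟨f, ⟨h1, H0_le z.2⟩, h2⟩

theorem exists_D {chk : (ℕ → ℕ) → Bool} (h : enumE 4095 chk dC idf = true) :
    ∃ d : H0, Commute d eu ∧ ∃ f, RA f (d : Perm (Fin 275)) ∧ chk f = true := by
  obtain ⟨k, hk, f, h1, h2⟩ := enumE_sound (ssD.good (by norm_num) validD).mem h RepF.one
  obtain ⟨d, rfl, hd⟩ := of_mem_DD hk
  exact ⟨d, hd, f, ⟨by rwa [one_mul] at h1, H0_le d.2⟩, h2⟩

open Cfsg.Agent.H9 in
theorem exists_conj_mem {G : Type*} [Group G] [Finite G] {p k m : ℕ} (hp : p.Prime)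
    {P L : Subgroup G} (h1 : P ≤ L) (h2 : Nat.card P = p ^ k) (h3 : Nat.card L = p ^ k * m)
    (h4 : ¬ p ∣ m) {x : G} (hx : x ∈ L) (h5 : x ^ p = 1) : ∃ l ∈ L, l⁻¹ * x * l ∈ P := by
  have := Fact.mk hp
  have h6 : IsSylowIn p P L := ⟨h1, IsPGroup.of_card h2, by
    have := card_mul_relIndex_of_le h1
    rw [h2, h3] at this
    rwa [Nat.eq_of_mul_eq_mul_left (pow_pos hp.pos k) this]⟩
  obtain ⟨Q, h7, h8⟩ := exists_isSylowIn_ge (p := p) (Subgroup.zpowers_le.mpr hx) (by
    rintro ⟨_, j, rfl⟩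
    refine ⟨1, Subtype.ext ?_⟩
    simp only [pow_one, Subgroup.coe_pow, Subgroup.coe_one]
    rw [← zpow_natCast, ← zpow_mul, mul_comm, zpow_mul, zpow_natCast, h5, one_zpow])
  obtain ⟨l, hl, e⟩ := h6.exists_conj h7
  exact ⟨l, hl, mem_conj_smul_iff.mp (e ▸ h8 (Subgroup.mem_zpowers x))⟩

/-- Stabilizer chain of a Sylow `2`-subgroup. -/
noncomputable abbrev sC : List Level := [sL0, sL1]

theorem ssS : SSOK 12 4095 275 sC := SSOK_of_ssChk (by decide +kernel)

theorem inG_S : ∀ c ∈ gensOf sC, InG 12 4095 H0 c := by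
  intro c hc
  simp only [gensOf, sL0, List.mem_cons, List.not_mem_nil, or_false] at hc
  rcases hc with rfl | rfl | rfl
  · exact inG_of_RA (h := RA.of_word (e := wS0) (by decide +kernel)) (hw _).2
  · exact inG_of_RA (h := RA.of_word (e := wS1) (by decide +kernel)) (hw _).2
  · exact inG_of_RA (h := RA.of_word (e := wS2) (by decide +kernel)) (hw _).2

theorem inv_S {L : Subgroup (Perm (Fin 275))} (h1 : H0 ≤ L) {m : ℕ}
    (h3 : Nat.card L = 2 ^ 7 * m) (h4 : ¬ 2 ∣ m) {z : Perm (Fin 275)} (hz : z ∈ L)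
    (h5 : z * z = 1) (h6 : z ≠ 1) :
    ∃ l ∈ L, l * eT * l⁻¹ = z ∨ l * eu * l⁻¹ = z := by
  have hv := fun c hc => (inG_S c hc).mono le_top
  have hle := Grp_le (by norm_num) inG_S
  obtain ⟨l, hl, h7⟩ := exists_conj_mem Nat.prime_two (hle.trans h1)
    ((ssS.card (by norm_num) hv).trans (by decide +kernel)) h3 h4 hz (by rw [pow_two, h5])
  have hE : enum 4095 (fun f => imp (EE (f ⊙ f) idf) (bor (EE f idf) (bor (EE f (ap cT))
      (neg (allB (fun p => force (cd 32 4294967295 HT p) fun e => WK e fun g =>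
        neg (EE (f ⊙ g) (g ⊙ ap cu))) 210))))) sC idf = true := by decide +kernel
  obtain ⟨f, h8, h9⟩ := forall_of_enum_all (by norm_num) ssS hv hE h7
  have : RA f (l⁻¹ * z * l) := ⟨h8, H0_le (hle h7)⟩
  simp only [imp_iff, bor_eq_true, neg_iff, EE_iff, allB_iff, force_eq] at h9
  rcases h9 (by rw [show l⁻¹ * z * l * (l⁻¹ * z * l) = l⁻¹ * (z * z) * l by group, h5]; group)
    with h | h | h
  · exact absurd (by rw [← mul_inv_cancel_left l z, ← mul_inv_cancel_right (l⁻¹ * z) l, h]; group) h6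
  · exact ⟨l, hl, Or.inl (by rw [← h]; group)⟩
  · push Not at h
    obtain ⟨p, -, h⟩ := h
    obtain ⟨g, a1, a2⟩ := wK_sound LH_rep (r := 8) (e := cd 32 4294967295 HT p) RepF.one
      fun g => neg (EE (f ⊙ g) (g ⊙ ap cu))
    rw [one_mul, ← coe_hw] at a1
    have : RA g (hp p) := ⟨a1, H0_le (hp p).2⟩
    rw [show WK _ _ = _ from a2, ne_eq, neg_iff, not_not, EE_iff] at h
    refine ⟨l * hp p, mul_mem hl (h1 (hp p).2), Or.inr ?_⟩
    rw [mul_assoc l, ← h]; group

end Cfsg.Agent.L0.McL
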