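import Cfsg.Agent.L0.McLBase
import Cfsg.Agent.L0.McLAbs

/-!
# The model of the McLaughlin group satisfies the hypotheses of the abstract part
-/

set_option autoImplicit false

namespace Cfsg.Agent.L0.McL

open Cfsg.Agent.H4 Cfsg.Agent.L0.Cover Equiv

/-- Test for `Cm`. -/
noncomputable def CmB (e f : ℕ → ℕ) : Bool := band (CM f e) (CM f (ap ca ⊙ e ⊙ ap caI))

theorem CmB_iff {e f : ℕ → ℕ} {g z : H0} [RA e (g : Perm (Fin 275))] [RA f (z : Perm (Fin 275))] :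
    CmB e f = true ↔ Cm ea g z := by
  simp only [CmB, band_eq_true, CM_iff, Cm, comm_coe, Subgroup.coe_mul, Subgroup.coe_inv]

/-- The checks for `Tet`. -/
noncomputable def tetChk (e b b' d d' : ℕ → ℕ) : Bool :=
  band (enum 4095 (fun f => imp (CmB e f) (band (band (CM (b ⊙ f ⊙ b') (ap cu))
    (CmB e (b ⊙ f ⊙ b'))) (band (CmB e (ap cY ⊙ f ⊙ ap cYI))
      (imp (CM f (ap cY ⊙ b)) (imp (EE (ap cs ⊙ f ⊙ ap cs) (ap cY ⊙ f ⊙ ap cYI ⊙
        (ap cY ⊙ d ⊙ ap cYI ⊙ f ⊙ (ap cY ⊙ d' ⊙ ap cYI)))) (EE f idf)))))) dC idf) <|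
  band (CmB e (ap cu)) <| band (CmB e e) <|
  band (EE (ap cY ⊙ b ⊙ (ap cY ⊙ b) ⊙ (ap cY ⊙ b)) idf) <|
  band (CM (b' ⊙ ap cs ⊙ b) (ap cu)) <| band (CM d (ap cu)) (CM (b' ⊙ d' ⊙ b' ⊙ ap cs) (ap cu))

theorem es_sq : es * es = 1 :=
  Subtype.ext (EE_iff.mp (show EE (ap cs ⊙ ap cs) idf = true by decide +kernel))

theorem tetChk_sound {e b b' d d' : ℕ → ℕ} {ge gb gd : H0} [RA e (ge : Perm (Fin 275))]
    [RA b (gb : Perm (Fin 275))] [RA b' (gb : Perm (Fin 275))⁻¹] [RA d (gd : Perm (Fin 275))]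
    [RA d' (gd : Perm (Fin 275))⁻¹] (h : tetChk e b b' d d' = true) : Tet eu es ea ge gb eY := by
  simp only [tetChk, band_eq_true, CmB_iff, EE_iff, CM_iff] at h
  obtain ⟨h1, h2, h3, h4, h5, h6, h7⟩ := h
  have hs : (es : Perm (Fin 275))⁻¹ = es :=
    inv_eq_of_mul_eq_one_right (congrArg Subtype.val es_sq)
  refine ⟨fun z a1 a2 => ?_, fun z z' a1 a2 a3 => ?_, h2, h3, h4, comm_coe.mpr h5, gd,
    comm_coe.mpr h6, comm_coe.mpr (by simpa [mul_assoc] using h7), fun z a1 a2 a3 a4 => ?_⟩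
  · obtain ⟨f, _, k⟩ := forall_D h1 a1
    have : RA (b ⊙ f ⊙ b') ((gb * z * gb⁻¹ : H0) : Perm (Fin 275)) :=
      inferInstanceAs (RA _ (_ * _ * _))
    simp only [imp_iff, band_eq_true, CmB_iff, CM_iff] at k
    exact ⟨comm_coe.mpr (k a2).1.1, (k a2).1.2⟩
  · obtain ⟨f, _, k⟩ := forall_D h1 a1
    have : RA (ap cY ⊙ f ⊙ ap cYI) (z' : Perm (Fin 275)) := by
      rw [show (z' : Perm (Fin 275)) = eY * z * eY⁻¹ by rw [a3]; group]; infer_instance
    simp only [imp_iff, band_eq_true, CmB_iff] at k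
    exact (k a2).2.1
  · obtain ⟨f, _, k⟩ := forall_D h1 a1
    simp only [imp_iff, band_eq_true, CmB_iff, CM_iff, EE_iff] at k
    exact Subtype.ext ((k a2).2.2 a3 (by rw [hs] at a4; rw [a4]; group))

theorem aut_chk : enum 4095 (fun f₀ => imp (EE (f₀ ⊙ f₀ ⊙ f₀) idf) (enum 4095 (fun f₁ =>
    imp (EE (f₁ ⊙ f₁) idf) (imp (EE (f₁ ⊙ f₀ ⊙ (f₁ ⊙ f₀) ⊙ (f₁ ⊙ f₀)) idf) (imp (CM f₁ (ap ce1))
      (enum 4095 (fun f₂ => imp (EE (f₂ ⊙ f₂) idf)
        (imp (EE (f₂ ⊙ f₀ ⊙ (f₂ ⊙ f₀) ⊙ (f₂ ⊙ f₀)) idf)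
        (imp (EE (f₁ ⊙ f₂) (ap cu ⊙ (f₂ ⊙ f₁)))
        (imp (EE (f₀ ⊙ f₁ ⊙ (f₀ ⊙ f₀) ⊙ f₂) (ap cT ⊙ ap cu ⊙ (f₂ ⊙ (f₀ ⊙ f₁ ⊙ (f₀ ⊙ f₀)))))
        (enumE 4095 (fun d => band (EE (f₀ ⊙ (ap cY ⊙ d)) (ap cY ⊙ d ⊙ ap ca))
          (band (EE (f₁ ⊙ (ap cY ⊙ d)) (ap cY ⊙ d ⊙ ap ce1))
            (EE (f₂ ⊙ (ap cY ⊙ d)) (ap cY ⊙ d ⊙ ap ce2)))) dC idf))))) dC idf)))) dC idf)) dC idf
    = true := by decide +kernel

theorem cen_chk : enum 4095 (fun f => band (imp (EE (f ⊙ f) idf) (bor (CmB (ap ce1) f) (CmB (ap ce2) f)))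
    (band (imp (CM f (ap ce1)) (imp (CM f (ap ce2)) (band (imp (CM f (ap cY)) (EE f idf))
      (imp (CM f (ap cs ⊙ ap cY)) (bor (EE f idf) (EE f (ap cu)))))))
    (band (imp (CmB (ap ce1) f) (enum 4095 (fun g => imp (CmB (ap ce1) g) (CM f g)) dC idf))
    (band (imp (CmB (ap ce2) f) (enum 4095 (fun g => imp (CmB (ap ce2) g) (CM f g)) dC idf))
      (enumE 4095 (fun g => band (EE (f ⊙ ap ce1) (g ⊙ f)) (CmB (ap ce1) g)) dC idf))))) dC idf
    = true := by decide +kernel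

theorem tri_chk : allB (fun p => force (cd 32 4294967295 HT p) fun e => WK e fun f => WI e fun g =>
    imp (CM (f ⊙ ap cu ⊙ g) (ap cu)) (enumE 4095 (fun d =>
      bor (EE (f ⊙ ap cu ⊙ g ⊙ (d ⊙ idf)) (d ⊙ idf ⊙ ap cu))
      (bor (EE (f ⊙ ap cu ⊙ g ⊙ (d ⊙ ap cs)) (d ⊙ ap cs ⊙ ap cu))
      (bor (EE (f ⊙ ap cu ⊙ g ⊙ (d ⊙ ap cb1)) (d ⊙ ap cb1 ⊙ ap cu))
        (EE (f ⊙ ap cu ⊙ g ⊙ (d ⊙ ap cb2)) (d ⊙ ap cb2 ⊙ ap cu))))) dC idf)) 210 = true := by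
  decide +kernel

theorem rel_chk : (band (EE (ap cT ⊙ ap cT) idf) <| band (EE (ap cu ⊙ ap cu) idf) <|
    band (neg (EE (ap cu) (ap cT))) <| band (EE (ap cY ⊙ ap cT) (ap cu ⊙ ap cY)) <|
    band (EE (ap cY ⊙ ap cu) (ap cT ⊙ ap cu ⊙ ap cY)) <| band (EE (ap cY ⊙ ap cY ⊙ ap cY) idf) <|
    band (EE (ap cs ⊙ ap cY ⊙ (ap cs ⊙ ap cY)) idf) <| band (EE (ap ca ⊙ ap ca ⊙ ap ca) idf) <|
    band (EE (ap ce1 ⊙ ap ce1) idf) <|
    band (EE (ap ce1 ⊙ ap ca ⊙ (ap ce1 ⊙ ap ca) ⊙ (ap ce1 ⊙ ap ca)) idf) <|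
    band (EE (ap ce2 ⊙ ap ce2) idf) <|
    band (EE (ap ce2 ⊙ ap ca ⊙ (ap ce2 ⊙ ap ca) ⊙ (ap ce2 ⊙ ap ca)) idf) <|
    band (EE (ap ce1 ⊙ ap ce2) (ap cT ⊙ (ap ce2 ⊙ ap ce1)))
      (EE (ap ca ⊙ ap ce1 ⊙ (ap ca ⊙ ap ca) ⊙ ap ce2)
        (ap cu ⊙ (ap ce2 ⊙ (ap ca ⊙ ap ce1 ⊙ (ap ca ⊙ ap ca)))))) = true := by decide +kernel

theorem mdl : Mdl eT eu es ea ee1 ee2 eb1 eb2 eY := by
  have h := rel_chk
  simp only [band_eq_true, EE_iff, neg_iff] at h
  obtain ⟨r1, r2, r3, r4, r5, r6, r7, r8, r9, r10, r11, r12, r13, r14⟩ := h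
  have hc : ∀ z : H0, Commute z eu → (z * z = 1 → Cm ea ee1 z ∨ Cm ea ee2 z) ∧
      (Commute z ee1 → Commute z ee2 → (Commute (z : Perm (Fin 275)) eY → z = 1) ∧
        (Commute (z : Perm (Fin 275)) (es * eY) → z = 1 ∨ z = eu)) ∧
      (Cm ea ee1 z → ∀ z' : H0, Commute z' eu → Cm ea ee1 z' → Commute z z') ∧
      (Cm ea ee2 z → ∀ z' : H0, Commute z' eu → Cm ea ee2 z' → Commute z z') ∧
      Cm ea ee1 (z * ee1 * z⁻¹) := by
    intro z hz
    obtain ⟨f, _, k⟩ := forall_D cen_chk hz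
    simp only [imp_iff, band_eq_true, bor_eq_true, CmB_iff, CM_iff, EE_iff] at k
    obtain ⟨k1, k2, k3, k4, k5⟩ := k
    refine ⟨fun e => k1 (congrArg Subtype.val e), by
      simpa only [comm_coe, Subtype.ext_iff, Subgroup.coe_one] using k2,
      fun a z' b c => ?_, fun a z' b c => ?_, ?_⟩
    · obtain ⟨g, _, l⟩ := forall_D (k3 a) b
      simp only [imp_iff, CmB_iff, CM_iff] at l
      exact comm_coe.mpr (l c)
    · obtain ⟨g, _, l⟩ := forall_D (k4 a) b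
      simp only [imp_iff, CmB_iff, CM_iff] at l
      exact comm_coe.mpr (l c)
    · obtain ⟨d, -, g, _, l⟩ := exists_D k5
      simp only [band_eq_true, CmB_iff, EE_iff] at l
      rw [show z * ee1 = d * z from Subtype.ext l.1, mul_inv_cancel_right]
      exact l.2
  refine ⟨comm_T, Subtype.ext r1, Subtype.ext r2, fun e => r3 (congrArg Subtype.val e), r4, r5, r6,
    es_sq, r7, fun z a b c => ?_, fun d hd => ?_, comm_au, comm_e1u, comm_e2u, Subtype.ext r8,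
    Subtype.ext r9, Subtype.ext r10, Subtype.ext r11, Subtype.ext r12, Subtype.ext r13,
    Subtype.ext r14, fun z a => (hc z a).1, fun z z' a b c => (hc z a).2.2.1 c z' b,
    fun z z' a b c => (hc z a).2.2.2.1 c z' b, fun z a => (hc z a).2.2.2.2,
    fun f₀ f₁ f₂ c₀ c₁ c₂ a1 a2 a3 a4 a5 a6 a7 a8 => ?_, fun z a b c => ((hc z a).2.1 b c).1,
    fun z a b c => ((hc z a).2.1 b c).2,
    tetChk_sound (e := ap ce1) (b := ap cb1) (b' := ap cb1I) (d := ap cd1) (d' := ap cd1I)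
      (by decide +kernel),
    tetChk_sound (e := ap ce2) (b := ap cb2) (b' := ap cb2I) (d := ap cd2) (d' := ap cd2I)
      (by decide +kernel), fun h hh => ?_⟩
  · obtain ⟨l, hl, e | e⟩ := inv_S le_rfl (m := 315) card_H0_cov.1 (by norm_num) z.2
      (congrArg Subtype.val a) fun e => b (Subtype.ext e)
    · refine absurd (Subtype.ext ?_) c
      rw [← e, (comm_coe.mp (comm_T ⟨l, hl⟩)).eq, mul_inv_cancel_right]
    · exact ⟨⟨l, hl⟩, Subtype.ext e⟩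
  · have := mem_DD hd
    rw [DD_eq] at this
    obtain ⟨d', h1, h2⟩ := this
    rwa [← Subtype.ext h2]
  · obtain ⟨g₀, _, k⟩ := forall_D aut_chk c₀
    rw [imp_iff, EE_iff] at k
    obtain ⟨g₁, _, k⟩ := forall_D (k (congrArg Subtype.val a1)) c₁
    simp only [imp_iff, EE_iff, CM_iff] at k
    obtain ⟨g₂, _, k⟩ := forall_D (k (congrArg Subtype.val a2) (congrArg Subtype.val a3)
      (comm_coe.mp a4)) c₂
    simp only [imp_iff, EE_iff] at k
    obtain ⟨d, hd, g, _, k⟩ := exists_D (k (congrArg Subtype.val a5) (congrArg Subtype.val a6)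
      (congrArg Subtype.val a7) (congrArg Subtype.val a8))
    simp only [band_eq_true, EE_iff] at k
    exact ⟨d, hd, k⟩
  · obtain ⟨p, h1, d, hd, rfl⟩ := card_H0_cov.2 h
    obtain ⟨d', h2, h3⟩ := of_mem_DD hd
    rw [Subtype.ext h2] at h3
    have h4 : hp p * d * eu * (hp p * d)⁻¹ = hp p * eu * (hp p)⁻¹ := by
      calc _ = hp p * (d * eu * d⁻¹) * (hp p)⁻¹ := by group
        _ = _ := by rw [h3.eq]; group
    rw [h4] at hh ⊢
    have k := allB_iff.mp tri_chk p h1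
    rw [force_eq] at k
    obtain ⟨f, _, k⟩ := WK_sound k
    obtain ⟨g, _, k⟩ := WI_sound k
    rw [imp_iff, CM_iff] at k
    obtain ⟨d, hd, g, _, k⟩ := exists_D (k (comm_coe.mp hh))
    simp only [bor_eq_true, EE_iff] at k
    rcases k with k | k | k | k
    · exact ⟨d, 1, hd, by simp, Subtype.ext (eq_mul_inv_of_mul_eq k)⟩
    · exact ⟨d, es, hd, by simp, Subtype.ext (eq_mul_inv_of_mul_eq k)⟩
    · exact ⟨d, eb1, hd, by simp, Subtype.ext (eq_mul_inv_of_mul_eq k)⟩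
    · exact ⟨d, eb2, hd, by simp, Subtype.ext (eq_mul_inv_of_mul_eq k)⟩

theorem inv_MM {z : Perm (Fin 275)} (hz : z ∈ MM) (h5 : z * z = 1) (h6 : z ≠ 1) :
    ∃ l ∈ MM, l * eT * l⁻¹ = z := by
  obtain ⟨l, hl, e | e⟩ := inv_S H0_le (m := 7016625) card_MM (by norm_num) hz h5 h6
  · exact ⟨l, hl, e⟩
  · exact ⟨l * eY, mul_mem hl (RA.mem (ap cY)), by rw [mul_assoc l, mdl.YT, ← e]; group⟩

/-- The double coset representatives. -/
def WW {Γ : Type*} [Group Γ] (L : ℕ → Γ) (y : Γ) : ℕ → Γ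
  | 0 => 1
  | 1 => y
  | 2 => y * evW L 8 1 * y
  | 3 => y * evW L 8 3 * y
  | 4 => y * evW L 8 15 * y
  | _ => y * evW L 8 1 * y * evW L 8 1 * y

theorem map_WW {Γ Δ : Type*} [Group Γ] [Group Δ] (φ : Γ →* Δ) (L : ℕ → Γ) (y : Γ) (i : ℕ) :
    φ (WW L y i) = WW (fun l => φ (L l)) (φ y) i := by
  unfold WW
  split <;> simp only [map_one, map_mul, map_evW]

/-- The double coset representatives in the model. -/
noncomputable def WP (i : ℕ) : Perm (Fin 275) := WW (fun l => (LH l : Perm (Fin 275))) eY i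

theorem RA.congr {f f' : ℕ → ℕ} {g : Perm (Fin 275)} [h : RA f g] (e : eqF 12 275 f' f = true) :
    RA f' g := ⟨h.rep.congr (eqF_iff.mp e), h.mem⟩

theorem RA_W {i : ℕ} (hi : i < 6) : RA (ap (cd 3300 MK WT i)) (WP i) := by
  have h : (WK 1 fun f => WK 3 fun g => WK 15 fun h =>
      band (eqF 12 275 (ap (cd 3300 MK WT 0)) idf) <|
      band (eqF 12 275 (ap (cd 3300 MK WT 1)) (ap cY)) <|
      band (eqF 12 275 (ap (cd 3300 MK WT 2)) (ap cY ⊙ f ⊙ ap cY)) <|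
      band (eqF 12 275 (ap (cd 3300 MK WT 3)) (ap cY ⊙ g ⊙ ap cY)) <|
      band (eqF 12 275 (ap (cd 3300 MK WT 4)) (ap cY ⊙ h ⊙ ap cY))
        (eqF 12 275 (ap (cd 3300 MK WT 5)) (ap cY ⊙ f ⊙ ap cY ⊙ f ⊙ ap cY))) = true := by
    decide +kernel
  obtain ⟨f, _, h⟩ := WK_sound h
  obtain ⟨g, _, h⟩ := WK_sound h
  obtain ⟨k, _, h⟩ := WK_sound h
  simp only [band_eq_true] at h
  obtain ⟨h0, h1, h2, h3, h4, h5⟩ := h
  unfold WP
  interval_cases i <;> simp only [WW, ← coe_hw]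
  exacts [RA.congr h0, RA.congr h1, RA.congr h2, RA.congr h3, RA.congr h4, RA.congr h5]

theorem W_chk : allB (fun i => force (cd 3300 MK WT i) fun a => force (cd 3300 MK WTI i) fun b =>
    force (cd 3300 MK VT i) fun c => band (eqF 12 275 (fun x => ap b (ap a x)) fun x => x)
      (band (eqF 12 275 (ap c) (ap a ⊙ ap cT ⊙ ap b)) (bor (Nat.beq i 0) (neg (CM (ap a) (ap cT))))))
    6 = true := by decide +kernel

theorem RA_WI {i : ℕ} (hi : i < 6) : RA (ap (cd 3300 MK WTI i)) (WP i)⁻¹ := by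
  have := allB_iff.mp W_chk i hi
  simp only [force_eq, band_eq_true] at this
  exact RA.inv (h := RA_W hi) this.1

theorem RA_V {i : ℕ} (hi : i < 6) : RA (ap (cd 3300 MK VT i)) (WP i * eT * (WP i)⁻¹) := by
  have h := allB_iff.mp W_chk i hi
  simp only [force_eq, band_eq_true] at h
  have := RA_W hi
  have := RA_WI hi
  exact RA.congr h.2.1

theorem W_not_comm {i : ℕ} (hi : i < 6) (h0 : i ≠ 0) : ¬ Commute (WP i) eT := by
  have h := allB_iff.mp W_chk i hi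
  have := RA_W hi
  simp only [force_eq, band_eq_true, bor_eq_true, Nat.beq_eq, neg_iff, CM_iff] at h
  exact h.2.2.resolve_left h0

/-- Stabilizer chain of a Sylow `3`-subgroup. -/
noncomputable abbrev pC : List Level := [pL0, pL1]

theorem ssP : SSOK 12 4095 275 pC := SSOK_of_ssChk (by decide +kernel)

theorem inG_P : ∀ c ∈ gensOf pC, InG 12 4095 MM c := by
  intro c hc
  simp only [gensOf, pL0, List.mem_cons, List.not_mem_nil, or_false] at hc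
  rcases hc with rfl | rfl | rfl
  · exact memChk_sound (e := eP0) (by norm_num) ssM validM (by decide +kernel)
  · exact memChk_sound (e := eP1) (by norm_num) ssM validM (by decide +kernel)
  · exact memChk_sound (e := eP2) (by norm_num) ssM validM (by decide +kernel)

theorem three_chk : enum 4095 (fun f => imp (EE (f ⊙ f ⊙ f) idf) (anyL (fun r =>
    force (Nat.shiftRight r 3) fun e => force (Nat.land r 7) fun j => band (Nat.ble (Nat.succ j) 6)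
      (force (cd 3300 MK VT j) fun v => WK e fun g => WI e fun g' => CM (g ⊙ ap v ⊙ g') f)) RL))
    pC idf = true := by decide +kernel

theorem three_MM {k : Perm (Fin 275)} (hk : k ∈ MM) (h3 : k ^ 3 = 1) :
    ∃ l ∈ MM, Commute (l * eT * l⁻¹) k := by
  have hv := fun c hc => (inG_P c hc).mono le_top
  have hle := Grp_le (by norm_num) inG_P
  obtain ⟨l, hl, h7⟩ := exists_conj_mem (k := 6) (m := 1232000) Nat.prime_three hle
    ((ssP.card (by norm_num) hv).trans (by decide +kernel)) card_MM (by norm_num) hk h3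
  obtain ⟨f, h8, h9⟩ := forall_of_enum_all (by norm_num) ssP hv three_chk h7
  have : RA f (l⁻¹ * k * l) := ⟨h8, hle h7⟩
  simp only [imp_iff, EE_iff, anyL_iff, force_eq, band_eq_true, Nat.ble_eq] at h9
  obtain ⟨r, -, hj, h⟩ := h9 (by
    rw [show l⁻¹ * k * l * (l⁻¹ * k * l) * (l⁻¹ * k * l) = l⁻¹ * (k * k * k) * l by group,
      ← pow_three', h3]; group)
  obtain ⟨g, _, h⟩ := WK_sound h
  obtain ⟨g', _, h⟩ := WI_sound h
  have := RA_V hj
  rw [CM_iff] at h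
  refine ⟨l * hw (Nat.shiftRight r 3) * WP (Nat.land r 7),
    mul_mem (mul_mem hl (H0_le (hw _).2)) (RA_W hj).mem, ?_⟩
  have := h.map (MulAut.conj l)
  simpa [mul_assoc] using this

/-- The certificate. -/
noncomputable def cert : Cert where
  ms := 4095
  b := 3300
  m := MK
  B := BB
  C := LT
  CI := LTI
  r := 6
  W := WT
  WI := WTI
  V := VT
  par := 70208
  F := FT
  np := 210
  H := HT
  CT := CT

theorem fact_chk : allB cert.factChk 1104 = true := by decide +kernel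

theorem nb_chk : allB (fun i => allB (cert.nbChk 1104 (i + 1)) 210) 5 = true := by decide +kernel

end Cfsg.Agent.L0.McL
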