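import Cfsg.Agent.L0.SyDef

/-! S3580: basic lemmas. -/

set_option autoImplicit false
set_option linter.unusedSectionVars false
set_option linter.unusedVariables false

namespace Cfsg.Agent.L0.Sy

open Finset Pn
open scoped Pointwise

variable {G : Type} [Group G] [Finite G] {Ω : Type} [Fintype Ω] [DecidableEq Ω] [MulAction G Ω]
  {T : Type} [Fintype T] [DecidableEq T] [MulAction G T]
  {p : ℕ} [hp : Fact p.Prime] {P : Sylow p G} {K X Y H : Subgroup G} {O W Λ : Finset Ω} {n : ℕ}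

theorem Op_le_of (h : ∀ y ∈ X, pe p y → y ∈ Y) : Op p X ≤ Y :=
  (Subgroup.closure_le _).2 fun y hy => h y hy.1 hy.2
theorem Op_le : Op p X ≤ X := Op_le_of fun _ h _ => h
theorem mem_Op {y : G} (hy : y ∈ X) (h : pe p y) : y ∈ Op p X := Subgroup.subset_closure ⟨hy, h⟩
theorem Op_mono (h : X ≤ Y) : Op p X ≤ Op p Y := Op_le_of fun _ hy hy' => mem_Op (h hy) hy'
theorem pe_of_mem {y : G} (hy : y ∈ (P : Subgroup G)) : pe p y := by
  obtain ⟨k, hk⟩ := P.isPGroup' ⟨y, hy⟩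
  exact ⟨k, congrArg Subtype.val hk⟩
theorem pe.conj {y : G} (h : pe p y) (g : G) : pe p (g * y * g⁻¹) := by
  obtain ⟨k, hk⟩ := h
  exact ⟨k, by rw [conj_pow, hk]; simp⟩
theorem le_Op (h : (P : Subgroup G) ≤ X) : (P : Subgroup G) ≤ Op p X :=
  fun _ hy => mem_Op (h hy) (pe_of_mem hy)
theorem Op_fix {x : Ω} (h : ∀ y ∈ X, pe p y → y • x = x) : ∀ u ∈ Op p X, u • x = x :=
  fun _ hu => (Op_le_of (Y := MulAction.stabilizer G x) h) hu
theorem Op_conj {g u : G} (h : ∀ y ∈ X, g * y * g⁻¹ ∈ Y) (hu : u ∈ Op p X) : g * u * g⁻¹ ∈ Op p Y :=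
  (Op_le_of (Y := (Op p Y).comap (MulAut.conj g).toMonoidHom) fun y hy hy' =>
    mem_Op (h y hy) (hy'.conj g)) hu

theorem syl0 (h : (P : Subgroup G) ≤ X) {Q : Subgroup G} (hQ : IsPGroup p Q) (hQX : Q ≤ X) :
    ∃ g ∈ X, ∀ y ∈ Q, g⁻¹ * y * g ∈ (P : Subgroup G) := by
  have h1 : IsPGroup p (Q.subgroupOf X) := hQ.comap_subtype
  obtain ⟨R, hR⟩ := h1.exists_le_sylow
  obtain ⟨g, hg⟩ := MulAction.exists_smul_eq X (P.subtype h) R
  refine ⟨g, g.2, fun y hy => ?_⟩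
  have h2 : (⟨y, hQX hy⟩ : X) ∈ (R : Subgroup X) := hR hy
  rw [← hg, Sylow.coe_subgroup_smul, Subgroup.mem_pointwise_smul_iff_inv_smul_mem] at h2
  simpa [Sylow.coe_subtype, Subgroup.mem_subgroupOf] using h2

theorem syl (h : (P : Subgroup G) ≤ X) {y : G} (hy : y ∈ X) (hy' : pe p y) :
    ∃ g ∈ Op p X, g⁻¹ * y * g ∈ (P : Subgroup G) := by
  have hQ : IsPGroup p (Subgroup.zpowers y) := by
    rintro ⟨_, i, rfl⟩
    obtain ⟨k, hk⟩ := hy'
    refine ⟨k, Subtype.ext ?_⟩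
    show (y ^ i) ^ p ^ k = 1
    rw [← zpow_natCast, ← zpow_mul, mul_comm, zpow_mul, zpow_natCast, hk, one_zpow]
  obtain ⟨g, hg, h2⟩ := syl0 (le_Op h) hQ (Subgroup.zpowers_le.2 (mem_Op hy hy'))
  exact ⟨g, hg, h2 y (Subgroup.mem_zpowers y)⟩

/-- `n` normalises `K` -/
def Nrm (K : Subgroup G) (m : G) : Prop := ∀ k, k ∈ K ↔ m * k * m⁻¹ ∈ K

theorem nrm_of {m : G} (h : ∀ k ∈ K, m * k * m⁻¹ ∈ K) : Nrm K m :=
  Subgroup.mem_normalizer_iff.1 (Subgroup.mem_normalizer_fintype h)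

theorem Nrm.inv {m : G} (h : Nrm K m) : Nrm K m⁻¹ := fun k => by
  rw [h (m⁻¹ * k * m⁻¹⁻¹)]; simp [mul_assoc]

theorem frat (h : (P : Subgroup G) ≤ Y) {s : G} (hs : ∀ k ∈ (P : Subgroup G), s * k * s⁻¹ ∈ Y) :
    ∃ u ∈ Op p Y, ∃ m, Nrm (P : Subgroup G) m ∧ s = u * m := by
  have hQ : IsPGroup p ((P : Subgroup G).map (MulAut.conj s).toMonoidHom) := P.isPGroup'.map _
  obtain ⟨g, hg, h2⟩ := syl0 (le_Op h) hQ (by
    rintro _ ⟨k, hk, rfl⟩
    exact mem_Op (hs k hk) ((pe_of_mem hk).conj s))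
  refine ⟨g, hg, g⁻¹ * s, nrm_of fun k hk => ?_, by group⟩
  have := h2 _ ⟨k, hk, rfl⟩
  simpa [mul_assoc] using this

theorem pro_syl : Pro (P : Subgroup G) := fun g => by
  obtain ⟨u, hu, m, hm, rfl⟩ := frat (P := P) (Y := P ⊔ (P : Subgroup G).map (MulAut.conj g).toMonoidHom)
    le_sup_left (s := g) fun k hk => Subgroup.mem_sup_right ⟨k, hk, rfl⟩
  refine ⟨u, Op_le hu, ?_⟩
  ext x
  rw [mem_conj, mem_conj, hm.inv]
  simp [mul_assoc]

theorem Nrm.fx_iff {m : G} (h : Nrm K m) {x : Ω} : Fx K (m • x) ↔ Fx K x := by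
  have key : ∀ {m : G} {x : Ω}, Nrm K m → Fx K x → Fx K (m • x) := fun {m x} h hx k hk => by
    have := hx _ ((h.inv k).1 hk)
    rw [inv_inv, mul_smul, mul_smul, inv_smul_eq_iff] at this
    exact this
  exact ⟨fun h1 => by simpa using key h.inv h1, key h⟩

theorem orb_conj {g : G} (h : ∀ u, g * u * g⁻¹ ∈ Y ↔ u ∈ X) (x : Ω) : orb Y (g • x) = g • orb X x := by
  ext y
  rw [mem_orb, ← inv_smul_mem_iff, mem_orb]
  constructor
  · rintro ⟨u, hu, rfl⟩
    exact ⟨g⁻¹ * u * g, (h _).1 (by simpa [mul_assoc] using hu), by simp [mul_smul]⟩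
  · rintro ⟨u, hu, e⟩
    exact ⟨_, (h u).2 hu, by rw [mul_smul, mul_smul, inv_smul_smul, e, smul_inv_smul]⟩

theorem Nrm.card_orb {m : G} (h : Nrm K m) (x : Ω) : (orb K (m • x)).card = (orb K x).card := by
  rw [orb_conj (fun u => (h u).symm), card_smul_finset]
theorem Nrm.wt {m : G} (h : Nrm K m) (x : Ω) : wt p K (m • x) = wt p K x := by
  unfold Sy.wt; rw [h.fx_iff, h.card_orb]
theorem Nrm.dl {m : G} (h : Nrm K m) (W : Finset Ω) : dl p K (m • W) = dl p K W := by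
  unfold Sy.dl
  rw [smul_finset_def, sum_image fun _ _ _ _ e => MulAction.injective m e]
  exact sum_congr rfl fun x _ => h.wt x
theorem Nrm.fx {m : G} (h : Nrm K m) (W : Finset Ω) : fx K (m • W) = m • fx K W := by
  ext x
  rw [mem_fx, ← inv_smul_mem_iff, ← inv_smul_mem_iff, mem_fx, h.inv.fx_iff]
theorem Nrm.mv {m : G} (h : Nrm K m) (W : Finset Ω) : mv K (m • W) = m • mv K W := by
  ext x
  rw [mem_mv, ← inv_smul_mem_iff, ← inv_smul_mem_iff, mem_mv, h.inv.fx_iff]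
theorem Nrm.rg {m : G} (h : Nrm K m) {k : ℕ} (hW : Rg p K W k) : Rg p K (m • W) k := by
  refine ⟨fun x hx hx' => ?_, hW.le, by rw [h.mv, card_smul_finset, card_smul_finset, hW.cnt]⟩
  rw [← h.inv.card_orb]
  exact hW.sz _ (inv_smul_mem_iff.2 hx) (by rwa [h.inv.fx_iff])

theorem card_fx_mv (K : Subgroup G) (W : Finset Ω) : (fx K W).card + (mv K W).card = W.card := by
  classical
  unfold fx mv
  convert card_filter_add_card_filter_not (s := W) (Fx K)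

theorem card_orb_pow (x : Ω) : ∃ k, (orb (P : Subgroup G) x).card = p ^ k := by
  have e : (orb (P : Subgroup G) x : Set Ω) = MulAction.orbit (P : Subgroup G) x := by
    ext y
    simp only [mem_coe, mem_orb]
    exact ⟨fun ⟨h, hh, e⟩ => ⟨⟨h, hh⟩, e⟩, fun ⟨h, e⟩ => ⟨h, h.2, e⟩⟩
  obtain ⟨k, hk⟩ := P.isPGroup'.card_orbit x
  exact ⟨k, by rw [← hk, ← e, Nat.card_coe_set_eq, Set.ncard_coe_finset]⟩

theorem card_orb_ne_one {x : Ω} (hx : ¬ Fx K x) : (orb K x).card ≠ 1 := fun h => hx fun k hk => by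
  obtain ⟨a, ha⟩ := card_eq_one.1 h
  have h1 := self_mem_orb K x
  have h2 : k • x ∈ orb K x := mem_orb.2 ⟨k, hk, rfl⟩
  rw [ha, mem_singleton] at h1 h2
  rw [h2, h1]

theorem dvd_card_orb {x : Ω} (hx : ¬ Fx (P : Subgroup G) x) : p ∣ (orb (P : Subgroup G) x).card := by
  obtain ⟨k, hk⟩ := card_orb_pow (P := P) x
  have := card_orb_ne_one hx
  rw [hk] at this ⊢
  exact dvd_pow_self p fun e => this (by rw [e, pow_zero])

theorem sq_le_card_orb {x : Ω} (hx : ¬ Fx (P : Subgroup G) x) (h : (orb (P : Subgroup G) x).card ≠ p) :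
    p ^ 2 ≤ (orb (P : Subgroup G) x).card := by
  obtain ⟨k, hk⟩ := card_orb_pow (P := P) x
  have := card_orb_ne_one hx
  rw [hk] at this h ⊢
  refine Nat.pow_le_pow_right hp.out.pos ?_
  rcases k with _ | _ | k
  · simp at this
  · simp at h
  · omega

theorem fx_of_mem_orb {x y : Ω} (hy : y ∈ orb K x) (h : Fx K y) : Fx K x := by
  obtain ⟨k, hk, rfl⟩ := mem_orb.1 hy
  exact mv_smul hk h

theorem inv_mv (h : Inv K W) : Inv K (mv K W) := fun k hk x hx =>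
  mem_mv.2 ⟨h k hk x (mem_mv.1 hx).1, fun e => (mem_mv.1 hx).2 (mv_smul hk e)⟩

/-- induction over orbits -/
theorem orb_ind {Q : Finset Ω → Prop} (h0 : Q ∅) (hu : ∀ A B, Disjoint A B → Q A → Q B → Q (A ∪ B))
    (hW : Inv X W) (h : ∀ x ∈ W, Q (orb X x)) : Q W := by
  induction W using Finset.strongInduction with
  | H W ih =>
    rcases W.eq_empty_or_nonempty with rfl | ⟨x, hx⟩
    · exact h0
    · have hs := orb_subset hW hx
      rw [← sdiff_union_of_subset hs]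
      exact hu _ _ sdiff_disjoint (ih _ (sdiff_ssubset hs ⟨x, self_mem_orb X x⟩)
        (hW.sdiff (orb_orb X x).inv) fun y hy => h y (mem_sdiff.1 hy).1) (h x hx)

theorem dvd_card_mv (h : Inv (P : Subgroup G) W) : p ∣ (mv (P : Subgroup G) W).card :=
  orb_ind (Q := fun A => p ∣ A.card) (by simp)
    (fun A B hd hA hB => by rw [card_union_of_disjoint hd]; exact dvd_add hA hB) (inv_mv h)
    fun x hx => dvd_card_orb (mem_mv.1 hx).2

theorem p_pos : (0 : ℚ) < p := by exact_mod_cast hp.out.pos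
theorem p_two : (2 : ℚ) ≤ p := by exact_mod_cast hp.out.two_le

theorem wt_big : ((p : ℚ) ^ 2 + p - 1) / (p : ℚ) ^ 2 = ((p : ℚ) - 1) / p + (2 * p - 1) / (p : ℚ) ^ 2 := by
  have := p_pos (p := p)
  field_simp
  ring

theorem wt_ge {x : Ω} (hx : ¬ Fx K x) : ((p : ℚ) - 1) / p ≤ wt p K x := by
  unfold wt
  rw [if_neg hx]
  split_ifs
  · exact le_rfl
  · have := p_two (p := p)
    rw [wt_big]
    exact le_add_of_nonneg_right (div_nonneg (by linarith) (by positivity))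

theorem dl_split (W : Finset Ω) : dl p K W = ∑ x ∈ mv K W, wt p K x - (fx K W).card := by
  classical
  have e : ∑ x ∈ fx K W, wt p K x = -((fx K W).card : ℚ) := by
    rw [sum_congr rfl (g := fun _ => (-1 : ℚ)) fun x hx => by unfold wt; rw [if_pos (mem_fx.1 hx).2]]
    simp
  have := sum_filter_add_sum_filter_not W (Fx K) (wt p K)
  unfold dl
  rw [← this, sub_eq_add_neg, ← e, add_comm]
  unfold fx mv
  congr!

theorem dl_ge (W : Finset Ω) : ((mv K W).card : ℚ) * (((p : ℚ) - 1) / p) - (fx K W).card ≤ dl p K W := by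
  rw [dl_split]
  have := card_nsmul_le_sum (mv K W) (wt p K) _ fun x hx => wt_ge (p := p) (mem_mv.1 hx).2
  rw [nsmul_eq_mul] at this
  linarith

theorem dl_ge_big (h : Inv (P : Subgroup G) W) {x : Ω} (hx : x ∈ W) (h1 : ¬ Fx (P : Subgroup G) x)
    (h2 : (orb (P : Subgroup G) x).card ≠ p) :
    ((mv (P : Subgroup G) W).card : ℚ) * (((p : ℚ) - 1) / p) - (fx (P : Subgroup G) W).card + (2 * p - 1)
      ≤ dl p (P : Subgroup G) W := by
  rw [dl_split]
  have hs : orb (P : Subgroup G) x ⊆ mv (P : Subgroup G) W := orb_subset (inv_mv h) (mem_mv.2 ⟨hx, h1⟩)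
  have h3 := card_nsmul_le_sum (mv (P : Subgroup G) W \ orb (P : Subgroup G) x) (wt p (P : Subgroup G)) _
    fun x hx => wt_ge (p := p) (mem_mv.1 (mem_sdiff.1 hx).1).2
  have h4 : ∑ y ∈ orb (P : Subgroup G) x, wt p (P : Subgroup G) y =
      (orb (P : Subgroup G) x).card * (((p : ℚ) - 1) / p + (2 * p - 1) / (p : ℚ) ^ 2) := by
    rw [← wt_big, ← nsmul_eq_mul, ← sum_const]
    refine sum_congr rfl fun y hy => ?_
    unfold wt
    rw [if_neg (mem_mv.1 (hs hy)).2, orb_eq hy, if_neg h2]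
  have h5 : ((p : ℚ)) ^ 2 ≤ (orb (P : Subgroup G) x).card := by exact_mod_cast sq_le_card_orb h1 h2
  have h6 := p_two (p := p)
  have h7 : (2 * (p : ℚ) - 1) ≤ (orb (P : Subgroup G) x).card * ((2 * p - 1) / (p : ℚ) ^ 2) := by
    rw [← mul_div_assoc, le_div_iff₀ (by positivity)]
    nlinarith
  rw [← sum_sdiff hs, h4, ← card_sdiff_add_card_eq_card hs]
  rw [nsmul_eq_mul] at h3
  push_cast
  linarith

theorem dl_eq (h : ∀ x ∈ W, ¬ Fx K x → (orb K x).card = p) :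
    dl p K W = ((mv K W).card : ℚ) * (((p : ℚ) - 1) / p) - (fx K W).card := by
  rw [dl_split, ← nsmul_eq_mul, ← sum_const]
  congr 1
  refine sum_congr rfl fun y hy => ?_
  unfold wt
  rw [if_neg (mem_mv.1 hy).2, if_pos (h y (mem_mv.1 hy).1 (mem_mv.1 hy).2)]

theorem dl_union {A B : Finset Ω} (h : Disjoint A B) : dl p K (A ∪ B) = dl p K A + dl p K B :=
  sum_union h

theorem Rg.uniq {k k' : ℕ} (h : Rg p K W k) (h' : Rg p K W k') (hW : W.Nonempty) : k = k' := by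
  have h1 := h.cnt.trans h'.cnt.symm
  refine Nat.eq_of_mul_eq_mul_left (Nat.pos_of_ne_zero fun e => ?_) h1
  have := h.cnt
  rw [e, zero_mul] at this
  exact (Nat.mul_pos hW.card_pos hp.out.pos).ne this

theorem Rg.dl {k : ℕ} (h : Rg p K W k) : dl p K W * k = W.card * (2 * (p : ℚ) - 1 - k) := by
  have h1 : ((mv K W).card : ℚ) * k = W.card * p := by exact_mod_cast h.cnt
  have h2 : ((fx K W).card : ℚ) + (mv K W).card = W.card := by exact_mod_cast card_fx_mv K W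
  have := p_pos (p := p)
  rw [dl_eq h.sz, show ((fx K W).card : ℚ) = W.card - (mv K W).card by linarith]
  have h3 : ((mv K W).card : ℚ) * (((p : ℚ) - 1) / p) * k = W.card * (p - 1) := by
    field_simp
    linear_combination (p - 1 : ℚ) * h1
  linear_combination h3 + h1

theorem mv_union (A B : Finset Ω) : mv K (A ∪ B) = mv K A ∪ mv K B := by
  ext x; simp only [mem_mv, mem_union]; tauto

theorem mv_subset (K : Subgroup G) (A : Finset Ω) : mv K A ⊆ A := fun _ hx => (mem_mv.1 hx).1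

theorem Rg.of_orbs {k : ℕ} (hk : p ≤ k) (hW : Inv X W) (h : ∀ x ∈ W, Rg p K (orb X x) k) : Rg p K W k := by
  refine orb_ind (Q := fun A => Rg p K A k) ⟨by simp, hk, by simp [mv]⟩ (fun A B hd hA hB => ⟨?_, hk, ?_⟩) hW h
  · intro x hx
    rcases mem_union.1 hx with hx | hx
    · exact hA.sz x hx
    · exact hB.sz x hx
  · rw [mv_union, card_union_of_disjoint hd,
      card_union_of_disjoint (hd.mono (mv_subset K A) (mv_subset K B)), add_mul, add_mul, hA.cnt, hB.cnt]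

theorem mv_orb (h : (P : Subgroup G) ≤ X) {x : Ω} {u : G} (hu : u ∈ Op p X) (hx : u • x ≠ x) :
    Mv (P : Subgroup G) (orb (Op p X) x) := by
  by_contra hn
  refine hx (Op_fix (fun y hy hy' => ?_) u hu)
  obtain ⟨g, hg, h2⟩ := syl h hy hy'
  have : Fx (P : Subgroup G) (g⁻¹ • x) := by
    by_contra h3
    exact hn ⟨_, mem_orb.2 ⟨_, (Op p X).inv_mem hg, rfl⟩, h3⟩
  have := this _ h2
  rwa [mul_smul, mul_smul, smul_inv_smul, smul_left_cancel_iff] at this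

theorem mv_eq_orb (hI : Inv (P : Subgroup G) Λ) (hc : (mv (P : Subgroup G) Λ).card = p) {z : Ω}
    (hz : z ∈ mv (P : Subgroup G) Λ) : orb (P : Subgroup G) z = mv (P : Subgroup G) Λ :=
  eq_of_subset_of_card_le (orb_subset (inv_mv hI) hz)
    (hc.le.trans (Nat.le_of_dvd (card_pos.2 ⟨z, self_mem_orb _ z⟩) (dvd_card_orb (mem_mv.1 hz).2)))

theorem orb_mono (h : X ≤ Y) (x : Ω) : orb X x ⊆ orb Y x := fun y hy => by
  obtain ⟨u, hu, e⟩ := mem_orb.1 hy
  exact mem_orb.2 ⟨u, h hu, e⟩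

theorem C2 (h : (P : Subgroup G) ≤ X) (hI : Inv (P : Subgroup G) Λ) (hI' : Inv (Op p X) Λ)
    (hc : (mv (P : Subgroup G) Λ).card = p) {x y : Ω} (hx : x ∈ Λ) (hy : y ∈ Λ)
    (hx' : ¬ Fx (Op p X) x) (hy' : ¬ Fx (Op p X) y) : y ∈ orb (Op p X) x := by
  have key : ∀ x ∈ Λ, ¬ Fx (Op p X) x → ∃ z ∈ mv (P : Subgroup G) Λ, orb (Op p X) z = orb (Op p X) x := by
    intro x hx hx'
    unfold Fx at hx'
    push Not at hx'
    obtain ⟨u, hu, e⟩ := hx'
    obtain ⟨z, hz, hz'⟩ := mv_orb h hu e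
    exact ⟨z, mem_mv.2 ⟨orb_subset hI' hx hz, hz'⟩, orb_eq hz⟩
  obtain ⟨z, hz, e⟩ := key x hx hx'
  obtain ⟨w, hw, e'⟩ := key y hy hy'
  have : w ∈ orb (Op p X) z := orb_mono (le_Op h) z (by rw [mv_eq_orb hI hc hz]; exact hw)
  rw [← e, ← orb_eq this, e']
  exact self_mem_orb _ _


theorem _root_.Cfsg.Agent.L0.Pn.Blk.smul' {B : Finset Ω} (hB : Blk X B) {g : G} (hg : g ∈ X) : Blk X (g • B) := by
  intro h hh x hx hx' y hy
  rw [← inv_smul_mem_iff] at hx hx' hy ⊢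
  have := hB (g⁻¹ * h * g) (X.mul_mem (X.mul_mem (X.inv_mem hg) hh) hg) _ hx (by simpa [mul_smul] using hx') _ hy
  simpa [mul_smul] using this

theorem _root_.Cfsg.Agent.L0.Pn.Inv.mono (h : Inv Y Λ) (hXY : X ≤ Y) : Inv X Λ := fun g hg => h g (hXY hg)

theorem Cyc.mvv (h : Cyc p K X Λ) : Mv K Λ := by
  obtain ⟨z, hz⟩ := card_pos.1 (h.mvc ▸ hp.out.pos : 0 < (mv K Λ).card)
  exact ⟨z, (mem_mv.1 hz).1, (mem_mv.1 hz).2⟩

theorem blk_bound (hO : Orb X Λ) {B : Finset Ω} (hB : Blk X B) (hBO : B ⊆ Λ) {S : Finset (Finset Ω)}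
    (hS : S ⊆ orb X B) : S.card * B.card ≤ Λ.card := by
  have hd : (S : Set (Finset Ω)).PairwiseDisjoint id := fun C hC C' hC' hne =>
    disjoint_left.2 fun x hx hx' => hne (hB.eq_of_mem (hS hC) (hS hC') hx hx')
  have : S.biUnion id ⊆ Λ := fun x hx => by
    obtain ⟨C, hC, hx⟩ := mem_biUnion.1 hx
    obtain ⟨g, hg, rfl⟩ := mem_orb.1 (hS hC)
    obtain ⟨y, hy, rfl⟩ := mem_smul_finset.1 hx
    exact hO.inv g hg y (hBO hy)
  refine le_trans (le_of_eq ?_) (card_le_card this)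
  rw [card_biUnion hd, sum_const_nat]
  intro C hC
  obtain ⟨g, -, rfl⟩ := mem_orb.1 (hS hC)
  exact card_smul_finset g B

theorem cyc_prim (h : Cyc p (P : Subgroup G) X Λ) : Prim X Λ := by
  intro B hBO hB
  by_contra hn
  push Not at hn
  obtain ⟨z, hz, hz'⟩ := h.mvv
  obtain ⟨b, hb⟩ := card_pos.1 (show 0 < B.card by omega)
  obtain ⟨g, hg, rfl⟩ := h.orb.tr b (hBO hb) z hz
  have hC : g • B ∈ orb X B := mem_orb.2 ⟨g, hg, rfl⟩
  have hlt := h.lt
  by_cases hf : Fx (P : Subgroup G) (g • B)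
  · have h1 : orb (P : Subgroup G) (g • b) ⊆ g • B := fun y hy => by
      obtain ⟨k, hk, rfl⟩ := mem_orb.1 hy
      rw [← hf k hk]
      exact smul_mem_smul_finset (smul_mem_smul_finset hb)
    have h2 := card_le_card h1
    rw [mv_eq_orb (h.orb.inv.mono h.le) h.mvc (mem_mv.2 ⟨hz, hz'⟩), h.mvc, card_smul_finset] at h2
    obtain ⟨y, hy, hy'⟩ := exists_of_ssubset (hBO.ssubset_of_ne hn.2)
    obtain ⟨t, ht, rfl⟩ := h.orb.tr b (hBO hb) y hy
    have h3 := blk_bound h.orb hB hBO (S := {B, t • B}) (by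
      intro C hC
      rcases mem_insert.1 hC with rfl | hC
      · exact self_mem_orb _ _
      · rw [mem_singleton.1 hC]; exact mem_orb.2 ⟨t, ht, rfl⟩)
    rw [card_pair (fun e => hy' (by rw [e]; exact smul_mem_smul_finset hb))] at h3
    omega
  · have h3 := blk_bound h.orb hB hBO (S := orb (P : Subgroup G) (g • B))
      (orb_subset ((orb_orb X B).inv.mono h.le) hC)
    have h4 := Nat.le_of_dvd (card_pos.2 ⟨_, self_mem_orb _ _⟩) (dvd_card_orb hf)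
    nlinarith [hn.1]

theorem Cyc.prim (h : Cyc p (P : Subgroup G) X Λ) : Prim X Λ := cyc_prim h

theorem le_fixS1 {b : Ω} (h : K ≤ X) (hb : Fx K b) : K ≤ fixS X {b} := le_fixS h (by simpa)

theorem not_fx_Op (hO : Orb X Λ) (hpr : Prim X Λ) (hm : Mv (P : Subgroup G) Λ) (hle : (P : Subgroup G) ≤ X)
    {b x : Ω} (hb : b ∈ Λ) (hb' : Fx (P : Subgroup G) b) (hx : x ∈ Λ) (hne : x ≠ b) :
    ¬ Fx (Op p (fixS X {b})) x := by
  intro hf
  have hcl : x ∈ cl (P : Subgroup G) X Λ b := by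
    by_contra hn
    obtain ⟨y, hy, hy'⟩ := mv_of_not_cl pro_syl hle hb' hx hn
    obtain ⟨g, hg, rfl⟩ := mem_orb.1 hy
    refine hy' fun k hk => ?_
    have := hf (g⁻¹ * k * g⁻¹⁻¹) (mem_Op (Subgroup.mul_mem _ (Subgroup.mul_mem _ (Subgroup.inv_mem _ hg)
      (le_fixS1 hle hb' hk)) (by rwa [inv_inv])) ((pe_of_mem hk).conj _))
    rwa [inv_inv, mul_smul, mul_smul, inv_smul_eq_iff] at this
  rcases hpr _ (fun y hy => (mem_cl.1 hy).1) (cl_blk (K := (P : Subgroup G)) hO hb) with h | h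
  · exact hne (card_le_one.1 h _ hcl _ (self_mem_cl hb))
  · obtain ⟨z, hz, hz'⟩ := hm
    rw [← h, ← fx_cl hb'] at hz
    exact hz' (mem_fx.1 hz).2

theorem mv_sdiff {b : Ω} (hb : Fx K b) : mv K (Λ \ {b}) = mv K Λ := by
  ext x
  simp only [mem_mv, mem_sdiff, mem_singleton]
  exact ⟨fun h => ⟨h.1.1, h.2⟩, fun h => ⟨⟨h.1, fun e => h.2 (e ▸ hb)⟩, h.2⟩⟩

theorem C1 (h : Cyc p (P : Subgroup G) X Λ) {b : Ω} (hb : b ∈ Λ) (hb' : Fx (P : Subgroup G) b) :
    Cyc p (P : Subgroup G) (Op p (fixS X {b})) (Λ \ {b}) := by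
  have hle := le_fixS1 h.le hb'
  have hI : Inv (Op p (fixS X {b})) (Λ \ {b}) := (h.orb.inv.fix {b}).mono Op_le
  have hc : (mv (P : Subgroup G) (Λ \ {b})).card = p := by rw [mv_sdiff hb', h.mvc]
  have hn : ∀ x ∈ Λ \ {b}, ¬ Fx (Op p (fixS X {b})) x := fun x hx =>
    not_fx_Op h.orb h.prim h.mvv h.le hb hb' (mem_sdiff.1 hx).1 (by simpa using (mem_sdiff.1 hx).2)
  refine ⟨le_Op hle, ⟨hI, fun x hx y hy => ?_⟩, hc, (card_le_card sdiff_subset).trans_lt h.lt⟩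
  exact mem_orb.1 (C2 hle (hI.mono (le_Op hle)) hI hc hx hy (hn x hx) (hn y hy))

theorem conj_mem_fixS {g y : G} {b : Ω} (hg : g ∈ X) (hy : y ∈ fixS X {b}) :
    g * y * g⁻¹ ∈ fixS X {g • b} :=
  ⟨X.mul_mem (X.mul_mem hg hy.1) (X.inv_mem hg), fun d hd => by
    rw [mem_singleton.1 hd, mul_smul, mul_smul, inv_smul_smul, hy.2 b (mem_singleton_self b)]⟩

theorem Fx_Op_smul {g : G} {b : Ω} {c : T} (hg : g ∈ X) (h : Fx (Op p (fixS X {b})) c) :
    Fx (Op p (fixS X {g • b})) (g • c) := fun u hu => by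
  have := h _ (Op_conj (g := g⁻¹) (Y := fixS X {b}) (fun y hy => by
    simpa using conj_mem_fixS (X.inv_mem hg) hy) hu)
  rwa [inv_inv, mul_smul, mul_smul, inv_smul_eq_iff] at this

theorem C3 (h : Cyc p (P : Subgroup G) X Λ) {Λ' : Finset T} (h' : Orb X Λ') (hm : Mv (P : Subgroup G) Λ')
    {b : Ω} (hb : b ∈ Λ) (hb' : Fx (P : Subgroup G) b) {c : T} (hc : c ∈ Λ')
    (hf : Fx (Op p (fixS X {b})) c) : Fx (Op p (fixS X {c})) b := by
  by_contra hn
  unfold Fx at hn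
  push Not at hn
  obtain ⟨v, hv, hvb⟩ := hn
  have hv' := Op_le hv
  have h1 := C1 h hb hb'
  have key : ∀ β ∈ Λ, Fx (Op p (fixS X {β})) c := by
    intro β hβ
    by_cases e : β = b
    · exact e ▸ hf
    obtain ⟨u, hu, rfl⟩ := h1.orb.tr (v • b) (mem_sdiff.2 ⟨h.orb.inv v hv'.1 b hb, by simpa⟩) β
      (mem_sdiff.2 ⟨hβ, by simpa⟩)
    have := Fx_Op_smul (Op_le hu).1 (Fx_Op_smul hv'.1 hf)
    rwa [hv'.2 c (mem_singleton_self c), hf u hu] at this
  obtain ⟨z, hz, hz'⟩ := hm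
  obtain ⟨x, hx, rfl⟩ := h'.tr c hc z hz
  have := Fx_Op_smul hx (key _ (h.orb.inv _ (X.inv_mem hx) b hb))
  rw [smul_inv_smul] at this
  exact hz' fun k hk => this k (h1.le hk)

theorem Op_fixS_smul {D : Finset Ω} {g u : G} :
    g * u * g⁻¹ ∈ Op p (fixS ⊤ (g • D)) ↔ u ∈ Op p (fixS (⊤ : Subgroup G) D) := by
  have key : ∀ {D : Finset Ω} {g u : G}, u ∈ Op p (fixS (⊤ : Subgroup G) D) →
      g * u * g⁻¹ ∈ Op p (fixS ⊤ (g • D)) := fun {D g u} hu => Op_conj (fun y hy => ⟨trivial, fun d hd => by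
    rw [mul_smul, mul_smul, hy.2 _ (inv_smul_mem_iff.2 hd), smul_inv_smul]⟩) hu
  exact ⟨fun h => by simpa [mul_assoc] using key (g := g⁻¹) h, key⟩

theorem NN_smul {a : Ω} {g u : G} : g * u * g⁻¹ ∈ NN p G (g • a) ↔ u ∈ NN p G a := by
  unfold NN; rw [← smul_finset_singleton]; exact Op_fixS_smul
theorem UU_smul {a c : Ω} {g u : G} : g * u * g⁻¹ ∈ UU p G (g • a) (g • c) ↔ u ∈ UU p G a c := by
  unfold UU; rw [← smul_finset_singleton, ← smul_finset_insert]; exact Op_fixS_smul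
theorem UU_comm (a c : Ω) : UU p G a c = UU p G c a := by unfold UU; rw [pair_comm]
theorem UU_le (a c : Ω) : UU p G a c ≤ NN p G a :=
  Op_mono fun y hy => ⟨trivial, fun d hd => hy.2 d (by rw [mem_singleton.1 hd]; exact mem_insert_self _ _)⟩
theorem UU_le' (a c : Ω) : UU p G a c ≤ NN p G c := UU_comm (p := p) (G := G) a c ▸ UU_le c a
theorem NN_fix {a : Ω} {u : G} (h : u ∈ NN p G a) : u • a = a := (Op_le h).2 a (mem_singleton_self a)
theorem UU_fix {a c : Ω} {u : G} (h : u ∈ UU p G a c) : u • a = a ∧ u • c = c :=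
  ⟨NN_fix (UU_le a c h), NN_fix (UU_le' a c h)⟩
theorem mem_NN {a : Ω} {y : G} (h : pe p y) (ha : y • a = a) : y ∈ NN p G a :=
  mem_Op ⟨trivial, by simpa⟩ h
theorem mem_UU {a c : Ω} {y : G} (h : pe p y) (ha : y • a = a) (hc : y • c = c) : y ∈ UU p G a c :=
  mem_Op ⟨trivial, by simp [ha, hc]⟩ h
theorem le_NN {a : Ω} (h : Fx (P : Subgroup G) a) : (P : Subgroup G) ≤ NN p G a :=
  fun k hk => mem_NN (pe_of_mem hk) (h k hk)
theorem le_UU {a c : Ω} (h : Fx (P : Subgroup G) a) (h' : Fx (P : Subgroup G) c) :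
    (P : Subgroup G) ≤ UU p G a c := fun k hk => mem_UU (pe_of_mem hk) (h k hk) (h' k hk)
theorem UU_le_of {a c : Ω} (h : ∀ y, pe p y → y • a = a → y • c = c → y ∈ Y) : UU p G a c ≤ Y :=
  Op_le_of fun y hy hy' => h y hy' (hy.2 a (by simp)) (hy.2 c (by simp))
theorem ln_comm (a c : Ω) : ln p G a c = ln p G c a := by unfold ln; rw [UU_comm]
theorem left_mem_ln (a c : Ω) : a ∈ ln p G a c := mem_ln.2 fun _ hu => (UU_fix hu).1
theorem right_mem_ln (a c : Ω) : c ∈ ln p G a c := mem_ln.2 fun _ hu => (UU_fix hu).2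
theorem ln_smul (g : G) (a c : Ω) : ln p G (g • a) (g • c) = g • ln p G a c := by
  ext x
  rw [← inv_smul_mem_iff, mem_ln, mem_ln]
  constructor
  · intro h u hu
    have := h _ (UU_smul.2 hu)
    rwa [mul_smul, mul_smul, smul_eq_iff_eq_inv_smul] at this
  · intro h u hu
    have := h (g⁻¹ * u * g) ((UU_smul (g := g)).1 (by simpa [mul_assoc] using hu))
    rwa [mul_smul, mul_smul, smul_inv_smul, smul_left_cancel_iff] at this
theorem orbNN_smul (g : G) (a : Ω) (x : T) : orb (NN p G (g • a)) (g • x) = g • orb (NN p G a) x :=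
  orb_conj (fun _ => NN_smul) x
theorem orbUU_smul (g : G) (a c : Ω) (x : T) :
    orb (UU p G (g • a) (g • c)) (g • x) = g • orb (UU p G a c) x := orb_conj (fun _ => UU_smul) x
theorem cls_smul (g : G) (a c : Ω) : cls p G (g • a) (g • c) = g • cls p G a c := by
  unfold cls; rw [ln_smul, orbNN_smul]
theorem deg_smul (g : G) (a c : Ω) : deg p G (g • a) (g • c) = deg p G a c := by
  unfold deg; rw [cls_smul, card_smul_finset]
theorem Bc_smul (g : G) (a c : Ω) : Bc p G (g • a) (g • c) = g • Bc p G a c := by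
  ext x
  rw [← inv_smul_mem_iff, mem_Bc, mem_Bc, cls_smul]
  constructor
  · rintro ⟨m, hm, hx⟩
    exact ⟨g⁻¹ • m, inv_smul_mem_iff.2 hm, smul_mem_smul_finset hx⟩
  · rintro ⟨m, hm, hx⟩
    exact ⟨g • m, smul_mem_smul_finset hm, inv_smul_mem_iff.1 hx⟩
theorem II.smul {a c : Ω} (h : II p K a c) (g : G) : II p K (g • a) (g • c) := by
  refine ⟨fun e => h.ne (MulAction.injective g e), ?_, by rw [deg_smul]; exact h.lt, fun y hy ha hl => ?_⟩
  · obtain ⟨s, hs⟩ := h.ex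
    exact ⟨s * g⁻¹, by simpa only [mul_smul, inv_smul_smul] using hs⟩
  · have := h.bt (g⁻¹ * y * g⁻¹⁻¹) (hy.conj _) (by rw [inv_inv, mul_smul, mul_smul, ha, inv_smul_smul])
      (by rw [inv_inv, mul_smul, mul_smul, ← ln_smul, hl, ln_smul, inv_smul_smul])
    rwa [inv_inv, mul_smul, mul_smul, inv_smul_eq_iff] at this
theorem II_smul {a c : Ω} {g : G} : II p K (g • a) (g • c) ↔ II p K a c :=
  ⟨fun h => by simpa using h.smul g⁻¹, fun h => h.smul g⟩
theorem EE_smul (g : G) (a : Ω) : EE p K (g • a) = g • EE p K a := by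
  ext x
  rw [← inv_smul_mem_iff, mem_EE, mem_EE, ← II_smul (g := g) (a := a), smul_inv_smul, Ne, Ne, inv_smul_eq_iff]
theorem ln_smul' {a : Ω} {h : G} (ha : h • a = a) (c : Ω) : ln p G a (h • c) = h • ln p G a c := by
  rw [← ln_smul, ha]
theorem mem_cls {a c : Ω} {m : Finset Ω} : m ∈ cls p G a c ↔ ∃ h ∈ NN p G a, m = ln p G a (h • c) := by
  unfold cls
  rw [mem_orb]
  exact ⟨fun ⟨h, hh, e⟩ => ⟨h, hh, by rw [ln_smul' (NN_fix hh), e]⟩,
    fun ⟨h, hh, e⟩ => ⟨h, hh, by rw [e, ln_smul' (NN_fix hh)]⟩⟩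
theorem ln_mem_cls (a c : Ω) : ln p G a c ∈ cls p G a c := self_mem_orb _ _
theorem cls_smul' {a : Ω} {h : G} (hh : h ∈ NN p G a) (c : Ω) : cls p G a (h • c) = cls p G a c :=
  orb_eq (mem_cls.2 ⟨h, hh, rfl⟩)
theorem smul_cls {a : Ω} {h : G} (hh : h ∈ NN p G a) (c : Ω) : h • cls p G a c = cls p G a c := by
  rw [← cls_smul, NN_fix hh, cls_smul' hh]
theorem II.smul' {a c : Ω} (h : II p K a c) {g : G} (hg : g • a = a) : II p K a (g • c) := by
  have := h.smul g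
  rwa [hg] at this

/-- an element moving a fixed point to a fixed point -/
theorem frat1 {a : Ω} {s : G} (ha : Fx (P : Subgroup G) a) (hs : Fx (P : Subgroup G) (s • a)) :
    ∃ u ∈ NN p G (s • a), ∃ m, Nrm (P : Subgroup G) m ∧ s = u * m :=
  frat (le_fixS1 le_top hs) fun k hk => conj_mem_fixS trivial (le_fixS1 le_top ha hk)

theorem II.cyc {a c : Ω} (h : II p (P : Subgroup G) a c) (ha : Fx (P : Subgroup G) a) :
    Cyc p (P : Subgroup G) (NN p G a) (cls p G a c) := by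
  refine ⟨le_NN ha, orb_orb _ _, ?_, h.lt⟩
  obtain ⟨g, h1, -, h3⟩ := h.ex
  obtain ⟨u, hu, m, hm, e⟩ := frat1 ha h1
  have : cls p G (g • a) (g • c) = m • cls p G a c := by
    rw [← smul_cls ((NN p G _).inv_mem hu), cls_smul, ← mul_smul, e, inv_mul_cancel_left]
  rwa [this, hm.mv, card_smul_finset] at h3

theorem fx_ln {a c : Ω} (ha : Fx K a) (hc : Fx K c) : Fx K (ln p G a c) := fun k hk => by
  rw [← ln_smul, ha k hk, hc k hk]

theorem II.deg_ge {a c : Ω} (h : II p (P : Subgroup G) a c) : p + 1 ≤ deg p G a c := by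
  obtain ⟨g, h1, h2, h3⟩ := h.ex
  rw [← deg_smul g, deg, ← card_fx_mv (P : Subgroup G), h3]
  have : 0 < (fx (P : Subgroup G) (cls p G (g • a) (g • c))).card :=
    card_pos.2 ⟨_, mem_fx.2 ⟨ln_mem_cls _ _, fx_ln h1 h2⟩⟩
  omega

theorem II.mem_UU {a c : Ω} (h : II p K a c) {y : G} (hy : pe p y) (ha : y • a = a)
    (hl : y • ln p G a c = ln p G a c) : y ∈ UU p G a c := Sy.mem_UU hy ha (h.bt y hy ha hl)

/-- `O^{p'}` of the stabiliser of a line -/
theorem II.Op_eq {a c : Ω} (h : II p K a c) : Op p (fixS (NN p G a) {ln p G a c}) = UU p G a c := by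
  refine le_antisymm (Op_le_of fun y hy hy' => h.mem_UU hy' (NN_fix hy.1) (hy.2 _ (mem_singleton_self _)))
    (UU_le_of fun y hy ha hc => mem_Op ⟨mem_NN hy ha, fun d hd => ?_⟩ hy)
  rw [mem_singleton.1 hd, ← ln_smul, ha, hc]

theorem II.fx_iff {a c : Ω} (h : II p K a c) (ha : Fx (P : Subgroup G) a) :
    Fx (P : Subgroup G) (ln p G a c) ↔ Fx (P : Subgroup G) c :=
  ⟨fun hl k hk => h.bt k (pe_of_mem hk) (ha k hk) (hl k hk), fx_ln ha⟩

theorem card_fiber {π : Ω → T} {d : Ω} (hπ : ∀ g ∈ X, ∀ x, π (g • x) = g • π x) {m : T}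
    (hm : m ∈ orb X (π d)) :
    ((orb X d).filter fun x => π x = m).card = ((orb X d).filter fun x => π x = π d).card := by
  obtain ⟨g, hg, rfl⟩ := mem_orb.1 hm
  rw [← card_smul_finset g (filter (fun x => π x = π d) _)]
  congr 1
  ext x
  rw [← inv_smul_mem_iff, mem_filter, mem_filter, hπ _ (X.inv_mem hg), inv_smul_eq_iff]
  refine and_congr_left fun _ => ⟨(orb_orb X d).inv _ (X.inv_mem hg) x, fun h => ?_⟩
  simpa using (orb_orb X d).inv _ hg _ h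

theorem card_pre' {π : Ω → T} {d : Ω} (hπ : ∀ g ∈ X, ∀ x, π (g • x) = g • π x) {S : Finset T}
    (hS : S ⊆ orb X (π d)) {A : Finset Ω} (hA : ∀ x, x ∈ A ↔ x ∈ orb X d ∧ π x ∈ S) :
    A.card = S.card * ((orb X d).filter fun x => π x = π d).card := by
  rw [card_eq_sum_card_fiberwise (f := π) (t := S) fun x hx => ((hA x).1 hx).2, sum_const_nat]
  intro m hm
  rw [← card_fiber hπ (hS hm)]
  congr 1
  ext x
  simp only [mem_filter, hA]
  exact ⟨fun h => ⟨h.1.1, h.2⟩, fun h => ⟨⟨h.1, h.2 ▸ hm⟩, h.2⟩⟩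

theorem II.of_orb {a d x : Ω} (h : II p K a d) (h2 : X ≤ NN p G a) (hx : x ∈ orb X d) :
    II p K a x ∧ ln p G a x ∈ orb X (ln p G a d) := by
  obtain ⟨g, hg, rfl⟩ := mem_orb.1 hx
  exact ⟨h.smul' (NN_fix (h2 hg)), mem_orb.2 ⟨g, hg, (ln_smul' (NN_fix (h2 hg)) d).symm⟩⟩

theorem mv_orb_ln {a d : Ω} (ha : Fx (P : Subgroup G) a) (h : II p (P : Subgroup G) a d)
    (h1 : (P : Subgroup G) ≤ X) (h2 : X ≤ NN p G a) (hm : Mv (P : Subgroup G) (orb X d)) :
    mv (P : Subgroup G) (orb X (ln p G a d)) = mv (P : Subgroup G) (cls p G a d) := by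
  have hc := h.cyc ha
  have hs : orb X (ln p G a d) ⊆ cls p G a d := orb_mono h2 _
  obtain ⟨z, hz, hz'⟩ := hm
  obtain ⟨i1, i2⟩ := h.of_orb h2 hz
  have hz2 : ¬ Fx (P : Subgroup G) (ln p G a z) := by rwa [i1.fx_iff ha]
  refine Subset.antisymm (fun m hm => mem_mv.2 ⟨hs (mem_mv.1 hm).1, (mem_mv.1 hm).2⟩) fun m hm => ?_
  refine mem_mv.2 ⟨?_, (mem_mv.1 hm).2⟩
  rw [← mv_eq_orb (hc.orb.inv.mono hc.le) hc.mvc (mem_mv.2 ⟨hs i2, hz2⟩)] at hm
  exact orb_subset ((orb_orb X _).inv.mono h1) i2 hm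

theorem cyc_orb {a d : Ω} (ha : Fx (P : Subgroup G) a) (h : II p (P : Subgroup G) a d)
    (h1 : (P : Subgroup G) ≤ X) (h2 : X ≤ NN p G a) (hm : Mv (P : Subgroup G) (orb X d)) :
    Cyc p (P : Subgroup G) X (orb X (ln p G a d)) :=
  ⟨h1, orb_orb _ _, by rw [mv_orb_ln ha h h1 h2 hm, (h.cyc ha).mvc],
    (card_le_card (orb_mono h2 _)).trans_lt h.lt⟩

theorem II.card_orb {a x : Ω} (ha : Fx (P : Subgroup G) a) (h : II p (P : Subgroup G) a x)
    (hx : ¬ Fx (P : Subgroup G) x) : (orb (P : Subgroup G) x).card = p := by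
  have hc := h.cyc ha
  have h1 : ¬ Fx (P : Subgroup G) (ln p G a x) := by rwa [h.fx_iff ha]
  refine Eq.trans ?_ hc.mvc
  rw [← mv_eq_orb (hc.orb.inv.mono hc.le) hc.mvc (mem_mv.2 ⟨ln_mem_cls a x, h1⟩)]
  refine card_bij (fun y _ => ln p G a y) (fun y hy => (h.of_orb hc.le hy).2) ?_ ?_
  · intro y hy z hz e
    obtain ⟨k, hk, rfl⟩ := mem_orb.1 hy
    obtain ⟨l, hl, rfl⟩ := mem_orb.1 hz
    have hkl := (P : Subgroup G).mul_mem ((P : Subgroup G).inv_mem hl) hk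
    have := h.bt _ (pe_of_mem hkl) (ha _ hkl) (by
      rw [mul_smul, ← ln_smul' (ha k hk), e, ln_smul' (ha l hl), inv_smul_smul])
    rwa [mul_smul, inv_smul_eq_iff] at this
  · intro m hm
    obtain ⟨k, hk, rfl⟩ := mem_orb.1 hm
    exact ⟨k • x, mem_orb.2 ⟨k, hk, rfl⟩, ln_smul' (ha k hk) x⟩

theorem card_orb_ln {a d : Ω} (h2 : X ≤ NN p G a) : ∃ u, 0 < u ∧ (orb X d).card = (orb X (ln p G a d)).card * u :=
  ⟨((orb X d).filter fun x => ln p G a x = ln p G a d).card,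
    card_pos.2 ⟨d, mem_filter.2 ⟨self_mem_orb _ _, rfl⟩⟩,
    card_pre' (π := ln p G a) (fun g hg x => ln_smul' (NN_fix (h2 hg)) x) Subset.rfl fun x =>
    ⟨fun hx => ⟨hx, by
      obtain ⟨g, hg, rfl⟩ := mem_orb.1 hx
      exact mem_orb.2 ⟨g, hg, (ln_smul' (NN_fix (h2 hg)) d).symm⟩⟩, fun h => h.1⟩⟩

theorem PR {a d : Ω} (ha : Fx (P : Subgroup G) a) (h : II p (P : Subgroup G) a d)
    (h1 : (P : Subgroup G) ≤ X) (h2 : X ≤ NN p G a) (hm : Mv (P : Subgroup G) (orb X d)) :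
    Rg p (P : Subgroup G) (orb X d) (orb X (ln p G a d)).card := by
  have hc := cyc_orb ha h h1 h2 hm
  have hπ : ∀ g ∈ X, ∀ x, ln p G a (g • x) = g • ln p G a x := fun g hg x => ln_smul' (NN_fix (h2 hg)) x
  refine ⟨fun x hx hx' => (h.of_orb h2 hx).1.card_orb ha hx', hc.mvc.ge.trans (card_le_card (mv_subset _ _)), ?_⟩
  have e1 := card_pre' hπ (d := d) Subset.rfl (A := orb X d) fun x =>
    ⟨fun hx => ⟨hx, (h.of_orb h2 hx).2⟩, fun h => h.1⟩
  have e2 := card_pre' hπ (d := d) (mv_subset (P : Subgroup G) _) (A := mv (P : Subgroup G) (orb X d)) fun x => by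
    rw [mem_mv, mem_mv]
    refine and_congr_right fun hx => ?_
    rw [(h.of_orb h2 hx).1.fx_iff ha, and_iff_right (h.of_orb h2 hx).2]
  rw [e2, hc.mvc]
  conv_rhs => rw [e1]
  ring

theorem exists_nrm (h : Orb (⊤ : Subgroup G) (univ : Finset Ω)) {a c : Ω} (ha : Fx (P : Subgroup G) a)
    (hc : Fx (P : Subgroup G) c) : ∃ m, Nrm (P : Subgroup G) m ∧ m • a = c := by
  obtain ⟨g, -, rfl⟩ := h.tr a (mem_univ _) c (mem_univ _)
  obtain ⟨u, hu, m, hm, e⟩ := frat1 ha hc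
  refine ⟨m, hm, ?_⟩
  rw [← NN_fix ((NN p G _).inv_mem hu), ← mul_smul]
  conv_rhs => rw [e]
  rw [inv_mul_cancel_left]

theorem mvN (htr : Orb (⊤ : Subgroup G) (univ : Finset Ω)) (hpr : Prim (⊤ : Subgroup G) (univ : Finset Ω))
    (hm : Mv (P : Subgroup G) (univ : Finset Ω)) {a c : Ω} (ha : Fx (P : Subgroup G) a) (hc : c ≠ a) :
    Mv (P : Subgroup G) (orb (NN p G a) c) := by
  have := not_fx_Op htr hpr hm le_top (mem_univ a) ha (mem_univ c) hc
  unfold Fx at this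
  push Not at this
  obtain ⟨u, hu, e⟩ := this
  exact mv_orb (le_fixS1 le_top ha) hu e

end Cfsg.Agent.L0.Sy
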