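import Cfsg.Agent.L0.SyA

/-! S3580: the lines of a minimal counterexample. -/

set_option autoImplicit false
set_option linter.unusedSectionVars false
set_option linter.unusedVariables false

namespace Cfsg.Agent.L0.Sy

open Finset Pn
open scoped Pointwise

variable {G : Type} [Group G] [Finite G] {Ω : Type} [Fintype Ω] [DecidableEq Ω] [MulAction G Ω]
  {T : Type} [Fintype T] [DecidableEq T] [MulAction G T]
  {p : ℕ} [hp : Fact p.Prime] {P : Sylow p G} {K X Y H : Subgroup G} {O W Λ : Finset Ω} {n : ℕ}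

/-- collinear pairs of least degree -/
def Mn (p : ℕ) (K : Subgroup G) (a c : Ω) : Prop :=
  II p K a c ∧ ∀ u v : Ω, II p K u v → deg p G a c ≤ deg p G u v

theorem Mn.smul {a c : Ω} (h : Mn p K a c) (g : G) : Mn p K (g • a) (g • c) :=
  ⟨h.1.smul g, fun u v hI => by rw [deg_smul]; exact h.2 u v hI⟩

theorem orb_eq_of (h : Orb X Λ) {x : Ω} (hx : x ∈ Λ) : orb X x = Λ :=
  Subset.antisymm (orb_subset h.inv hx) fun y hy => mem_orb.2 (h.tr x hx y hy)

theorem Cyc.not_fx (h : Cyc p K X Λ) {m : Ω} (hm : m ∈ Λ) : ¬ Fx X m := fun hf => by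
  obtain ⟨z, hz, hz'⟩ := h.mvv
  obtain ⟨g, hg, rfl⟩ := h.orb.tr m hm z hz
  rw [hf g hg] at hz'
  exact hz' fun k hk => hf k (h.le hk)

theorem card_orb_mul (X : Subgroup G) (x : Ω) : (orb X x).card * Nat.card (fixS X {x}) = Nat.card X := by
  have e : (orb X x : Set Ω) = MulAction.orbit X x := by
    ext y
    simp only [mem_coe, mem_orb]
    exact ⟨fun ⟨h, hh, e⟩ => ⟨⟨h, hh⟩, e⟩, fun ⟨h, e⟩ => ⟨h, h.2, e⟩⟩
  have e2 : Nat.card (fixS X {x}) = Nat.card (MulAction.stabilizer X x) :=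
    Nat.card_congr ⟨fun g => ⟨⟨g, g.2.1⟩, g.2.2 x (mem_singleton_self x)⟩,
      fun g => ⟨g.1, g.1.2, fun d hd => by rw [mem_singleton.1 hd]; exact g.2⟩, fun _ => rfl, fun _ => rfl⟩
  rw [e2, ← Set.ncard_coe_finset, e, ← MulAction.index_stabilizer, Subgroup.index_mul_card]

theorem card_pair_orb {a c : Ω} {m : G} (hm : m ∈ X) (e : m • a = c) :
    (orb (fixS X {a}) c).card = (orb (fixS X {c}) a).card := by
  have h1 := card_orb_mul (fixS X {a}) c
  have h2 := card_orb_mul (fixS X {c}) a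
  have h3 := card_orb_mul X a
  have h4 := card_orb_mul X c
  rw [orb_eq (mem_orb.2 ⟨m, hm, e⟩), ← h3] at h4
  have h5 := Nat.eq_of_mul_eq_mul_left (card_pos.2 ⟨a, self_mem_orb X a⟩) h4
  rw [fixS_insert, pair_comm] at h1
  rw [fixS_insert, h5, ← h1] at h2
  exact (Nat.eq_of_mul_eq_mul_right Nat.card_pos h2).symm

theorem fx_orb {a c : Ω} (ha : Fx (P : Subgroup G) a) (hc : Fx (P : Subgroup G) c) :
    fx (P : Subgroup G) (orb (fixS (⊤ : Subgroup G) {a}) c) = orb (fixS (Subgroup.normalizer ((P : Subgroup G) : Set G)) {a}) c := by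
  ext x
  rw [mem_fx, mem_orb, mem_orb]
  constructor
  · rintro ⟨⟨g, hg, rfl⟩, hx⟩
    have hga := hg.2 a (mem_singleton_self a)
    obtain ⟨u, hu, m, hm, e⟩ := frat (P := P) (Y := fixS ⊤ {g • a, g • c}) (s := g)
      (le_fixS le_top (by simp [hga, ha, hx])) fun k hk => ⟨trivial, by
        simp [mul_smul, ha k hk, hc k hk]⟩
    obtain ⟨u1, u2⟩ := UU_fix (show u⁻¹ ∈ UU p G (g • a) (g • c) from Subgroup.inv_mem _ hu)
    have e' : m = u⁻¹ * g := by rw [e]; group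
    refine ⟨m, ⟨Subgroup.mem_normalizer_iff.2 hm, fun d hd => ?_⟩, by rw [e', mul_smul, u2]⟩
    rw [mem_singleton.1 hd, e', mul_smul, u1, hga]
  · rintro ⟨m, hm, rfl⟩
    exact ⟨⟨m, ⟨trivial, hm.2⟩, rfl⟩, (Nrm.fx_iff (Subgroup.mem_normalizer_iff.1 hm.1)).2 hc⟩

theorem inv_EE (a : Ω) {g : G} (hg : g • a = a) {x : Ω} (hx : x ∈ EE p K a) : g • x ∈ EE p K a := by
  rw [← hg, EE_smul]; exact smul_mem_smul_finset hx

theorem inv_Bc (a c : Ω) : Inv (NN p G a) (Bc p G a c) := fun g hg x hx => by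
  obtain ⟨m, hm, hx⟩ := mem_Bc.1 hx
  exact mem_Bc.2 ⟨g • m, (orb_orb _ _).inv g hg m hm, smul_mem_smul_finset hx⟩

theorem ln_subset_Bc (a c : Ω) : ln p G a c ⊆ Bc p G a c := fun _ hx => mem_Bc.2 ⟨_, ln_mem_cls a c, hx⟩

theorem card_of_mem_cls {a c : Ω} {m : Finset Ω} (h : m ∈ cls p G a c) : m.card = (ln p G a c).card := by
  obtain ⟨g, -, rfl⟩ := mem_orb.1 h
  exact card_smul_finset _ _

theorem fx_of_mem_ln {a c x : Ω} (ha : Fx (P : Subgroup G) a) (hc : Fx (P : Subgroup G) c)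
    (hx : x ∈ ln p G a c) : Fx (P : Subgroup G) x := fun k hk => mem_ln.1 hx k (le_UU ha hc hk)

theorem ne_of_not_mem_ln {a c d : Ω} (hd : d ∉ ln p G a c) : d ≠ a := fun e => hd (by
  rw [e]; exact left_mem_ln a c)

theorem exists_mv_of_not_mem_ln {a c d : Ω} (hd : d ∉ ln p G a c) : ∃ u ∈ UU p G a c, u • d ≠ d := by
  rw [mem_ln] at hd
  push Not at hd
  exact hd

theorem mv_UU {a c d : Ω} (ha : Fx (P : Subgroup G) a) (hc : Fx (P : Subgroup G) c) (hd : d ∉ ln p G a c) :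
    Mv (P : Subgroup G) (orb (UU p G a c) d) := by
  obtain ⟨u, hu, e⟩ := exists_mv_of_not_mem_ln hd
  exact mv_orb (le_fixS le_top (by simp [ha, hc])) hu e

namespace Geo
variable (h : Geo p (P : Subgroup G) Ω)
include h

theorem mvu : Mv (P : Subgroup G) (univ : Finset Ω) := by
  obtain ⟨a, c, hI⟩ := h.g3
  obtain ⟨g, h1, h2, -⟩ := hI.ex
  obtain ⟨m, hm, hm'⟩ := ((hI.smul g).cyc h1).mvv
  obtain ⟨s, -, rfl⟩ := mem_cls.1 hm
  exact ⟨_, mem_univ _, fun e => hm' (fx_ln h1 e)⟩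

theorem mvN {a c : Ω} (ha : Fx (P : Subgroup G) a) (hc : c ≠ a) :
    Mv (P : Subgroup G) (orb (NN p G a) c) := Sy.mvN h.tr h.prim h.mvu ha hc

theorem line0 {a c u : Ω} (ha : Fx (P : Subgroup G) a) (hc : Fx (P : Subgroup G) c)
    (hI : II p (P : Subgroup G) a c) (hu : u ∈ ln p G a c) (hua : u ≠ a) : UU p G a u ≤ UU p G a c := by
  have := C3 (hI.cyc ha) (orb_orb _ u) (h.mvN ha hua) (ln_mem_cls a c) (fx_ln ha hc) (self_mem_orb _ u)
    (by rw [hI.Op_eq]; exact mem_ln.1 hu)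
  exact UU_le_of fun y hy e1 e2 => hI.mem_UU hy e1 (this y (mem_Op ⟨mem_NN hy e1, by simpa⟩ hy))

theorem line1 {a c u : Ω} (hI : II p (P : Subgroup G) a c) (hu : u ∈ ln p G a c) (hua : u ≠ a) :
    II p (P : Subgroup G) a u ∧ UU p G a u = UU p G a c ∧ ln p G a u = ln p G a c := by
  obtain ⟨g, h1, h2, h3⟩ := hI.ex
  have hu' : g • u ∈ ln p G (g • a) (g • c) := by rw [ln_smul]; exact smul_mem_smul_finset hu
  have e1 : UU p G a u = UU p G a c := le_antisymm (fun y hy => UU_smul.1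
      (h.line0 h1 h2 (hI.smul g) hu' (fun e => hua (MulAction.injective g e)) (UU_smul.2 hy)))
    (UU_le_of fun y hy e1 e2 => mem_UU hy e1 (mem_ln.1 hu y (mem_UU hy e1 e2)))
  have e2 : ln p G a u = ln p G a c := by unfold ln; rw [e1]
  have e3 : cls p G a u = cls p G a c := by unfold cls; rw [e2]
  refine ⟨⟨hua, ⟨g, h1, fx_of_mem_ln h1 h2 hu', by rwa [cls_smul, e3, ← cls_smul]⟩,
    by unfold deg; rw [e3]; exact hI.lt, fun y hy ha hl => ?_⟩, e1, e2⟩
  exact mem_ln.1 hu y (hI.mem_UU hy ha (e2 ▸ hl))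

theorem E_orb {c d : Ω} (hc : Fx (P : Subgroup G) c) (hd : d ∈ EE p (P : Subgroup G) c) :
    orb (NN p G c) d = EE p (P : Subgroup G) c := by
  have hI : Inv (NN p G c) (EE p (P : Subgroup G) c) := fun g hg x hx => inv_EE c (NN_fix hg) hx
  refine Subset.antisymm (orb_subset hI hd) fun e he => ?_
  by_contra hn
  have hdj : Disjoint (orb (NN p G c) d) (orb (NN p G c) e) := disjoint_left.2 fun x h1 h2 =>
    hn (by rw [← orb_eq h1, orb_eq h2]; exact self_mem_orb _ _)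
  have := (h.g1 c hc (orb (NN p G c) d ∪ orb (NN p G c) e) (fun g hg x hx => by
    rcases mem_union.1 hx with hx | hx
    · exact mem_union_left _ ((orb_orb _ _).inv g hg x hx)
    · exact mem_union_right _ ((orb_orb _ _).inv g hg x hx)) (fun hx => by
    rcases mem_union.1 hx with hx | hx
    · exact (mem_EE.1 (orb_subset hI hd hx)).1 rfl
    · exact (mem_EE.1 (orb_subset hI he hx)).1 rfl)).2
  rw [dl_union hdj] at this
  linarith [(h.g2 c hc d hd).2.1, (h.g2 c hc e he).2.1]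

theorem rg_stab {a c : Ω} (ha : Fx (P : Subgroup G) a) (hI : II p (P : Subgroup G) a c) :
    Rg p (P : Subgroup G) (orb (fixS (⊤ : Subgroup G) {a}) c) (deg p G a c) := by
  refine Rg.of_orbs (X := NN p G a) (by have := hI.deg_ge; omega) ((orb_orb _ _).inv.mono Op_le) fun x hx => ?_
  obtain ⟨g, hg, rfl⟩ := mem_orb.1 hx
  have hga := hg.2 a (mem_singleton_self a)
  have h1 := hI.smul' hga
  have := PR ha h1 (le_NN ha) le_rfl (h.mvN ha h1.ne)
  rwa [show (orb (NN p G a) (ln p G a (g • c))).card = deg p G a c by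
    rw [← deg_smul g a c, hga]; rfl] at this

theorem symm0 {a c : Ω} (ha : Fx (P : Subgroup G) a) (hc : Fx (P : Subgroup G) c)
    (hI : II p (P : Subgroup G) a c) : II p (P : Subgroup G) c a ∧ deg p G c a = deg p G a c := by
  obtain ⟨m, hm, hmc⟩ := exists_nrm h.tr hc ha
  have c1 := card_pair_orb (X := ⊤) (m := m) trivial hmc
  have c2 := card_pair_orb (Subgroup.mem_normalizer_iff.2 hm) hmc
  rw [← fx_orb ha hc, ← fx_orb hc ha] at c2
  have c3 : (mv (P : Subgroup G) (orb (fixS (⊤ : Subgroup G) {c}) a)).card =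
      (mv (P : Subgroup G) (orb (fixS (⊤ : Subgroup G) {a}) c)).card := by
    have := card_fx_mv (P : Subgroup G) (orb (fixS (⊤ : Subgroup G) {c}) a)
    have := card_fx_mv (P : Subgroup G) (orb (fixS (⊤ : Subgroup G) {a}) c)
    omega
  have r1 := h.rg_stab ha hI
  have i1 : Inv (NN p G a) (orb (fixS (⊤ : Subgroup G) {a}) c) := (orb_orb _ _).inv.mono Op_le
  have i2 : Inv (NN p G c) (orb (fixS (⊤ : Subgroup G) {c}) a) := (orb_orb _ _).inv.mono Op_le
  have key : II p (P : Subgroup G) c a := by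
    by_contra hn
    have hE : a ∈ EE p (P : Subgroup G) c := mem_EE.2 ⟨hI.ne.symm, hn⟩
    have e : orb (fixS (⊤ : Subgroup G) {c}) a = EE p (P : Subgroup G) c := by
      refine Subset.antisymm (fun x hx => ?_) (by rw [← h.E_orb hc hE]; exact orb_mono Op_le _)
      obtain ⟨g, hg, rfl⟩ := mem_orb.1 hx
      exact inv_EE c (hg.2 c (mem_singleton_self c)) hE
    have d1 := dl_eq r1.sz
    have g1 := h.g1 a ha _ i1 (not_mem_orb hI.ne)
    have g2 := h.g1 c hc _ i2 (not_mem_orb hI.ne.symm)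
    by_cases hb : ∀ x ∈ orb (fixS (⊤ : Subgroup G) {c}) a, ¬ Fx (P : Subgroup G) x →
        (orb (P : Subgroup G) x).card = p
    · have d2 := dl_eq hb
      rw [c2, c3, ← d1] at d2
      have g3 := (h.g2 c hc a hE).2.1
      rw [h.E_orb hc hE] at g3
      have e2 : dl p (P : Subgroup G) (EE p (P : Subgroup G) a) = dl p (P : Subgroup G) (EE p (P : Subgroup G) c) := by
        rw [← hmc, EE_smul, hm.dl]
      have hdj : Disjoint (orb (fixS (⊤ : Subgroup G) {a}) c) (EE p (P : Subgroup G) a) :=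
        disjoint_left.2 fun x h1 h2 => by
          obtain ⟨g, hg, rfl⟩ := mem_orb.1 h1
          exact (mem_EE.1 h2).2 (hI.smul' (hg.2 a (mem_singleton_self a)))
      have g4 := (h.g1 a ha (orb (fixS (⊤ : Subgroup G) {a}) c ∪ EE p (P : Subgroup G) a) (fun g hg x hx => by
        rcases mem_union.1 hx with hx | hx
        · exact mem_union_left _ (i1 g hg x hx)
        · exact mem_union_right _ (inv_EE a (NN_fix hg) hx)) (fun hx => by
        rcases mem_union.1 hx with hx | hx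
        · exact not_mem_orb hI.ne hx
        · exact (mem_EE.1 hx).1 rfl)).2
      rw [dl_union hdj, e2, ← d2, e] at g4
      linarith
    · push Not at hb
      obtain ⟨x, hx, h1, h2⟩ := hb
      have := dl_ge_big (i2.mono (le_NN hc)) hx h1 h2
      rw [c2, c3, ← d1] at this
      linarith [g1.1, g2.2]
  refine ⟨key, ?_⟩
  have r2 := (h.rg_stab hc key).cnt
  rw [c1, c3, ← r1.cnt] at r2
  refine Nat.eq_of_mul_eq_mul_left (Nat.pos_of_ne_zero fun e => ?_) r2
  have := r1.cnt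
  rw [e, zero_mul] at this
  exact (Nat.mul_pos (card_pos.2 ⟨c, self_mem_orb _ c⟩) hp.out.pos).ne this

theorem symm {a c : Ω} (hI : II p (P : Subgroup G) a c) :
    II p (P : Subgroup G) c a ∧ deg p G c a = deg p G a c := by
  obtain ⟨g, h1, h2, -⟩ := hI.ex
  have := h.symm0 h1 h2 (hI.smul g)
  rwa [II_smul, deg_smul, deg_smul] at this

theorem E_symm {c d : Ω} (hd : d ∈ EE p (P : Subgroup G) c) : c ∈ EE p (P : Subgroup G) d :=
  mem_EE.2 ⟨(mem_EE.1 hd).1.symm, fun e => (mem_EE.1 hd).2 (h.symm e).1⟩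

theorem line2 {a c u v : Ω} (hI : II p (P : Subgroup G) a c) (hu : u ∈ ln p G a c) (hv : v ∈ ln p G a c)
    (huv : u ≠ v) : II p (P : Subgroup G) u v ∧ UU p G u v = UU p G a c ∧ ln p G u v = ln p G a c := by
  by_cases e : u = a
  · subst e; exact h.line1 hI hv huv.symm
  obtain ⟨h1, h2, h3⟩ := h.line1 hI hu e
  obtain ⟨h4, h5, h6⟩ := h.line1 (h.symm h1).1 (u := v) (by rwa [ln_comm, h3]) huv.symm
  exact ⟨h4, by rw [h5, UU_comm, h2], by rw [h6, ln_comm, h3]⟩

theorem eq_ln_of_mem {a c u : Ω} (hI : II p (P : Subgroup G) a c) {m : Finset Ω} (hm : m ∈ cls p G a c)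
    (hu : u ∈ m) (hua : u ≠ a) : II p (P : Subgroup G) a u ∧ ln p G a u = m := by
  obtain ⟨g, hg, rfl⟩ := mem_cls.1 hm
  obtain ⟨h1, -, h3⟩ := h.line1 (hI.smul' (NN_fix hg)) hu hua
  exact ⟨h1, h3⟩

theorem of_mem_Bc {a c u : Ω} (hI : II p (P : Subgroup G) a c) (hu : u ∈ Bc p G a c) (hua : u ≠ a) :
    II p (P : Subgroup G) a u ∧ cls p G a u = cls p G a c ∧ ln p G a u ∈ cls p G a c := by
  obtain ⟨m, hm, hu⟩ := mem_Bc.1 hu
  obtain ⟨h1, rfl⟩ := h.eq_ln_of_mem hI hm hu hua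
  exact ⟨h1, orb_eq hm, hm⟩

theorem mem_Bc_iff {a c u : Ω} (hI : II p (P : Subgroup G) a c) (hua : u ≠ a) :
    u ∈ Bc p G a c ↔ ln p G a u ∈ cls p G a c :=
  ⟨fun hu => (h.of_mem_Bc hI hu hua).2.2, fun hu => mem_Bc.2 ⟨_, hu, right_mem_ln a u⟩⟩

omit h in
theorem cycU {a c : Ω} (ha : Fx (P : Subgroup G) a) (hc : Fx (P : Subgroup G) c)
    (hI : II p (P : Subgroup G) a c) :
    Cyc p (P : Subgroup G) (UU p G a c) (cls p G a c \ {ln p G a c}) := by
  rw [← hI.Op_eq]; exact C1 (hI.cyc ha) (ln_mem_cls a c) (fx_ln ha hc)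

theorem ln_mem_sdiff {a c d : Ω} (hI : II p (P : Subgroup G) a c) (hd : d ∈ Bc p G a c)
    (hd' : d ∉ ln p G a c) : ln p G a d ∈ cls p G a c \ {ln p G a c} :=
  mem_sdiff.2 ⟨(h.of_mem_Bc hI hd (ne_of_not_mem_ln hd')).2.2,
    fun e => hd' (by rw [← mem_singleton.1 e]; exact right_mem_ln a d)⟩

theorem trU {a c d : Ω} (hI : II p (P : Subgroup G) a c) (hd : d ∈ Bc p G a c) (hd' : d ∉ ln p G a c) :
    orb (UU p G a c) (ln p G a d) = cls p G a c \ {ln p G a c} := by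
  obtain ⟨g, h1, h2, -⟩ := hI.ex
  have := orb_eq_of (cycU h1 h2 (hI.smul g)).orb (x := g • ln p G a d) (by
    rw [cls_smul, ln_smul, ← smul_finset_singleton, ← smul_finset_sdiff]
    exact smul_mem_smul_finset (h.ln_mem_sdiff hI hd hd'))
  rw [orbUU_smul, cls_smul, ln_smul, ← smul_finset_singleton, ← smul_finset_sdiff] at this
  exact MulAction.injective g this

theorem trU0 {a c d : Ω} (ha : Fx (P : Subgroup G) a) (hc : Fx (P : Subgroup G) c)
    (hI' : II p (P : Subgroup G) a d)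
    (hd : d ∉ Bc p G a c) : orb (UU p G a c) (ln p G a d) = cls p G a d := by
  have hC := hI'.cyc ha
  have hn : ∀ m ∈ cls p G a d, ¬ Fx (UU p G a c) m := fun m hm hf => by
    obtain ⟨g, hg, rfl⟩ := mem_cls.1 hm
    have h1 : g • d ∈ ln p G a c := mem_ln.2 (Op_fix fun y hy hy' =>
      (hI'.smul' (NN_fix hg)).bt y hy' (hy.2 a (by simp)) (hf y (mem_Op hy hy')))
    have := inv_Bc a c _ ((NN p G a).inv_mem hg) _ (ln_subset_Bc a c h1)
    rw [inv_smul_smul] at this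
    exact hd this
  refine Subset.antisymm (orb_mono (UU_le a c) _) fun m hm => ?_
  exact C2 (X := fixS ⊤ {a, c}) (le_fixS le_top (by simp [ha, hc])) (hC.orb.inv.mono hC.le)
    (hC.orb.inv.mono (UU_le a c)) hC.mvc (ln_mem_cls a d) hm (hn _ (ln_mem_cls a d)) (hn m hm)

theorem trU' {a c d : Ω} (hI : II p (P : Subgroup G) a c) (hI' : II p (P : Subgroup G) a d)
    (hd : d ∉ Bc p G a c) : orb (UU p G a c) (ln p G a d) = cls p G a d := by
  obtain ⟨g, h1, h2, -⟩ := hI.ex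
  have := h.trU0 h1 h2 (hI'.smul g) (by rwa [Bc_smul, smul_mem_smul_finset_iff])
  rw [ln_smul, orbUU_smul, cls_smul] at this
  exact MulAction.injective g this

theorem rgU {a c d : Ω} (ha : Fx (P : Subgroup G) a) (hc : Fx (P : Subgroup G) c)
    (hI : II p (P : Subgroup G) a c) (hd : d ∈ Bc p G a c) (hd' : d ∉ ln p G a c) :
    Rg p (P : Subgroup G) (orb (UU p G a c) d) (deg p G a c - 1) := by
  have := PR ha (h.of_mem_Bc hI hd (ne_of_not_mem_ln hd')).1 (le_UU ha hc) (UU_le a c)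
    (mv_UU ha hc hd')
  rwa [h.trU hI hd hd', card_sdiff_of_subset (singleton_subset_iff.2 (ln_mem_cls a c)), card_singleton] at this

theorem rgU' {a c d : Ω} (ha : Fx (P : Subgroup G) a) (hc : Fx (P : Subgroup G) c)
    (hI : II p (P : Subgroup G) a c) (hI' : II p (P : Subgroup G) a d) (hd : d ∉ Bc p G a c) :
    Rg p (P : Subgroup G) (orb (UU p G a c) d) (deg p G a d) := by
  have := PR ha hI' (le_UU ha hc) (UU_le a c) (mv_UU ha hc fun e => hd (ln_subset_Bc a c e))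
  rwa [h.trU' hI hI' hd] at this

theorem Bc_rg {a c : Ω} (ha : Fx (P : Subgroup G) a) (hI : II p (P : Subgroup G) a c) :
    Rg p (P : Subgroup G) (Bc p G a c \ {a}) (deg p G a c) ∧ Inv (NN p G a) (Bc p G a c \ {a}) := by
  have hi : Inv (NN p G a) (Bc p G a c \ {a}) := (inv_Bc a c).sdiff fun g hg x hx => by
    rw [mem_singleton.1 hx, NN_fix hg]; exact mem_singleton_self a
  refine ⟨Rg.of_orbs (by have := hI.deg_ge; omega) hi fun x hx => ?_, hi⟩
  obtain ⟨h1, h2, -⟩ := h.of_mem_Bc hI (mem_sdiff.1 hx).1 (by simpa using (mem_sdiff.1 hx).2)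
  have := PR ha h1 (le_NN ha) le_rfl (h.mvN ha h1.ne)
  unfold deg
  rwa [← h2]

theorem card_Bc {a c : Ω} (hI : II p (P : Subgroup G) a c) :
    (Bc p G a c \ {a}).card = ((ln p G a c).card - 1) * deg p G a c ∧
    (Bc p G a c \ ln p G a c).card = ((ln p G a c).card - 1) * (deg p G a c - 1) := by
  have e : Bc p G a c \ {a} = (cls p G a c).biUnion fun m => m \ {a} := by
    ext x; simp only [mem_sdiff, mem_Bc, mem_biUnion]; tauto
  have h1 : (Bc p G a c \ {a}).card = ((ln p G a c).card - 1) * deg p G a c := by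
    rw [e, card_biUnion, sum_const_nat (m := (ln p G a c).card - 1), mul_comm, deg]
    · intro m hm
      rw [← card_of_mem_cls hm, card_sdiff_of_subset, card_singleton]
      obtain ⟨g, -, rfl⟩ := mem_cls.1 hm
      exact singleton_subset_iff.2 (left_mem_ln _ _)
    · intro m hm m' hm' hne
      refine disjoint_left.2 fun x hx hx' => hne ?_
      have hxa : x ≠ a := by simpa using (mem_sdiff.1 hx).2
      rw [← (h.eq_ln_of_mem hI hm (mem_sdiff.1 hx).1 hxa).2, (h.eq_ln_of_mem hI hm' (mem_sdiff.1 hx').1 hxa).2]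
  refine ⟨h1, ?_⟩
  have h2 := card_sdiff_of_subset (ln_subset_Bc (p := p) (G := G) a c)
  have h3 := card_sdiff_of_subset (singleton_subset_iff.2 (ln_subset_Bc (p := p) (G := G) a c (left_mem_ln a c)))
  have h4 : 0 < (ln p G a c).card := card_pos.2 ⟨a, left_mem_ln a c⟩
  have h5 := card_le_card (ln_subset_Bc (p := p) (G := G) a c)
  rw [card_singleton] at h3
  rw [Nat.mul_sub_one, ← h1]
  omega

theorem Mn_symm {a c : Ω} (hM : Mn p (P : Subgroup G) a c) : Mn p (P : Subgroup G) c a :=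
  ⟨(h.symm hM.1).1, fun u v hI => by rw [(h.symm hM.1).2]; exact hM.2 u v hI⟩

theorem D0 {a c u : Ω} (hM : Mn p (P : Subgroup G) a c) (hu : u ∈ Bc p G a c) (hua : u ≠ a) :
    Mn p (P : Subgroup G) a u ∧ Bc p G a u = Bc p G a c := by
  obtain ⟨h1, h2, -⟩ := h.of_mem_Bc hM.1 hu hua
  exact ⟨⟨h1, fun x y hI => by unfold deg; rw [h2]; exact hM.2 x y hI⟩, by unfold Bc; rw [h2]⟩

theorem D1 (hS : ∀ a c : Ω, Mn p (P : Subgroup G) a c → Bc p G a c = Bc p G c a) {a c u v : Ω}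
    (hM : Mn p (P : Subgroup G) a c) (hu : u ∈ Bc p G a c) (hv : v ∈ Bc p G a c) (huv : u ≠ v) :
    Mn p (P : Subgroup G) u v ∧ Bc p G u v = Bc p G a c := by
  by_cases e : u = a
  · subst e; exact h.D0 hM hv huv.symm
  obtain ⟨h1, h2⟩ := h.D0 hM hu e
  rw [hS a u h1] at h2
  obtain ⟨h3, h4⟩ := h.D0 (h.Mn_symm h1) (h2 ▸ hv) huv.symm
  exact ⟨h3, h4.trans h2⟩

theorem exists_Mn : ∃ a c : Ω, Fx (P : Subgroup G) a ∧ Fx (P : Subgroup G) c ∧ Mn p (P : Subgroup G) a c := by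
  classical
  obtain ⟨a, c, hI⟩ := h.g3
  obtain ⟨x, hx, hm⟩ := exists_min_image (univ.filter fun x : Ω × Ω => II p (P : Subgroup G) x.1 x.2)
    (fun x => deg p G x.1 x.2) ⟨(a, c), by simpa⟩
  have hM : Mn p (P : Subgroup G) x.1 x.2 := ⟨(mem_filter.1 hx).2, fun u v hI => hm (u, v) (by simpa)⟩
  obtain ⟨g, h1, h2, -⟩ := hM.1.ex
  exact ⟨_, _, h1, h2, hM.smul g⟩

/-- symmetry of the classes, given that the points of `Bc a c` are collinear with `c` -/
theorem symB (hS : ∀ a c d : Ω, Fx (P : Subgroup G) a → Fx (P : Subgroup G) c → Mn p (P : Subgroup G) a c →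
      d ∈ Bc p G a c → d ∉ ln p G a c → II p (P : Subgroup G) c d) (a c : Ω)
    (hM : Mn p (P : Subgroup G) a c) : Bc p G a c = Bc p G c a := by
  have key : ∀ a c : Ω, Mn p (P : Subgroup G) a c → Bc p G a c ⊆ Bc p G c a := by
    intro a c hM
    obtain ⟨g, h1, h2, -⟩ := hM.1.ex
    have hM' := hM.smul g
    suffices Bc p G (g • a) (g • c) ⊆ Bc p G (g • c) (g • a) by
      rwa [Bc_smul, Bc_smul, smul_finset_subset_smul_finset_iff] at this
    intro d hd
    by_cases e : d ∈ ln p G (g • a) (g • c)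
    · exact ln_subset_Bc _ _ (by rwa [ln_comm])
    by_contra hn
    have hcd := hS _ _ d h1 h2 hM' hd e
    have r1 := h.rgU h1 h2 hM'.1 hd e
    have r2 := h.rgU' h2 h1 (h.symm hM'.1).1 hcd hn
    rw [UU_comm] at r2
    have := r1.uniq r2 ⟨d, self_mem_orb _ d⟩
    have := hM'.2 _ _ hcd
    have := hM'.1.deg_ge
    omega
  exact Subset.antisymm (key a c hM) (key c a (h.Mn_symm hM))

end Geo

end Cfsg.Agent.L0.Sy
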