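import Cfsg.Agent.L0.PnD

/-! Definitions for S3580 (number of orbits of a Sylow subgroup). -/

set_option autoImplicit false

namespace Cfsg.Agent.L0.Sy

open Finset Pn
open scoped Pointwise

variable {G : Type} [Group G] {Ω : Type} [Fintype Ω] [DecidableEq Ω] [MulAction G Ω]

/-- `y` is a `p`-element -/
def pe (p : ℕ) (y : G) : Prop := ∃ k : ℕ, y ^ p ^ k = 1

/-- the subgroup generated by the `p`-elements of `X` -/
def Op (p : ℕ) (X : Subgroup G) : Subgroup G := Subgroup.closure {y | y ∈ X ∧ pe p y}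

open Classical in
/-- the points of `O` moved by `K` -/
noncomputable def mv (K : Subgroup G) (O : Finset Ω) : Finset Ω := O.filter fun x => ¬ Fx K x

open Classical in
/-- weight of a point -/
noncomputable def wt (p : ℕ) (K : Subgroup G) (x : Ω) : ℚ :=
  if Fx K x then -1 else if (orb K x).card = p then ((p : ℚ) - 1) / p else ((p : ℚ) ^ 2 + p - 1) / (p : ℚ) ^ 2

/-- deficiency -/
noncomputable def dl (p : ℕ) (K : Subgroup G) (O : Finset Ω) : ℚ := ∑ x ∈ O, wt p K x

/-- only trivial blocks -/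
def Prim (H : Subgroup G) (O : Finset Ω) : Prop :=
  ∀ B : Finset Ω, B ⊆ O → Blk H B → B.card ≤ 1 ∨ B = O

/-- the two assertions proved by induction -/
def Res (p : ℕ) (K H : Subgroup G) (O : Finset Ω) : Prop :=
  0 ≤ dl p K O ∧ (Prim H O → (mv K O).card = p ∨
    2 * ((p : ℚ) - 1) ≤ dl p K O + (((fx K O).card % p : ℕ) : ℚ))

/-- the induction hypothesis -/
def TT (p n : ℕ) : Prop :=
  ∀ (G : Type) [Group G] [Finite G] (Ω : Type) [Fintype Ω] [DecidableEq Ω] [MulAction G Ω]
    (P : Sylow p G) (H : Subgroup G) (O : Finset Ω), (P : Subgroup G) ≤ H → Orb H O → O.card < n →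
    Mv (P : Subgroup G) O → Res p (P : Subgroup G) H O

/-- `X` is transitive on `Λ`, `K` moves exactly `p` points, and `p` is more than half -/
structure Cyc (p : ℕ) (K X : Subgroup G) (Λ : Finset Ω) : Prop where
  le : K ≤ X
  orb : Orb X Λ
  mvc : (mv K Λ).card = p
  lt : Λ.card < 2 * p

/-- `W` looks like a multiple of a set of `k` points with one `p`-cycle -/
structure Rg (p : ℕ) (K : Subgroup G) (W : Finset Ω) (k : ℕ) : Prop where
  sz : ∀ x ∈ W, ¬ Fx K x → (orb K x).card = p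
  le : p ≤ k
  cnt : (mv K W).card * k = W.card * p

/-- `O^{p'}` of a point stabiliser -/
def NN (p : ℕ) (G : Type) [Group G] [MulAction G Ω] (a : Ω) : Subgroup G := Op p (fixS ⊤ {a})

/-- `O^{p'}` of a two point stabiliser -/
def UU (p : ℕ) (G : Type) [Group G] [MulAction G Ω] (a c : Ω) : Subgroup G := Op p (fixS ⊤ {a, c})

/-- the line through two points -/
noncomputable def ln (p : ℕ) (G : Type) [Group G] [MulAction G Ω] (a c : Ω) : Finset Ω :=
  fx (UU p G a c) univ

/-- the class of the line `ac` at `a` -/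
noncomputable def cls (p : ℕ) (G : Type) [Group G] [MulAction G Ω] (a c : Ω) : Finset (Finset Ω) :=
  orb (NN p G a) (ln p G a c)

/-- number of lines in the class -/
noncomputable def deg (p : ℕ) (G : Type) [Group G] [MulAction G Ω] (a c : Ω) : ℕ := (cls p G a c).card

/-- union of the lines of the class -/
noncomputable def Bc (p : ℕ) (G : Type) [Group G] [MulAction G Ω] (a c : Ω) : Finset Ω :=
  (cls p G a c).biUnion id

/-- collinear pairs -/
structure II (p : ℕ) (K : Subgroup G) (a c : Ω) : Prop where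
  ne : c ≠ a
  ex : ∃ g : G, Fx K (g • a) ∧ Fx K (g • c) ∧ (mv K (cls p G (g • a) (g • c))).card = p
  lt : deg p G a c < 2 * p
  bt : ∀ y : G, pe p y → y • a = a → y • ln p G a c = ln p G a c → y • c = c

open Classical in
/-- the points not collinear with `a` -/
noncomputable def EE (p : ℕ) (K : Subgroup G) (a : Ω) : Finset Ω :=
  univ.filter fun c => c ≠ a ∧ ¬ II p K a c

/-- the configuration of a minimal counterexample -/
structure Geo (p : ℕ) (K : Subgroup G) (Ω : Type) [Fintype Ω] [DecidableEq Ω] [MulAction G Ω] : Prop where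
  tr : Orb (⊤ : Subgroup G) (univ : Finset Ω)
  prim : Prim (⊤ : Subgroup G) (univ : Finset Ω)
  big : p + 1 ≤ (fx K (univ : Finset Ω)).card
  g1 : ∀ a : Ω, Fx K a → ∀ S : Finset Ω, Inv (NN p G a) S → a ∉ S →
    0 ≤ dl p K S ∧ dl p K S < 2 * ((p : ℚ) - 1)
  g2 : ∀ a : Ω, Fx K a → ∀ c ∈ EE p K a, Prim (NN p G a) (orb (NN p G a) c) ∧
    (p : ℚ) - 1 ≤ dl p K (orb (NN p G a) c) ∧
    ((mv K (orb (NN p G a) c)).card = p → (orb (NN p G a) c).card = p)
  g3 : ∃ a c : Ω, II p K a c

@[simp] theorem mem_mv {K : Subgroup G} {O : Finset Ω} {x : Ω} : x ∈ mv K O ↔ x ∈ O ∧ ¬ Fx K x := by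
  classical simp [mv]

@[simp] theorem mem_EE {p : ℕ} {K : Subgroup G} {a c : Ω} : c ∈ EE p K a ↔ c ≠ a ∧ ¬ II p K a c := by
  classical simp [EE]

theorem mem_ln {p : ℕ} {a c x : Ω} : x ∈ ln p G a c ↔ ∀ u ∈ UU p G a c, u • x = x := by
  simp [ln, Fx]

theorem mem_Bc {p : ℕ} {a c x : Ω} : x ∈ Bc p G a c ↔ ∃ m ∈ cls p G a c, x ∈ m := by
  simp [Bc]

end Cfsg.Agent.L0.Sy
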