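import Cfsg.Agent.L0.SyD

/-! S3580: the case where any two points are collinear. -/

set_option autoImplicit false
set_option linter.unusedSectionVars false
set_option linter.unusedVariables false

namespace Cfsg.Agent.L0.Sy

open Finset Pn
open scoped Pointwise

variable {G : Type} [Group G] [Finite G] {Ω : Type} [Fintype Ω] [DecidableEq Ω] [MulAction G Ω]
  {p : ℕ} [hp : Fact p.Prime] {P : Sylow p G}

namespace Geo
variable (h : Geo p (P : Subgroup G) Ω)
include h

theorem uniqB (hA : ∀ a c : Ω, c ≠ a → II p (P : Subgroup G) a c)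
    (hS : ∀ a c : Ω, Mn p (P : Subgroup G) a c → Bc p G a c = Bc p G c a) {a c d : Ω}
    (hM : Mn p (P : Subgroup G) a c) (hM' : Mn p (P : Subgroup G) a d) : d ∈ Bc p G a c := by
  have key : ∀ a c d : Ω, Fx (P : Subgroup G) a → Fx (P : Subgroup G) c → Mn p (P : Subgroup G) a c →
      Mn p (P : Subgroup G) a d → d ∈ Bc p G a c := by
    intro a c d ha hc hM hM'
    by_contra hn
    have hcB : c ∈ Bc p G a c := ln_subset_Bc a c (right_mem_ln a c)
    have hdc : d ≠ c := fun e => hn (e ▸ hcB)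
    have r1 := h.rgU' ha hc hM.1 hM'.1 hn
    have r2 := h.rgU' hc ha (h.symm hM.1).1 (hA c d hdc) (by rwa [← hS a c hM])
    rw [UU_comm] at r2
    have e := r1.uniq r2 ⟨d, self_mem_orb _ d⟩
    have hM2 : Mn p (P : Subgroup G) c d := ⟨hA c d hdc, fun u v hI => e ▸ hM'.2 u v hI⟩
    obtain ⟨u, hu, hud⟩ := exists_mv_of_not_mem_ln fun e => hn (ln_subset_Bc a c e)
    have d1 : d ∈ Bc p G a d := ln_subset_Bc a d (right_mem_ln a d)
    have d2 : d ∈ Bc p G c d := ln_subset_Bc c d (right_mem_ln c d)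
    have e1 := (h.D1 hS hM' d1 (inv_Bc a d u (UU_le a c hu) d d1) hud.symm).2
    have e2 := (h.D1 hS hM2 d2 (inv_Bc c d u (UU_le' a c hu) d d2) hud.symm).2
    have hc2 : c ∈ Bc p G a d := by rw [← e1, e2]; exact ln_subset_Bc c d (left_mem_ln c d)
    exact hn (by rw [(h.D0 hM' hc2 hM.1.ne).2]; exact d1)
  obtain ⟨g, h1, h2, -⟩ := hM.1.ex
  have := key _ _ _ h1 h2 (hM.smul g) (hM'.smul g)
  rwa [Bc_smul, smul_mem_smul_finset_iff] at this

theorem Bc_univ (hA : ∀ a c : Ω, c ≠ a → II p (P : Subgroup G) a c)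
    (hS : ∀ a c : Ω, Mn p (P : Subgroup G) a c → Bc p G a c = Bc p G c a) {a c : Ω}
    (hM : Mn p (P : Subgroup G) a c) : Bc p G a c = univ := by
  have ha : a ∈ Bc p G a c := ln_subset_Bc a c (left_mem_ln a c)
  have hc : c ∈ Bc p G a c := ln_subset_Bc a c (right_mem_ln a c)
  have key : ∀ x ∈ Bc p G a c, ∀ z, Mn p (P : Subgroup G) x z → z ∈ Bc p G a c := by
    intro x hx z hz
    by_cases e : x = a
    · subst e; exact h.uniqB hA hS hM hz
    · obtain ⟨h1, h2⟩ := h.D1 hS hM hx ha e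
      rw [← h2]; exact h.uniqB hA hS h1 hz
  rcases h.prim (Bc p G a c) (subset_univ _) (fun g _ x hx hx' y hy => by
    by_cases e : x = y
    · exact e ▸ hx'
    · exact key _ hx' _ ((h.D1 hS hM hx hy e).1.smul g)) with h1 | h1
  · exact absurd (card_le_one.1 h1 _ hc _ ha) hM.1.ne
  · exact h1

theorem lam_one {a c : Ω} (ha : Fx (P : Subgroup G) a) (hc : Fx (P : Subgroup G) c)
    (hA : ∀ a c : Ω, c ≠ a → II p (P : Subgroup G) a c) (hI : II p (P : Subgroup G) a c)
    (hB : Bc p G a c = univ) (hB' : Bc p G c a = univ) (h2 : p + 2 ≤ deg p G a c) :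
    (ln p G a c).card ≤ 2 := by
  have hC := cycU ha hc hI
  obtain ⟨m, hm⟩ : (fx (P : Subgroup G) (cls p G a c \ {ln p G a c})).Nonempty := by
    have h1 := card_fx_mv (P : Subgroup G) (cls p G a c \ {ln p G a c})
    rw [hC.mvc, card_sdiff_of_subset (singleton_subset_iff.2 (ln_mem_cls a c)), card_singleton] at h1
    unfold deg at h2
    exact card_pos.1 (by omega)
  obtain ⟨hm1, hm2⟩ := mem_fx.1 hm
  have hV := C1 hC hm1 hm2
  obtain ⟨g, hg, rfl⟩ := mem_cls.1 (mem_sdiff.1 hm1).1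
  have hne : ln p G a (g • c) ≠ ln p G a c := by simpa using (mem_sdiff.1 hm1).2
  set e := g • c
  have hIe : II p (P : Subgroup G) a e := hI.smul' (NN_fix hg)
  have he : e ∉ ln p G a c := fun h1 => hne (h.line1 hI h1 hIe.ne).2.2
  have hc' : c ∉ ln p G a e := fun h1 => hne (h.line1 hIe h1 hI.ne).2.2.symm
  have hec : e ≠ c := fun h1 => he (by rw [h1]; exact right_mem_ln a c)
  have hIc := hA c e hec
  have hle : Op p (fixS (UU p G a c) {ln p G a e}) ≤ UU p G c e := Op_le_of fun y hy hy' =>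
    mem_UU hy' (UU_fix hy.1).2 (hIe.bt y hy' (UU_fix hy.1).1 (hy.2 _ (mem_singleton_self _)))
  have hsub : ln p G c e ⊆ {c, e} := by
    intro x hx
    by_contra hn
    simp only [mem_insert, mem_singleton, not_or] at hn
    have h1 : x ∉ ln p G a c := fun h1 => he (by
      rw [← (h.line2 hI (right_mem_ln a c) h1 (Ne.symm hn.1)).2.2, (h.line1 hIc hx hn.1).2.2]
      exact right_mem_ln c e)
    have h3 : x ∉ ln p G a e := fun h1 => hc' (by
      rw [← (h.line2 hIe (right_mem_ln a e) h1 (Ne.symm hn.2)).2.2,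
        (h.line2 hIc (right_mem_ln c e) hx (Ne.symm hn.2)).2.2]
      exact left_mem_ln c e)
    refine hV.not_fx (m := ln p G a x) (mem_sdiff.2 ⟨h.ln_mem_sdiff hI (by rw [hB]; exact mem_univ _) h1,
      fun h4 => h3 (by rw [← mem_singleton.1 h4]; exact right_mem_ln a x)⟩) fun y hy => ?_
    rw [← ln_smul, (UU_fix (Op_le hy).1).1, mem_ln.1 hx y (hle hy)]
  have h5 := (h.of_mem_Bc (h.symm hI).1 (u := e) (by rw [hB']; exact mem_univ _) hec).2.2
  rw [ln_comm, ← card_of_mem_cls h5]
  exact (card_le_card hsub).trans card_le_two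

theorem noE (hp2 : p ≠ 2) (hE : ∀ a : Ω, EE p (P : Subgroup G) a = ∅) : False := by
  have hA : ∀ a c : Ω, c ≠ a → II p (P : Subgroup G) a c := fun a c hne => by
    by_contra hn
    have : c ∈ EE p (P : Subgroup G) a := mem_EE.2 ⟨hne, hn⟩
    rw [hE] at this
    exact notMem_empty _ this
  have hS := h.symB fun a c d _ _ _ _ hd => hA c d fun e => hd (by rw [e]; exact right_mem_ln a c)
  obtain ⟨a, c, ha, hc, hM⟩ := h.exists_Mn
  have hB := h.Bc_univ hA hS hM
  have r1 := (h.Bc_rg ha hM.1).1.cnt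
  have r2 := (h.card_Bc hM.1).1
  have hd := hM.1.deg_ge
  have hlt := hM.1.lt
  have hbig := h.big
  rw [r2, mul_right_comm, hB, mv_sdiff ha] at r1
  have r3 := Nat.eq_of_mul_eq_mul_right (by omega) r1
  have r4 := card_fx_mv (P : Subgroup G) (univ : Finset Ω)
  rw [hB, card_sdiff_of_subset (subset_univ _), card_singleton] at r2
  have hpos : 0 < (univ : Finset Ω).card := card_pos.2 ⟨a, mem_univ a⟩
  have hl : 0 < (ln p G a c).card := card_pos.2 ⟨a, left_mem_ln a c⟩
  by_cases h2 : p + 2 ≤ deg p G a c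
  · have h3 := h.lam_one ha hc hA hM.1 hB (h.Bc_univ hA hS (h.Mn_symm hM)) h2
    obtain e | e : (ln p G a c).card - 1 = 0 ∨ (ln p G a c).card - 1 = 1 := by omega
    · rw [e] at r2; omega
    · rw [e] at r2 r3; omega
  · have h3 : deg p G a c = p + 1 := by omega
    rw [h3, mul_add, ← r3] at r2
    have hF : ln p G a c = fx (P : Subgroup G) univ :=
      eq_of_subset_of_card_le (fun x hx => mem_fx.2 ⟨mem_univ _, fx_of_mem_ln ha hc hx⟩) (by omega)
    obtain ⟨e, -, he⟩ := h.mvu
    have he' : e ∉ ln p G a c := fun h1 => he (fx_of_mem_ln ha hc h1)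
    obtain ⟨hM2, hB2⟩ := h.D1 hS hM (u := e) (v := a) (by rw [hB]; exact mem_univ _)
      (by rw [hB]; exact mem_univ _) (ne_of_not_mem_ln he')
    rw [hB] at hB2
    have hne : ∀ u ∈ ln p G a c, u ≠ e := fun u hu e1 => he' (e1 ▸ hu)
    have hsurj := surj_on_of_inj_on_of_card_le (s := ln p G a c) (t := cls p G e a) (fun u _ => ln p G e u)
      (fun u hu => (h.of_mem_Bc hM2.1 (by rw [hB2]; exact mem_univ _) (hne u hu)).2.2)
      (fun u v hu hv e1 => by
        by_contra huv
        refine he' ?_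
        rw [← (h.line2 hM.1 hu hv huv).2.2, (h.line2 (hA e u (hne u hu)) (right_mem_ln e u)
          (by rw [e1]; exact right_mem_ln e v) huv).2.2]
        exact left_mem_ln e u)
      (by
        have := hM2.2 a c hM.1
        unfold deg at this h3
        rw [hF]; omega)
    unfold Fx at he
    push Not at he
    obtain ⟨k, hk, hke⟩ := he
    obtain ⟨u, hu, e1⟩ := hsurj (ln p G e (k • e))
      (h.of_mem_Bc hM2.1 (by rw [hB2]; exact mem_univ _) hke).2.2
    have hu' := fx_of_mem_ln ha hc hu k hk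
    have hI := hA u e (hne u hu).symm
    refine hke (hI.bt k (pe_of_mem hk) hu' ?_)
    rw [← ln_smul' hu']
    refine (h.line1 hI (by rw [ln_comm, ← e1]; exact right_mem_ln _ _) fun e2 => hne u hu ?_).2.2
    rw [← hu'] at e2
    exact (MulAction.injective k e2).symm

end Geo

end Cfsg.Agent.L0.Sy
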