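import Cfsg.Agent.H1.UField

/-! The structure equations of `PSU₃(q)`, `q` odd, have a unique solution. -/

set_option autoImplicit false

namespace Cfsg.Agent.L0.U3

open H1 Finset

variable {E : Type*} [Field E] [Fintype E] {q : ℕ}

theorem pow_card_of_mul_mem {S : Finset E} {m : E} (hm : m ≠ 0) (h0 : (0 : E) ∉ S)
    (h : ∀ v ∈ S, m * v ∈ S) : m ^ #S = 1 := by
  classical
  have h1 : ∏ v ∈ S, m * v = ∏ v ∈ S, v :=
    prod_bij (fun v _ => m * v) h (fun a _ b _ e => mul_left_cancel₀ hm e)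
      (fun b hb => by
        obtain ⟨a, ha, e⟩ := surj_on_of_inj_on_of_card_le (s := S) (t := S) (fun v _ => m * v) h
          (fun a b _ _ e => mul_left_cancel₀ hm e) le_rfl b hb
        exact ⟨a, ha, e.symm⟩) fun _ _ => rfl
  rw [prod_mul_distrib, prod_const] at h1
  exact mul_right_cancel₀ (prod_ne_zero_iff.2 fun v hv e => h0 (e ▸ hv)) (h1.trans (one_mul _).symm)

/-- The data given by the swapping involution. -/
structure Tau (U : UField E q) where
  A : E → E → E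
  B : E → E → E
  two : (2 : E) ≠ 0
  card : Nat.card {t : E // U.σ t = -t} = q
  val : ∀ a b, b + U.σ b = a * U.σ a → b ≠ 0 →
    B a b + U.σ (B a b) = A a b * U.σ (A a b) ∧ B a b ≠ 0
  inv : ∀ a b, b + U.σ b = a * U.σ a → b ≠ 0 → A (A a b) (B a b) = a ∧ B (A a b) (B a b) = b
  eqv : ∀ l a b, l ≠ 0 → b + U.σ b = a * U.σ a → b ≠ 0 →
    U.σ l * A (l * a) (l * U.σ l * b) = A a b ∧ l * U.σ l * B (l * a) (l * U.σ l * b) = B a b
  star : ∀ a b, b + U.σ b = a * U.σ a → b ≠ 0 → ∃ c d m, d + U.σ d = c * U.σ c ∧ d ≠ 0 ∧ m ≠ 0 ∧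
    A c d = -A a b ∧ B c d = U.σ (B a b) ∧ ∀ a' b', b' + U.σ b' = a' * U.σ a' → b' ≠ 0 →
      b + b' + U.σ a * a' ≠ 0 →
      d + m * U.σ m * B a' b' + U.σ c * (m * A a' b') ≠ 0 ∧
      A (a + a') (b + b' + U.σ a * a') =
        A a b + A (c + m * A a' b') (d + m * U.σ m * B a' b' + U.σ c * (m * A a' b')) ∧
      B (a + a') (b + b' + U.σ a * a') =
        B a b + B (c + m * A a' b') (d + m * U.σ m * B a' b' + U.σ c * (m * A a' b')) +
          U.σ (A a b) * A (c + m * A a' b') (d + m * U.σ m * B a' b' + U.σ c * (m * A a' b'))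

namespace Tau

variable {U : UField E q} (T : Tau U)

theorem ne_of_tr {a b : E} (h : b + U.σ b = a * U.σ a) (ha : a ≠ 0) : b ≠ 0 := by
  rintro rfl
  rw [map_zero, add_zero] at h
  exact mul_ne_zero ha (U.σ_eq_zero.not.2 ha) h.symm

theorem A_zero {b : E} (h : b + U.σ b = 0) (hb : b ≠ 0) : T.A 0 b = 0 := by
  have := (T.eqv (-1) 0 b (by simp) (by simpa using h) hb).1
  simp only [map_neg, map_one, mul_zero, mul_neg, mul_one, neg_neg, one_mul, neg_mul] at this
  have h2 := T.two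
  grind

theorem A_ne {a b : E} (h : b + U.σ b = a * U.σ a) (ha : a ≠ 0) : T.A a b ≠ 0 := fun e => by
  have hb := ne_of_tr h ha
  have h1 := T.val a b h hb
  have h2 := (T.inv a b h hb).1
  rw [e] at h1 h2
  rw [T.A_zero (by simpa using h1.1) h1.2] at h2
  exact ha h2.symm

/-- reduction to first coordinate one -/
theorem red {a b : E} (h : b + U.σ b = a * U.σ a) (ha : a ≠ 0) :
    b / (a * U.σ a) + U.σ (b / (a * U.σ a)) = 1 ∧
      U.σ a * T.A a b = T.A 1 (b / (a * U.σ a)) ∧ a * U.σ a * T.B a b = T.B 1 (b / (a * U.σ a)) := by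
  have h0 := U.σ_eq_zero.not.2 ha
  have h1 : b / (a * U.σ a) + U.σ (b / (a * U.σ a)) = 1 := by
    simp only [map_div₀, map_mul, U.σσ]
    field_simp
    linear_combination h
  have := T.eqv a 1 (b / (a * U.σ a)) ha (by simpa using h1)
    (div_ne_zero (ne_of_tr h ha) (mul_ne_zero ha h0))
  rw [mul_one, mul_div_cancel₀ _ (mul_ne_zero ha h0)] at this
  exact ⟨h1, this⟩

/-- the star relation for `x = (1, β)` and central `y` -/
theorem star1 {β : E} (h : β + U.σ β = 1) : ∃ c d, d + U.σ d = c * U.σ c ∧ c ≠ 0 ∧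
    T.A c d = -T.A 1 β ∧ T.B c d = U.σ (T.B 1 β) ∧
    (∀ β', β' + U.σ β' = 1 → β' ≠ β → ∃ d', d' + U.σ d' = c * U.σ c ∧
      T.A 1 β' = T.A 1 β + T.A c d' ∧ T.B 1 β' = T.B 1 β + T.B c d' + U.σ (T.A 1 β) * T.A c d') ∧
    ∀ d', d' + U.σ d' = c * U.σ c → d' ≠ d → ∃ β', β' + U.σ β' = 1 ∧
      T.A 1 β' = T.A 1 β + T.A c d' := by
  have h' : β + U.σ β = 1 * U.σ 1 := by simpa using h
  obtain ⟨c, d, m, h1, h2, h3, h4, h5, h6⟩ := T.star 1 β h' (ne_of_tr h' one_ne_zero)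
  have m0 := U.σ_eq_zero.not.2 h3
  have key : ∀ t, t + U.σ t = 0 → t ≠ 0 → T.A 1 (β + t) = T.A 1 β + T.A c (d + m * U.σ m * T.B 0 t) ∧
      T.B 1 (β + t) = T.B 1 β + T.B c (d + m * U.σ m * T.B 0 t) +
        U.σ (T.A 1 β) * T.A c (d + m * U.σ m * T.B 0 t) := fun t ht t0 => by
    have := h6 0 t (by simpa using ht) t0 (by
      simpa using ne_of_tr (U := U) (a := 1) (b := β + t) (by simp; linear_combination h + ht) one_ne_zero)
    simpa [T.A_zero ht t0] using this.2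
  refine ⟨c, d, h1, ?_, h4, h5, fun β' hb hne => ?_, fun d' hd hne => ?_⟩
  · rintro rfl
    rw [T.A_zero (by simpa using h1) h2] at h4
    exact T.A_ne h' one_ne_zero (neg_eq_zero.1 h4.symm)
  · have ht : β' - β + U.σ (β' - β) = 0 := by rw [map_sub]; linear_combination hb - h
    have := key _ ht (sub_ne_zero.2 hne)
    have h7 := (T.val 0 _ (by simpa using ht) (sub_ne_zero.2 hne)).1
    rw [add_sub_cancel] at this
    refine ⟨_, ?_, this⟩
    rw [T.A_zero ht (sub_ne_zero.2 hne)] at h7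
    simp only [map_add, map_mul, U.σσ]
    linear_combination h1 + m * U.σ m * h7
  · have ht : (d' - d) / (m * U.σ m) + U.σ ((d' - d) / (m * U.σ m)) = 0 := by
      simp only [map_div₀, map_mul, map_sub, U.σσ]
      field_simp
      linear_combination hd - h1
    have t0 : (d' - d) / (m * U.σ m) ≠ 0 := div_ne_zero (sub_ne_zero.2 hne) (mul_ne_zero h3 m0)
    have h7 := T.val 0 _ (by simpa using ht) t0
    have h8 := (T.inv 0 _ (by simpa using ht) t0).2
    rw [T.A_zero ht t0] at h7 h8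
    have := (key _ (by simpa using h7.1) h7.2).1
    rw [h8, mul_div_cancel₀ _ (mul_ne_zero h3 m0), add_sub_cancel] at this
    exact ⟨_, by rw [map_add]; linear_combination h + h7.1, this⟩

theorem A_inj {β β' : E} (h : β + U.σ β = 1) (h' : β' + U.σ β' = 1) (e : T.A 1 β' = T.A 1 β) :
    β' = β := by
  by_contra hne
  obtain ⟨c, d, -, c0, -, -, h1, -⟩ := T.star1 h
  obtain ⟨d', h2, h3, -⟩ := h1 β' h' hne
  exact T.A_ne h2 c0 (by linear_combination e - h3)

include U in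
theorem cast_q : (q : E) = 0 := by
  have := FiniteField.cast_card_eq_zero E
  rw [U.card, Nat.cast_pow] at this
  exact pow_eq_zero_iff two_ne_zero |>.1 this

include T in
theorem half : (2 : E)⁻¹ + U.σ 2⁻¹ = 1 := by
  have := T.two
  rw [map_inv₀, map_ofNat]; field_simp; norm_num

include T in
open Classical in
theorem card_L : #{β : E | β + U.σ β = 1} = q := by
  refine Eq.trans ?_ T.card
  rw [Nat.card_eq_fintype_card, Fintype.card_subtype]
  refine card_bij (fun β _ => β - 2⁻¹) (fun β hb => ?_) (fun a _ b _ e => sub_left_inj.1 e)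
    fun t ht => ⟨t + 2⁻¹, ?_, by simp⟩
  · simp only [mem_filter, mem_univ, true_and, map_sub] at hb ⊢
    linear_combination hb - T.half
  · simp only [mem_filter, mem_univ, true_and, map_add] at ht ⊢
    linear_combination ht + T.half

/-- the first coordinates lie on a circle through the origin -/
theorem circle : ∃ S : E, S ≠ 0 ∧ ∀ β, β + U.σ β = 1 → ∀ c d, d + U.σ d = c * U.σ c → c ≠ 0 →
    T.A c d = -T.A 1 β → (∀ d', d' + U.σ d' = c * U.σ c → d' ≠ d → ∃ β', β' + U.σ β' = 1 ∧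
      T.A 1 β' = T.A 1 β + T.A c d') → c * U.σ c = 1 ∧ T.A 1 β = (1 - c) * S := by
  classical
  set P : Finset E := insert 0 (image (T.A 1) {β : E | β + U.σ β = 1}) with hP
  have hc : #P = q + 1 := by
    rw [card_insert_of_notMem, card_image_of_injOn, T.card_L]
    · intro a ha b hb e
      exact T.A_inj (by simpa using hb) (by simpa using ha) e
    · simp only [mem_image, mem_filter, mem_univ, true_and, not_exists, not_and]
      exact fun β hb => T.A_ne (by simpa using hb) one_ne_zero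
  have main : ∀ β, β + U.σ β = 1 → ∀ c d, d + U.σ d = c * U.σ c → c ≠ 0 →
      T.A c d = -T.A 1 β → (∀ d', d' + U.σ d' = c * U.σ c → d' ≠ d → ∃ β', β' + U.σ β' = 1 ∧
        T.A 1 β' = T.A 1 β + T.A c d') →
      c * U.σ c = 1 ∧ T.A 1 β = (1 - (U.σ c)⁻¹) * ∑ v ∈ P, v := fun β h c d h1 c0 h2 h3 => by
    have s0 := U.σ_eq_zero.not.2 c0
    have m0 := inv_ne_zero s0
    have hT : ∀ v ∈ P, T.A 1 β + (U.σ c)⁻¹ * v ∈ P := fun v hv => by
      simp only [hP, mem_insert, mem_image, mem_filter, mem_univ, true_and] at hv ⊢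
      rcases hv with rfl | ⟨γ, hγ, rfl⟩
      · exact Or.inr ⟨β, h, by simp⟩
      have e1 := (T.eqv c 1 γ c0 (by simpa using hγ) (ne_of_tr (by simpa using hγ) one_ne_zero)).1
      rw [mul_one] at e1
      rw [← e1, inv_mul_cancel_left₀ s0]
      by_cases e : c * U.σ c * γ = d
      · exact Or.inl (by rw [e, h2, add_neg_cancel])
      · exact Or.inr (h3 _ (by simp only [map_mul, U.σσ]; linear_combination c * U.σ c * hγ) e)
    have hi : ∀ a b : E, T.A 1 β + (U.σ c)⁻¹ * a = T.A 1 β + (U.σ c)⁻¹ * b → a = b := fun a b e =>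
      mul_left_cancel₀ m0 (add_left_cancel e)
    have hs : ∑ v ∈ P, (T.A 1 β + (U.σ c)⁻¹ * v) = ∑ v ∈ P, v :=
      sum_bij (fun v _ => T.A 1 β + (U.σ c)⁻¹ * v) hT (fun a _ b _ => hi a b)
        (fun b hb => by
          obtain ⟨a, ha, e⟩ := surj_on_of_inj_on_of_card_le (s := P) (t := P) _ hT
            (fun a b _ _ => hi a b) le_rfl b hb
          exact ⟨a, ha, e.symm⟩) fun _ _ => rfl
    rw [sum_add_distrib, sum_const, hc, ← mul_sum, nsmul_eq_mul, Nat.cast_succ, cast_q (U := U)] at hs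
    set S := ∑ v ∈ P, v
    have e1 : T.A 1 β = (1 - (U.σ c)⁻¹) * S := by linear_combination hs
    refine ⟨?_, e1⟩
    have hp := pow_card_of_mul_mem (S := (P.image (· - S)).erase 0) m0 (notMem_erase _ _) fun v hv => by
      simp only [mem_erase, mem_image] at hv ⊢
      obtain ⟨v0, w, hw, rfl⟩ := hv
      exact ⟨mul_ne_zero m0 v0, _, hT w hw, by rw [e1]; ring⟩
    have hc' : #(P.image (· - S)) = q + 1 := by rw [card_image_of_injective _ sub_left_injective, hc]
    by_cases h0 : (0 : E) ∈ P.image (· - S)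
    · rw [card_erase_of_mem h0, hc', Nat.add_sub_cancel, ← U.pow, map_inv₀, U.σσ, inv_eq_one] at hp
      rw [hp, map_one, inv_one, sub_self, zero_mul] at e1
      exact (T.A_ne (by simpa using h) one_ne_zero e1).elim
    · rw [erase_eq_of_notMem h0, hc', ← U.norm_eq, map_inv₀, U.σσ, ← mul_inv, inv_eq_one] at hp
      rw [mul_comm, hp]
  obtain ⟨c, d, h1, c0, h2, -, -, h3⟩ := T.star1 T.half
  refine ⟨∑ v ∈ P, v, fun e => ?_, fun β h c d h1 c0 h2 h3 => ?_⟩
  · have := (main _ T.half c d h1 c0 h2 h3).2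
    rw [e, mul_zero] at this
    exact T.A_ne (by simpa using T.half) one_ne_zero this
  · obtain ⟨e1, e2⟩ := main β h c d h1 c0 h2 h3
    exact ⟨e1, by rw [e2, inv_eq_of_mul_eq_one_left e1]⟩

/-- the star relation for central `x` -/
theorem star0 {t : E} (ht : U.σ t = -t) (t0 : t ≠ 0) : ∃ m : E, m ≠ 0 ∧
    (∀ β u, β + U.σ β = 1 → U.σ u = -u → u ≠ 0 → ∃ γ, γ + U.σ γ = 1 ∧
      t * T.A 1 γ = u * U.σ m * U.σ (T.A 1 β) * T.A 1 (β + u)) ∧
    ∀ β, β + U.σ β = 1 → ∃ d, d + U.σ d = m * T.A 1 β * U.σ (m * T.A 1 β) ∧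
      T.A 1 (β + t) = T.A (m * T.A 1 β) d ∧ T.B 1 (β + t) = T.B 0 t + T.B (m * T.A 1 β) d := by
  have h0 : t + U.σ t = 0 := by rw [ht, add_neg_cancel]
  obtain ⟨c, d, m, h1, h2, h3, h4, -, h6⟩ := T.star 0 t (by simpa using h0) t0
  rw [T.A_zero h0 t0, neg_zero] at h4
  obtain rfl : c = 0 := by_contra fun e => T.A_ne h1 e h4
  have key : ∀ a b, b + U.σ b = a * U.σ a → a ≠ 0 → ∃ d, d + U.σ d = m * T.A a b * U.σ (m * T.A a b) ∧
      T.A a (t + b) = T.A (m * T.A a b) d ∧ T.B a (t + b) = T.B 0 t + T.B (m * T.A a b) d :=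
    fun a b h a0 => by
      have h7 := h6 a b h (ne_of_tr h a0) (by
        simpa using ne_of_tr (U := U) (a := a) (b := t + b) (by
          rw [map_add]; linear_combination h0 + h) a0)
      have h8 := (T.val a b h (ne_of_tr h a0)).1
      refine ⟨d + m * U.σ m * T.B a b, ?_, by simpa [T.A_zero h0 t0] using h7.2⟩
      simp only [map_add, map_mul, U.σσ, map_zero, mul_zero] at h1 ⊢
      linear_combination h1 + m * U.σ m * h8
  refine ⟨m, h3, fun β u h hu u0 => ?_, fun β h => by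
    simpa [add_comm t] using key 1 β (by simpa using h) one_ne_zero⟩
  obtain ⟨a, ha⟩ := U.exists_norm (div_ne_zero t0 u0) (by rw [map_div₀, ht, hu, neg_div_neg_eq])
  have a0 : a ≠ 0 := by rintro rfl; exact div_ne_zero t0 u0 (by simpa using ha.symm)
  have hb : a * U.σ a * β + U.σ (a * U.σ a * β) = a * U.σ a := by
    simp only [map_mul, U.σσ]; linear_combination a * U.σ a * h
  obtain ⟨d', e1, e2, -⟩ := key a _ hb a0
  obtain ⟨e3, e4, -⟩ := T.red e1 (mul_ne_zero h3 (T.A_ne hb a0))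
  have e5 := (T.eqv a 1 β a0 (by simpa using h) (ne_of_tr (by simpa using h) one_ne_zero)).1
  have h' : β + u + U.σ (β + u) = 1 := by rw [map_add, hu]; linear_combination h
  have e6 := (T.eqv a 1 (β + u) a0 (by simpa using h') (ne_of_tr (by simpa using h') one_ne_zero)).1
  have e7 : t = a * U.σ a * u := by rw [ha, div_mul_cancel₀ _ u0]
  rw [mul_one] at e5 e6
  rw [show a * U.σ a * (β + u) = t + a * U.σ a * β by rw [e7]; ring, e2] at e6
  refine ⟨_, e3, ?_⟩
  rw [← e4, ← e5, ← e6, map_mul, map_mul, U.σσ, e7]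
  ring

theorem main : ∃ S : E, S ≠ 0 ∧ U.σ S = S ∧ ∀ a b, b + U.σ b = a * U.σ a → b ≠ 0 →
    T.A a b = S * a / b ∧ T.B a b = S ^ 2 / b := by
  obtain ⟨S, S0, hS⟩ := T.circle
  have h2 := T.two
  have A0 : ∀ β, β + U.σ β = 1 → T.A 1 β ≠ 0 := fun β h => T.A_ne (by simpa using h) one_ne_zero
  obtain ⟨g, hg⟩ : ∃ g : E → E, ∀ β, g β = S / T.A 1 β := ⟨_, fun _ => rfl⟩
  have g0 : ∀ β, β + U.σ β = 1 → g β ≠ 0 := fun β h => hg β ▸ div_ne_zero S0 (A0 β h)
  have hA : ∀ β, β + U.σ β = 1 → T.A 1 β = S / g β := fun β h => by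
    rw [hg, div_div_cancel₀ S0]
  have ginj : ∀ β β', β + U.σ β = 1 → β' + U.σ β' = 1 → g β = g β' → β = β' := fun β β' h h' e =>
    T.A_inj h' h (by rw [hA β h, hA β' h', e])
  have gc : ∀ β, β + U.σ β = 1 → ∀ c, c * U.σ c = 1 → T.A 1 β = (1 - c) * S →
      U.σ (g β) = 1 - g β ∧ c * g β = g β - 1 := fun β h c e1 e2 => by
    have h3 : 1 - c ≠ 0 := fun e => A0 β h (by rw [e2, e, zero_mul])
    have h4 : g β * (1 - c) = 1 := by rw [hg, e2]; field_simp
    have h5 := congrArg U.σ h4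
    rw [map_mul, map_sub, map_one] at h5
    refine ⟨mul_right_cancel₀ h3 ?_, by linear_combination -h4⟩
    linear_combination -c * h5 + h4 - U.σ (g β) * e1
  have gσ : ∀ β, β + U.σ β = 1 → U.σ (g β) = 1 - g β := fun β h => by
    obtain ⟨c, d, h1, c0, h3, -, -, h4⟩ := T.star1 h
    obtain ⟨e1, e2⟩ := hS β h c d h1 c0 h3 h4
    exact (gc β h c e1 e2).1
  have S1 := U.σ_eq_zero.not.2 S0
  obtain ⟨θ, θ0, hθ⟩ := U.exists_skew
  have hh := T.half
  have ad : ∀ β u, β + U.σ β = 1 → U.σ u = -u → β + u + U.σ (β + u) = 1 := fun β u h hu => by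
    rw [map_add, hu]; linear_combination h
  -- `g` is affine
  have aff : ∀ t m : E, U.σ t = -t → t ≠ 0 → m ≠ 0 → (∀ β u, β + U.σ β = 1 → U.σ u = -u → u ≠ 0 →
      ∃ γ, γ + U.σ γ = 1 ∧ t * T.A 1 γ = u * U.σ m * U.σ (T.A 1 β) * T.A 1 (β + u)) →
      ∀ β u, β + U.σ β = 1 → U.σ u = -u → t / (U.σ m * U.σ S) * (g (β + u) - g β) = u := by
    intro t m ht t0 m0 h
    have m1 := U.σ_eq_zero.not.2 m0
    set ω := t / (U.σ m * U.σ S) with hω
    have e : ∀ β u, β + U.σ β = 1 → U.σ u = -u → u ≠ 0 →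
        g (β + u) * (1 - g β) * ω - (1 - g (β + u)) * g β * U.σ ω = u := fun β u hb hu u0 => by
      obtain ⟨γ, h1, h3⟩ := h β u hb hu u0
      have h4 := gσ β hb
      have h5 := g0 β hb
      have h6 := g0 _ (ad β u hb hu)
      have h7 := g0 γ h1
      have h8 : 1 - g β ≠ 0 := h4 ▸ U.σ_eq_zero.not.2 h5
      rw [hA γ h1, hA β hb, hA _ (ad β u hb hu), map_div₀, h4] at h3
      have h9 : u * g γ = g (β + u) * (1 - g β) * ω := by
        rw [hω]; field_simp at h3 ⊢; linear_combination -h3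
      have h10 := congrArg U.σ h9
      simp only [map_mul, map_sub, map_one, hu, gσ γ h1, h4, gσ _ (ad β u hb hu)] at h10
      linear_combination h10 - h9
    have hr : U.σ ω = ω := by
      by_contra hne
      have f : ∀ u, U.σ u = -u → u ≠ 0 → g (2⁻¹ + u) * (1 - 2 * g 2⁻¹) = -g 2⁻¹ := fun u hu u0 => by
        have e1 := e _ u hh hu u0
        have e2 := e _ (-u) (ad _ u hh hu) (by rw [map_neg, hu]) (neg_ne_zero.2 u0)
        rw [add_neg_cancel_right] at e2
        refine mul_right_cancel₀ (sub_ne_zero.2 hne) ?_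
        linear_combination -e1 - e2
      have f1 := f θ hθ θ0
      have f2 := f (-θ) (by rw [map_neg, hθ]) (neg_ne_zero.2 θ0)
      by_cases e3 : 1 - 2 * g 2⁻¹ = 0
      · exact g0 _ hh (by rw [e3, mul_zero] at f1; exact neg_eq_zero.1 f1.symm)
      · have := ginj _ _ (ad _ θ hh hθ) (ad _ (-θ) hh (by rw [map_neg, hθ]))
          (mul_right_cancel₀ e3 (f1.trans f2.symm))
        exact mul_ne_zero h2 θ0 (by linear_combination this)
    intro β u hb hu
    by_cases u0 : u = 0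
    · simp [u0]
    · have := e β u hb hu u0
      rw [hr] at this
      linear_combination this
  obtain ⟨m, m0, hm, -⟩ := T.star0 hθ θ0
  have af := aff θ m hθ θ0 m0 hm
  set ω := θ / (U.σ m * U.σ S)
  -- the second coordinate
  have hπ : ∀ β, β + U.σ β = 1 → ∃ π, π + U.σ π = 1 ∧ T.B 1 β = π * (T.A 1 β * U.σ (T.A 1 β)) ∧
      g π * U.σ S = S * (1 - g β) := fun β h => by
    have h' : β + U.σ β = 1 * U.σ 1 := by simpa using h
    have h3 := T.val 1 β h' (ne_of_tr h' one_ne_zero)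
    obtain ⟨e1, e2, -⟩ := T.red h3.1 (A0 β h)
    refine ⟨_, e1, by rw [div_mul_cancel₀ _ (mul_ne_zero (A0 β h) (U.σ_eq_zero.not.2 (A0 β h)))], ?_⟩
    rw [(T.inv 1 β h' (ne_of_tr h' one_ne_zero)).1, mul_one] at e2
    rw [hg, ← e2, hA β h, map_div₀, gσ β h]
    field_simp
  have hσ : U.σ S = S := by
    have f : ∀ β, β + U.σ β = 1 → S ^ 2 * (1 - g β) + U.σ S ^ 2 * g β = S * U.σ S := fun β h => by
      obtain ⟨π, h1, -, h3⟩ := hπ β h
      have h4 := congrArg U.σ h3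
      simp only [map_mul, map_sub, map_one, U.σσ, gσ β h, gσ π h1] at h4
      linear_combination -S * h3 - U.σ S * h4
    have f1 := f _ hh
    have f2 := f _ (ad _ θ hh hθ)
    have f3 : g (2⁻¹ + θ) - g 2⁻¹ ≠ 0 := fun e => θ0 (by rw [← af _ θ hh hθ, e, mul_zero])
    have f4 : U.σ S ^ 2 = S ^ 2 := mul_right_cancel₀ f3 (by linear_combination f2 - f1)
    rw [f4] at f1
    exact mul_left_cancel₀ S0 (by linear_combination -f1)
  have hB : ∀ β, β + U.σ β = 1 → g (U.σ β) = 1 - g β ∧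
      T.B 1 β * (g β * (1 - g β)) = S ^ 2 * U.σ β := fun β h => by
    obtain ⟨π, h1, h3, h4⟩ := hπ β h
    obtain ⟨c, d, e1, c0, e3, e4, -, e5⟩ := T.star1 h
    obtain ⟨e6, e7⟩ := hS β h c d e1 c0 e3 e5
    have e8 := (gc β h c e6 e7).2
    have d0 := ne_of_tr e1 c0
    have e9 := (T.inv c d e1 d0).1
    have e10 := (T.val c d e1 d0).1
    rw [e3, e4] at e9 e10
    have a0 := A0 β h
    have a1 := U.σ_eq_zero.not.2 a0
    have e11 := (T.red e10 (neg_ne_zero.2 a0)).2.1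
    have h5 : U.σ π + U.σ (U.σ π) = 1 := by rw [U.σσ, add_comm, h1]
    have g1 := g0 β h
    have g2 : 1 - g β ≠ 0 := gσ β h ▸ U.σ_eq_zero.not.2 g1
    rw [e9, h3, show U.σ (π * (T.A 1 β * U.σ (T.A 1 β))) / (-T.A 1 β * U.σ (-T.A 1 β)) = U.σ π by
      simp only [map_mul, map_neg, U.σσ]; field_simp] at e11
    have e12 : g (U.σ π) = g β := by
      rw [hg, ← e11, map_neg, hA β h, map_div₀, hσ, gσ β h]
      field_simp
      linear_combination -e8
    have e13 := ginj _ _ h5 h e12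
    rw [hσ] at h4
    rw [← e13, U.σσ, e13]
    refine ⟨mul_right_cancel₀ S0 (by linear_combination h4), ?_⟩
    rw [h3, hA β h, map_div₀, hσ, gσ β h]
    field_simp
  have s2 : U.σ (2⁻¹ : E) = 2⁻¹ := by rw [map_inv₀, map_ofNat]
  have i2 : (2 : E) * 2⁻¹ = 1 := mul_inv_cancel₀ h2
  have gh : g 2⁻¹ = 2⁻¹ := by
    have := (hB _ hh).1
    rw [s2] at this
    exact mul_left_cancel₀ h2 (by linear_combination this - i2)
  have ω1 : ω = 1 := by
    obtain ⟨c, d, e1, c0, e3, -, e4, e5⟩ := T.star1 hh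
    obtain ⟨e6, e7⟩ := hS _ hh c d e1 c0 e3 e5
    have e8 := (gc _ hh c e6 e7).2
    obtain rfl : c = -1 := by rw [gh] at e8; linear_combination 2 * e8 - (c - 1) * i2
    have h1 := ad _ θ hh hθ
    obtain ⟨d', f1, f2, f3⟩ := e4 _ h1 (by simpa using θ0)
    obtain ⟨f4, f5, f6⟩ := T.red f1 c0
    simp only [map_neg, map_one, mul_neg, mul_one, neg_neg, div_one, one_mul, neg_mul] at f4 f5 f6
    have b1 := (hB _ hh).2
    have b2 := (hB _ h1).2
    have b3 := (hB _ f4).2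
    have a1 := af _ θ hh hθ
    have a2 := af _ (d' - 2⁻¹) hh (by rw [map_sub, s2]; linear_combination f4 - i2)
    have g1 := g0 _ h1
    have g2 := g0 _ f4
    rw [add_sub_cancel] at a2
    have g3 := gσ _ hh
    have x1 := hA _ hh
    have x2 := hA _ h1
    have x3 := hA _ f4
    have x4 : U.σ (T.A 1 2⁻¹) = 2 * S := by rw [x1, gh, map_div₀, hσ, s2, div_inv_eq_mul, mul_comm]
    rw [gh] at x1 b1 a1 a2
    rw [neg_eq_iff_eq_neg.1 f5, x3] at f2 f3
    rw [x1, x2] at f2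
    rw [f6, x4] at f3
    rw [map_add, s2, hθ] at b2
    rw [eq_sub_of_add_eq' f4] at b3
    rw [s2] at b1
    generalize g (2⁻¹ + θ) = γ1 at *
    generalize g d' = γ2 at *
    have k1 : γ2 * (2 * γ1 - 1) = γ1 := by
      field_simp at f2
      linear_combination -f2
    have k2 : T.B 1 2⁻¹ = 2 * S ^ 2 := by
      linear_combination 4 * b1 + (T.B 1 2⁻¹ * (2 * 2⁻¹ - 1) + 2 * S ^ 2) * i2
    have k3 : S / γ2 * γ2 = S := div_mul_cancel₀ _ g2
    have k4 : 2⁻¹ - θ = 2 * γ1 * (1 - γ1) - 2 * (2 * γ1 - 1) * (1 - γ1) - (2 * γ1 - 1) ^ 2 * (1 - d') := by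
      refine mul_left_cancel₀ (pow_ne_zero 2 S0) ?_
      linear_combination -b2 + γ1 * (1 - γ1) * (f3 + k2) - (2 * γ1 - 1) ^ 2 * b3 +
        T.B 1 d' * (2 * γ1 - 1 - (2 * γ1 - 1) * γ2 - γ1) * k1 +
        2 * S * (1 - γ1) * (S / γ2 * k1 - (2 * γ1 - 1) * k3)
    have u0 : 2 * γ1 - 1 ≠ 0 := fun e => g1 (by rw [← k1, e, mul_zero])
    refine mul_right_cancel₀ u0 ?_
    generalize (2⁻¹ : E) = h at *
    grind
  have gid : ∀ β, β + U.σ β = 1 → g β = β := fun β h => by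
    have := af _ (β - 2⁻¹) hh (by rw [map_sub, s2]; linear_combination h - i2)
    rw [ω1, add_sub_cancel, gh] at this
    linear_combination this
  have one : ∀ β, β + U.σ β = 1 → T.A 1 β = S / β ∧ T.B 1 β = S ^ 2 / β := fun β h => by
    have b0 : β ≠ 0 := gid β h ▸ g0 β h
    have e := (hB β h).2
    rw [gid β h, eq_sub_of_add_eq' h, ← mul_assoc] at e
    refine ⟨by rw [hA β h, gid β h], eq_div_of_mul_eq b0 (mul_right_cancel₀ ?_ e)⟩
    exact eq_sub_of_add_eq' h ▸ U.σ_eq_zero.not.2 b0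
  have ne : ∀ a b, b + U.σ b = a * U.σ a → a ≠ 0 → T.A a b = S * a / b ∧ T.B a b = S ^ 2 / b :=
    fun a b h a0 => by
      obtain ⟨e1, e2, e3⟩ := T.red h a0
      have a1 := U.σ_eq_zero.not.2 a0
      have b0 := ne_of_tr h a0
      rw [(one _ e1).1] at e2
      rw [(one _ e1).2] at e3
      constructor
      · refine mul_left_cancel₀ a1 (e2.trans ?_)
        field_simp
      · refine mul_left_cancel₀ (mul_ne_zero a0 a1) (e3.trans ?_)
        field_simp
  refine ⟨S, S0, hσ, fun a b h b0 => ?_⟩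
  by_cases a0 : a = 0
  swap
  · exact ne a b h a0
  subst a0
  have hb : U.σ b = -b := by simpa [add_comm b, add_eq_zero_iff_eq_neg] using h
  refine ⟨by rw [T.A_zero (by simpa using h) b0, mul_zero, zero_div], ?_⟩
  obtain ⟨m, m0, hm, hm'⟩ := T.star0 hb b0
  have e1 := aff b m hb b0 m0 hm _ θ hh hθ
  have m1 := U.σ_eq_zero.not.2 m0
  rw [gid _ hh, gid _ (ad _ θ hh hθ), add_sub_cancel_left, mul_eq_right₀ θ0, hσ,
    div_eq_one_iff_eq (mul_ne_zero m1 S0)] at e1
  have e2 := congrArg U.σ e1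
  rw [map_mul, U.σσ, hσ, hb] at e2
  obtain ⟨d, f1, f2, f3⟩ := hm' _ hh
  have a0 := mul_ne_zero m0 (A0 _ hh)
  have d0 := ne_of_tr f1 a0
  have h1 := ad _ b hh hb
  have c0 : 2⁻¹ + b ≠ 0 := gid _ h1 ▸ g0 _ h1
  rw [(ne _ d f1 a0).1, (one _ hh).1, (one _ h1).1] at f2
  rw [(ne _ d f1 a0).2, (one _ h1).2] at f3
  have f5 : (2⁻¹ + b) * 2 - 1 = 2 * b := by linear_combination i2
  generalize 2⁻¹ + b = k at *
  have f4 : d = -2 * b * k := by
    field_simp at f2
    linear_combination f2 - 2 * k * e2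
  rw [← sub_eq_iff_eq_add.2 f3, f4]
  field_simp
  linear_combination -f5

end Tau

end Cfsg.Agent.L0.U3
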